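import Mathlib

/-! Normal form, up to isometry, of a square-zero self-adjoint map on a Hermitian space
over a finite field of characteristic two. -/

set_option autoImplicit false

namespace Cfsg.Agent.Lib.KnownSimple

universe u v

/-- A form additive and homogeneous in the first variable and Hermitian for `x ↦ x ^ q`. -/
structure IsHerm (q : ℕ) {F : Type v} {V : Type u} [Field F] [AddCommGroup V] [Module F V]
    (h : V → V → F) : Prop where
  add_left : ∀ u u' v, h (u + u') v = h u v + h u' v
  smul_left : ∀ (c : F) u v, h (c • u) v = c * h u v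
  swap : ∀ u v, h v u = (h u v) ^ q

/-- The field facts used. -/
structure HermField (q : ℕ) (F : Type v) [Field F] : Prop where
  ne : q ≠ 0
  add : ∀ a b : F, (a + b) ^ q = a ^ q + b ^ q
  sigma : ∀ a : F, (a ^ q) ^ q = a
  norm : ∀ t : F, t ≠ 0 → t ^ q = t → ∃ l : F, l ^ (q + 1) = t
  zeta : ∃ ζ : F, ζ ^ q + ζ ≠ 0

/-- The field with `q²` elements, with `q` a power of two. -/
theorem hermField_of_card {F : Type v} [Field F] [Fintype F] [CharP F 2] {q : ℕ}
    (hF : Fintype.card F = q ^ 2) : HermField q F := by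
  classical
  have hq0 : q ≠ 0 := by
    rintro rfl
    have := Fintype.card_pos (α := F)
    simp [hF] at this
  have hq1 : 2 ≤ q := by
    by_contra hcon
    have : q = 1 := by omega
    subst this
    have := Fintype.one_lt_card (α := F)
    simp [hF] at this
  have hsigma : ∀ a : F, (a ^ q) ^ q = a := by
    intro a
    rw [← pow_mul, ← pow_two, ← hF, FiniteField.pow_card]
  obtain ⟨ω, hω⟩ := IsCyclic.exists_generator (α := Fˣ)
  have hord : orderOf ω = q ^ 2 - 1 := by
    rw [orderOf_eq_card_of_forall_mem_zpowers hω, Nat.card_eq_fintype_card, Fintype.card_units, hF]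
  have hq2 : q ^ 2 - 1 = (q - 1) * (q + 1) := by
    obtain ⟨k, rfl⟩ : ∃ k, q = k + 1 := ⟨q - 1, by omega⟩
    simp only [Nat.add_sub_cancel]
    have : (k + 1) ^ 2 = k * (k + 1 + 1) + 1 := by ring
    omega
  have hadd : ∀ a b : F, (a + b) ^ q = a ^ q + b ^ q := by
    have hq : ∃ n, q = 2 ^ n := by
      have h1 : ∀ p : ℕ, p.Prime → p ∣ q → p = 2 := by
        intro p hp hpq
        have h2 : p ∣ Fintype.card F := by rw [hF]; exact dvd_pow hpq (by norm_num)
        obtain ⟨n, hn⟩ := FiniteField.card F 2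
        rw [hn.2] at h2
        exact (Nat.prime_dvd_prime_iff_eq hp Nat.prime_two).mp (hp.dvd_of_dvd_pow h2)
      exact ⟨_, (Nat.eq_prime_pow_of_unique_prime_dvd hq0 (fun {p} hp hd => h1 p hp hd))⟩
    obtain ⟨n, hn⟩ := hq
    intro a b
    rw [hn]
    exact add_pow_char_pow a b 2 n
  refine ⟨hq0, hadd, hsigma, ?_, ?_⟩
  · intro t ht0 ht
    obtain ⟨s, hs⟩ := hω (Units.mk0 t ht0)
    have hpow : (Units.mk0 t ht0) ^ (q - 1) = 1 := by
      apply Units.ext
      simp only [Units.val_pow_eq_pow_val, Units.val_mk0, Units.val_one]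
      have : t ^ (q - 1) * t = t := by
        rw [← pow_succ, Nat.sub_add_cancel (by omega), ht]
      exact mul_right_cancel₀ ht0 (this.trans (one_mul t).symm)
    -- write `t = ω ^ k`
    have hfin : Finite Fˣ := inferInstance
    obtain ⟨k, hk⟩ : ∃ k : ℕ, ω ^ k = Units.mk0 t ht0 := by
      have : Units.mk0 t ht0 ∈ Submonoid.powers ω := by
        rw [mem_powers_iff_mem_zpowers]
        exact hω _
      exact this
    have hdvd : orderOf ω ∣ k * (q - 1) := by
      rw [orderOf_dvd_iff_pow_eq_one, pow_mul, hk, hpow]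
    rw [hord, hq2, mul_comm k] at hdvd
    have hdvd' : q + 1 ∣ k := Nat.dvd_of_mul_dvd_mul_left (by omega) hdvd
    obtain ⟨k', rfl⟩ := hdvd'
    refine ⟨((ω ^ k' : Fˣ) : F), ?_⟩
    have : (ω ^ k') ^ (q + 1) = Units.mk0 t ht0 := by
      rw [← pow_mul, mul_comm]
      exact hk
    have h2 := congrArg Units.val this
    simpa using h2
  · refine ⟨(ω : F), ?_⟩
    intro h
    have h1 : (ω : F) ^ q = ω := by
      have h2 : (2 : F) = 0 := CharTwo.two_eq_zero
      have h3 : (ω : F) + ω = 0 := by rw [← two_mul, h2, zero_mul]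
      calc (ω : F) ^ q = ((ω : F) ^ q + ω) + ω := by rw [add_assoc, h3, add_zero]
        _ = ω := by rw [h, zero_add]
    have h2 : ω ^ (q - 1) = 1 := by
      apply Units.ext
      simp only [Units.val_pow_eq_pow_val, Units.val_one]
      have : (ω : F) ^ (q - 1) * ω = ω := by
        rw [← pow_succ, Nat.sub_add_cancel (by omega), h1]
      exact mul_right_cancel₀ ω.ne_zero (this.trans (one_mul _).symm)
    have h3 := orderOf_dvd_of_pow_eq_one h2
    rw [hord, hq2] at h3
    have h4 : (q - 1) * (q + 1) ≤ q - 1 := Nat.le_of_dvd (by omega) h3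
    have h5 : (q - 1) * 2 ≤ (q - 1) * (q + 1) := Nat.mul_le_mul_left _ (by omega)
    omega

variable {F : Type v} [Field F] {q : ℕ} {V : Type u} [AddCommGroup V] [Module F V]
  {h : V → V → F}

namespace IsHerm

theorem conj (hh : IsHerm q h) (hF : HermField q F) (u v : V) : (h v u) ^ q = h u v := by
  rw [hh.swap u v, hF.sigma]

theorem add_right (hh : IsHerm q h) (hF : HermField q F) (u v v' : V) :
    h u (v + v') = h u v + h u v' := by
  rw [hh.swap (v + v') u, hh.add_left, hF.add, hh.conj hF, hh.conj hF]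

theorem smul_right (hh : IsHerm q h) (c : F) (u v : V) :
    h u (c • v) = c ^ q * h u v := by
  rw [hh.swap (c • v) u, hh.smul_left, mul_pow, ← hh.swap]

theorem zero_left (hh : IsHerm q h) (v : V) : h 0 v = 0 := by
  have := hh.smul_left 0 0 v
  simpa using this

theorem zero_right (hh : IsHerm q h) (hF : HermField q F) (v : V) : h v 0 = 0 := by
  rw [hh.swap 0 v, hh.zero_left, zero_pow hF.ne]

/-- The linear functional `v ↦ h v x`. -/
def lin (hh : IsHerm q h) (x : V) : V →ₗ[F] F where
  toFun v := h v x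
  map_add' u v := hh.add_left u v x
  map_smul' c u := hh.smul_left c u x

theorem lin_apply (hh : IsHerm q h) (x v : V) : hh.lin x v = h v x := rfl

/-- Restriction to a submodule. -/
theorem restrict (hh : IsHerm q h) (W : Submodule F V) :
    IsHerm q (fun x y : W => h x y) where
  add_left u u' v := hh.add_left _ _ _
  smul_left c u v := hh.smul_left _ _ _
  swap u v := hh.swap _ _

/-- Polarisation: a non-zero form takes a non-zero value on the diagonal. -/
theorem exists_diag (hh : IsHerm q h) (hF : HermField q F) {u v : V} (huv : h u v ≠ 0) :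
    ∃ w, h w w ≠ 0 := by
  by_contra hcon
  push Not at hcon
  obtain ⟨ζ, hζ⟩ := hF.zeta
  set t := h u v with ht
  have e := hcon (u + (ζ * t) • v)
  rw [hh.add_left, hh.add_right hF, hh.add_right hF, hh.smul_left, hh.smul_left, hh.smul_right,
    hh.smul_right, hcon u, hcon v, hh.swap u v, ← ht, mul_pow] at e
  have e2 : (ζ ^ q + ζ) * (t ^ q * t) = 0 := by
    linear_combination e
  have ht0 : t ^ q ≠ 0 := pow_ne_zero _ huv
  rcases mul_eq_zero.mp e2 with h3 | h3
  · exact hζ h3
  · rcases mul_eq_zero.mp h3 with h4 | h4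
    · exact ht0 h4
    · exact huv h4

end IsHerm

/-- Nondegeneracy. -/
def HermNondeg (h : V → V → F) : Prop := ∀ u, (∀ v, h u v = 0) → u = 0

/-- A non-zero Hermitian space has a vector of norm one. -/
theorem exists_norm_one (hh : IsHerm q h) (hF : HermField q F) (hnd : HermNondeg h) [Nontrivial V] :
    ∃ c, h c c = 1 := by
  obtain ⟨u, hu⟩ := exists_ne (0 : V)
  have : ∃ v, h u v ≠ 0 := by
    by_contra hcon
    push Not at hcon
    exact hu (hnd u hcon)
  obtain ⟨v, hv⟩ := this
  obtain ⟨w, hw⟩ := hh.exists_diag hF hv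
  have hfix : (h w w)⁻¹ ^ q = (h w w)⁻¹ := by
    rw [inv_pow, ← hh.swap]
  obtain ⟨l, hl⟩ := hF.norm _ (inv_ne_zero hw) hfix
  refine ⟨l • w, ?_⟩
  rw [hh.smul_left, hh.smul_right]
  calc l * (l ^ q * h w w) = l ^ (q + 1) * h w w := by ring
    _ = 1 := by rw [hl, inv_mul_cancel₀ hw]

variable [CharP F 2]

/-- Adjusting a vector with `h c₀ (N c₀) = 1` to an isotropic one. -/
theorem exists_hyper_aux (hh : IsHerm q h) (hF : HermField q F)
    (N : V →ₗ[F] V) (hN1 : ∀ v, N (N v) = 0) (hN2 : ∀ u v, h (N u) v = h u (N v)) {c₀ : V}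
    (e1 : h c₀ (N c₀) = 1) : ∃ c, h c c = 0 ∧ h c (N c) = 1 := by
  have hrr : h (N c₀) (N c₀) = 0 := by
    rw [hN2, hN1, hh.zero_right hF]
  have hrc : h (N c₀) c₀ = 1 := by
    rw [hN2]
    exact e1
  have hs : (h c₀ c₀) ^ q = h c₀ c₀ := (hh.swap c₀ c₀).symm
  obtain ⟨ζ, hζ⟩ := hF.zeta
  obtain ⟨τ, hτ⟩ : ∃ τ, τ = ζ ^ q + ζ := ⟨_, rfl⟩
  rw [← hτ] at hζ
  have hτq : τ ^ q = τ := by
    rw [hτ, hF.add, hF.sigma, add_comm]
  obtain ⟨α, hα⟩ : ∃ α, α = h c₀ c₀ * ζ / τ := ⟨_, rfl⟩
  have hαq : α ^ q + α = h c₀ c₀ := by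
    rw [hα, div_pow, mul_pow, hs, hτq]
    field_simp
    rw [hτ]
  have hNc : N (c₀ + α • N c₀) = N c₀ := by
    simp only [map_add, map_smul, hN1, smul_zero, add_zero]
  refine ⟨c₀ + α • N c₀, ?_, ?_⟩
  · rw [hh.add_left, hh.add_right hF, hh.add_right hF, hh.smul_left, hh.smul_left, hh.smul_right,
      hh.smul_right, e1, hrc, hrr]
    have h2 : (h c₀ c₀) + (h c₀ c₀) = 0 := CharTwo.add_self_eq_zero _
    linear_combination hαq + h2
  · rw [hNc, hh.add_left, hh.smul_left, e1, hrr, mul_zero, add_zero]

/-- A non-zero square-zero self-adjoint map has a hyperbolic pair `c, N c`. -/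
theorem exists_hyper (hh : IsHerm q h) (hF : HermField q F) (hnd : HermNondeg h)
    (N : V →ₗ[F] V) (hN1 : ∀ v, N (N v) = 0) (hN2 : ∀ u v, h (N u) v = h u (N v)) (hN0 : N ≠ 0) :
    ∃ c, h c c = 0 ∧ h c (N c) = 1 := by
  have hg : IsHerm q (fun u v => h u (N v)) :=
    { add_left := fun u u' v => hh.add_left _ _ _
      smul_left := fun c u v => hh.smul_left _ _ _
      swap := fun u v => by
        change h v (N u) = _
        rw [← hN2, hh.swap] }
  obtain ⟨v, hv⟩ : ∃ v, N v ≠ 0 := by
    by_contra hcon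
    push Not at hcon
    exact hN0 (LinearMap.ext hcon)
  obtain ⟨u', hu'⟩ : ∃ u', h (N v) u' ≠ 0 := by
    by_contra hcon
    push Not at hcon
    exact hv (hnd _ hcon)
  have h1 : h u' (N v) ≠ 0 := by
    rw [hh.swap (N v) u']
    exact pow_ne_zero _ hu'
  obtain ⟨w, hw⟩ := hg.exists_diag hF h1
  have hw' : h w (N w) ≠ 0 := hw
  have htfix : (h w (N w)) ^ q = h w (N w) := by
    rw [← hh.swap w (N w), hN2]
  obtain ⟨l, hl⟩ := hF.norm (h w (N w))⁻¹ (inv_ne_zero hw') (by rw [inv_pow, htfix])
  apply exists_hyper_aux hh hF N hN1 hN2 (c₀ := l • w)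
  rw [map_smul, hh.smul_left, hh.smul_right]
  calc l * (l ^ q * h w (N w)) = l ^ (q + 1) * h w (N w) := by ring
    _ = 1 := by rw [hl, inv_mul_cancel₀ hw']

omit [CharP F 2] in
theorem finrank_ker_add_one {V : Type u} [AddCommGroup V] [Module F V] [FiniteDimensional F V]
    (φ : V →ₗ[F] F) {c : V} (hc : φ c ≠ 0) :
    Module.finrank F (LinearMap.ker φ) + 1 = Module.finrank F V := by
  have h1 := LinearMap.finrank_range_add_finrank_ker φ
  have h2 : LinearMap.range φ = ⊤ := by
    rw [eq_top_iff]
    intro x _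
    refine ⟨(x / φ c) • c, ?_⟩
    rw [map_smul, smul_eq_mul, div_mul_cancel₀ _ hc]
  rw [h2, finrank_top, Module.finrank_self] at h1
  omega

omit [CharP F 2] in
/-- Expansion of the form along a vector of norm one. -/
theorem expand_ortho (hh : IsHerm q h) (hF : HermField q F) {c : V} (hcc : h c c = 1) {x y : V}
    (hx : h x c = 0) (hy : h y c = 0) (a b : F) :
    h (a • c + x) (b • c + y) = a * b ^ q + h x y := by
  have hcy : h c y = 0 := by
    rw [hh.swap y c, hy, zero_pow hF.ne]
  rw [hh.add_left, hh.add_right hF, hh.add_right hF, hh.smul_left, hh.smul_left, hh.smul_right,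
    hh.smul_right, hcc, hcy, hx]
  ring

omit [CharP F 2] in
/-- The orthonormal case: two Hermitian spaces of equal dimension are isometric. -/
theorem exists_isometry_ortho (hF : HermField q F) (d : ℕ) :
    ∀ {V V' : Type u} [AddCommGroup V] [Module F V] [FiniteDimensional F V] [AddCommGroup V']
      [Module F V'] [FiniteDimensional F V'] {h : V → V → F} {h' : V' → V' → F},
      IsHerm q h → IsHerm q h' → HermNondeg h → HermNondeg h' →
      Module.finrank F V = d → Module.finrank F V' = d →
      ∃ g : V →ₗ[F] V', ∀ u v, h' (g u) (g v) = h u v := by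
  induction d with
  | zero =>
    intro V V' _ _ _ _ _ _ h h' hh hh' hnd hnd' hd hd'
    have hs : Subsingleton V := Module.finrank_zero_iff.mp hd
    refine ⟨0, fun u v => ?_⟩
    rw [LinearMap.zero_apply, LinearMap.zero_apply, hh'.zero_left, Subsingleton.elim u 0, hh.zero_left]
  | succ d ih =>
    intro V V' _ _ _ _ _ _ h h' hh hh' hnd hnd' hd hd'
    have hnt : Nontrivial V := Module.nontrivial_of_finrank_pos (R := F) (by omega)
    have hnt' : Nontrivial V' := Module.nontrivial_of_finrank_pos (R := F) (by omega)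
    obtain ⟨c, hc⟩ := exists_norm_one hh hF hnd
    obtain ⟨c', hc'⟩ := exists_norm_one hh' hF hnd'
    let W := LinearMap.ker (hh.lin c)
    let W' := LinearMap.ker (hh'.lin c')
    have hmem : ∀ x, x ∈ W ↔ h x c = 0 := fun x => LinearMap.mem_ker
    have hmem' : ∀ x, x ∈ W' ↔ h' x c' = 0 := fun x => LinearMap.mem_ker
    have hfr : Module.finrank F W = d := by
      have := finrank_ker_add_one (hh.lin c) (c := c) (by rw [hh.lin_apply, hc]; exact one_ne_zero)
      have e : Module.finrank F W = Module.finrank F (LinearMap.ker (hh.lin c)) := rfl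
      omega
    have hfr' : Module.finrank F W' = d := by
      have := finrank_ker_add_one (hh'.lin c') (c := c') (by rw [hh'.lin_apply, hc']; exact one_ne_zero)
      have e : Module.finrank F W' = Module.finrank F (LinearMap.ker (hh'.lin c')) := rfl
      omega
    -- the projection
    have hproj : ∀ {V : Type u} [AddCommGroup V] [Module F V] {h : V → V → F} (hh : IsHerm q h) {c : V},
        h c c = 1 → ∀ v, h (v - h v c • c) c = 0 := by
      intro V _ _ h hh c hc v
      have : v - h v c • c = v + (- h v c) • c := by rw [neg_smul, sub_eq_add_neg]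
      rw [this, hh.add_left, hh.smul_left, hc]
      ring
    have hdecomp : ∀ {V : Type u} [AddCommGroup V] [Module F V] {h : V → V → F} {c : V} (v : V),
        h v c • c + (v - h v c • c) = v := by
      intro V _ _ h c v
      abel
    have hrestr : ∀ {V : Type u} [AddCommGroup V] [Module F V] {h : V → V → F} (hh : IsHerm q h)
        (hnd : HermNondeg h) {c : V}, h c c = 1 →
        HermNondeg (fun x y : LinearMap.ker (hh.lin c) => h x y) := by
      intro V _ _ h hh hnd c hc x hx
      apply Subtype.ext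
      apply hnd
      intro v
      have hxc : h x c = 0 := x.2
      have hy := hx ⟨v - h v c • c, hproj hh hc v⟩
      have : v = h v c • c + (v - h v c • c) := (hdecomp v).symm
      rw [this, hh.add_right hF, hh.smul_right, hxc, mul_zero, zero_add]
      exact hy
    obtain ⟨g₀, hg₀⟩ := ih (hh.restrict W) (hh'.restrict W') (hrestr hh hnd hc) (hrestr hh' hnd' hc') hfr hfr'
    let π : V →ₗ[F] W := LinearMap.codRestrict W
      (LinearMap.id - (hh.lin c).smulRight c) (fun v => hproj hh hc v)
    have hπ : ∀ v, (π v : V) = v - h v c • c := fun v => rfl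
    let g : V →ₗ[F] V' := (hh.lin c).smulRight c' + W'.subtype ∘ₗ g₀ ∘ₗ π
    have hg : ∀ v, g v = h v c • c' + (g₀ (π v) : V') := fun v => rfl
    refine ⟨g, fun u v => ?_⟩
    rw [hg, hg, expand_ortho hh' hF hc' (g₀ (π u)).2 (g₀ (π v)).2]
    have e := hg₀ (π u) (π v)
    change h' (g₀ (π u) : V') (g₀ (π v) : V') = h (π u : V) (π v : V) at e
    rw [e, hπ, hπ]
    have e2 := expand_ortho hh hF hc (hproj hh hc u) (hproj hh hc v) (h u c) (h v c)
    rw [hdecomp, hdecomp] at e2
    exact e2.symm

omit [CharP F 2] in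
/-- Expansion of the form along a hyperbolic pair. -/
theorem expand_hyper (hh : IsHerm q h) (hF : HermField q F) {c r : V} (hcc : h c c = 0)
    (hrr : h r r = 0) (hcr : h c r = 1) {x y : V}
    (hxc : h x c = 0) (hxr : h x r = 0) (hyc : h y c = 0) (hyr : h y r = 0) (a b a' b' : F) :
    h (a • c + b • r + x) (a' • c + b' • r + y) = a * b' ^ q + b * a' ^ q + h x y := by
  have hcy : h c y = 0 := by
    rw [hh.swap y c, hyc, zero_pow hF.ne]
  have hry : h r y = 0 := by
    rw [hh.swap y r, hyr, zero_pow hF.ne]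
  have hrc : h r c = 1 := by
    rw [hh.swap c r, hcr, one_pow]
  simp only [hh.add_left, hh.add_right hF, hh.smul_left, hh.smul_right, hcc, hrr, hcr, hrc, hcy, hry,
    hxc, hxr]
  ring

omit [CharP F 2] in
theorem IsHerm.sub_left (hh : IsHerm q h) (u u' v : V) : h (u - u') v = h u v - h u' v := by
  have : u - u' = u + (-1 : F) • u' := by simp [sub_eq_add_neg]
  rw [this, hh.add_left, hh.smul_left]
  ring

omit [CharP F 2] in
/-- The projection to the orthogonal complement of a hyperbolic pair. -/
theorem proj_hyper (hh : IsHerm q h) {c r : V} (hcc : h c c = 0) (hrr : h r r = 0) (hcr : h c r = 1)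
    (hrc : h r c = 1) (v : V) :
    h (v - h v r • c - h v c • r) r = 0 ∧ h (v - h v r • c - h v c • r) c = 0 := by
  constructor
  · rw [hh.sub_left, hh.sub_left, hh.smul_left, hh.smul_left, hcr, hrr]
    ring
  · rw [hh.sub_left, hh.sub_left, hh.smul_left, hh.smul_left, hcc, hrc]
    ring

omit [CharP F 2] in
/-- The orthogonal complement of a hyperbolic pair `c, N c`. -/
theorem hyper_reduce (hh : IsHerm q h) (hF : HermField q F) (hnd : HermNondeg h) [FiniteDimensional F V]
    (N : V →ₗ[F] V) (hN1 : ∀ v, N (N v) = 0) (hN2 : ∀ u v, h (N u) v = h u (N v)) {c : V}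
    (hcc : h c c = 0) (hcr : h c (N c) = 1) :
    ∃ (W : Submodule F V) (NW : W →ₗ[F] W),
      (∀ x, x ∈ W ↔ h x (N c) = 0 ∧ h x c = 0) ∧ (∀ x : W, (NW x : V) = N x) ∧
      HermNondeg (fun x y : W => h x y) ∧ Module.finrank F W + 2 = Module.finrank F V ∧
      Module.finrank F (LinearMap.range NW) + 1 = Module.finrank F (LinearMap.range N) := by
  have hrr : h (N c) (N c) = 0 := by
    rw [hN2, hN1, hh.zero_right hF]
  have hrc : h (N c) c = 1 := by
    rw [hN2]
    exact hcr
  let φ : V →ₗ[F] F × F := (hh.lin (N c)).prod (hh.lin c)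
  let W := LinearMap.ker φ
  have hmem : ∀ x, x ∈ W ↔ h x (N c) = 0 ∧ h x c = 0 := by
    intro x
    rw [LinearMap.mem_ker, Prod.ext_iff]
    rfl
  have hf : ∀ x ∈ W, N x ∈ W := by
    intro x hx
    obtain ⟨h1, h2⟩ := (hmem x).mp hx
    rw [hmem]
    constructor
    · rw [hN2, hN1, hh.zero_right hF]
    · rw [hN2]
      exact h1
  let NW : W →ₗ[F] W := N.restrict hf
  have hNW : ∀ x : W, (NW x : V) = N x := fun x => rfl
  have hdec : ∀ v, h v (N c) • c + h v c • N c + (v - h v (N c) • c - h v c • N c) = v := by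
    intro v
    abel
  refine ⟨W, NW, hmem, hNW, ?_, ?_, ?_⟩
  · intro x hx
    apply Subtype.ext
    apply hnd
    intro v
    obtain ⟨h1, h2⟩ := (hmem x).mp x.2
    have hy := hx ⟨v - h v (N c) • c - h v c • N c, (hmem _).mpr (proj_hyper hh hcc hrr hcr hrc v)⟩
    rw [← hdec v, hh.add_right hF, hh.add_right hF, hh.smul_right, hh.smul_right, h1, h2]
    simp only [mul_zero, zero_add]
    exact hy
  · have h1 := LinearMap.finrank_range_add_finrank_ker φ
    have h2 : LinearMap.range φ = ⊤ := by
      rw [eq_top_iff]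
      rintro ⟨a, b⟩ _
      refine ⟨a • c + b • N c, ?_⟩
      apply Prod.ext
      · change h (a • c + b • N c) (N c) = a
        rw [hh.add_left, hh.smul_left, hh.smul_left, hcr, hrr]
        ring
      · change h (a • c + b • N c) c = b
        rw [hh.add_left, hh.smul_left, hh.smul_left, hcc, hrc]
        ring
    rw [h2, finrank_top] at h1
    simp only [Module.finrank_prod, Module.finrank_self] at h1
    have e : Module.finrank F W = Module.finrank F (LinearMap.ker φ) := rfl
    omega
  · let R1 := (LinearMap.range NW).map W.subtype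
    let S := Submodule.span F {N c}
    have hr0 : N c ≠ 0 := by
      intro h0
      rw [h0, hh.zero_right hF] at hcr
      exact zero_ne_one hcr
    have hinf : S ⊓ R1 = ⊥ := by
      rw [eq_bot_iff]
      rintro x ⟨hx1, hx2⟩
      obtain ⟨a, rfl⟩ := Submodule.mem_span_singleton.mp hx1
      have hW : a • N c ∈ W := by
        obtain ⟨y, -, hy⟩ := hx2
        rw [← hy]
        exact y.2
      have h3 := ((hmem _).mp hW).2
      rw [hh.smul_left, hrc, mul_one] at h3
      rw [h3, zero_smul]
      exact Submodule.zero_mem _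
    have hsup : S ⊔ R1 = LinearMap.range N := by
      apply le_antisymm
      · apply sup_le
        · rw [Submodule.span_le, Set.singleton_subset_iff]
          exact ⟨c, rfl⟩
        · rintro _ ⟨_, ⟨y, rfl⟩, rfl⟩
          exact ⟨y, rfl⟩
      · rintro _ ⟨v, rfl⟩
        have hp : v - h v (N c) • c - h v c • N c ∈ W := (hmem _).mpr (proj_hyper hh hcc hrr hcr hrc v)
        have e : N v = h v (N c) • N c + N (v - h v (N c) • c - h v c • N c) := by
          simp only [map_sub, map_smul, hN1, smul_zero, sub_zero]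
          abel
        rw [e]
        apply Submodule.add_mem
        · exact Submodule.mem_sup_left (Submodule.smul_mem _ _ (Submodule.mem_span_singleton_self _))
        · apply Submodule.mem_sup_right
          exact ⟨NW ⟨_, hp⟩, ⟨⟨_, hp⟩, rfl⟩, rfl⟩
    have h3 := Submodule.finrank_sup_add_finrank_inf_eq S R1
    rw [hsup, hinf, finrank_bot, finrank_span_singleton hr0, Submodule.finrank_map_subtype_eq] at h3
    omega

/-- The square-zero case. -/
theorem exists_isometry_sqzero (hF : HermField q F) (d : ℕ) :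
    ∀ {V V' : Type u} [AddCommGroup V] [Module F V] [FiniteDimensional F V] [AddCommGroup V']
      [Module F V'] [FiniteDimensional F V'] {h : V → V → F} {h' : V' → V' → F},
      IsHerm q h → IsHerm q h' → HermNondeg h → HermNondeg h' →
      ∀ (N : V →ₗ[F] V) (N' : V' →ₗ[F] V'), (∀ v, N (N v) = 0) → (∀ u v, h (N u) v = h u (N v)) →
      (∀ v, N' (N' v) = 0) → (∀ u v, h' (N' u) v = h' u (N' v)) →
      Module.finrank F V = d → Module.finrank F V' = d →
      Module.finrank F (LinearMap.range N) = Module.finrank F (LinearMap.range N') →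
      ∃ g : V →ₗ[F] V', (∀ u v, h' (g u) (g v) = h u v) ∧ ∀ v, N' (g v) = g (N v) := by
  induction d using Nat.strong_induction_on with
  | _ d ih =>
    intro V V' _ _ _ _ _ _ h h' hh hh' hnd hnd' N N' hN1 hN2 hN1' hN2' hd hd' hrk
    by_cases hN0 : N = 0
    · have hN0' : N' = 0 := by
        rw [hN0, LinearMap.range_zero, finrank_bot] at hrk
        exact LinearMap.range_eq_bot.mp (Submodule.finrank_eq_zero.mp hrk.symm)
      obtain ⟨g, hg⟩ := exists_isometry_ortho hF d hh hh' hnd hnd' hd hd'
      refine ⟨g, hg, fun v => ?_⟩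
      rw [hN0, hN0']
      simp
    · have hN0' : N' ≠ 0 := by
        intro hcon
        rw [hcon, LinearMap.range_zero, finrank_bot] at hrk
        exact hN0 (LinearMap.range_eq_bot.mp (Submodule.finrank_eq_zero.mp hrk))
      obtain ⟨c, hcc, hcr⟩ := exists_hyper hh hF hnd N hN1 hN2 hN0
      obtain ⟨c', hcc', hcr'⟩ := exists_hyper hh' hF hnd' N' hN1' hN2' hN0'
      obtain ⟨W, NW, hmem, hNW, hndW, hfr, hrkW⟩ := hyper_reduce hh hF hnd N hN1 hN2 hcc hcr
      obtain ⟨W', NW', hmem', hNW', hndW', hfr', hrkW'⟩ := hyper_reduce hh' hF hnd' N' hN1' hN2' hcc' hcr'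
      have hrr : h (N c) (N c) = 0 := by
        rw [hN2, hN1, hh.zero_right hF]
      have hrc : h (N c) c = 1 := by
        rw [hN2]
        exact hcr
      have hrr' : h' (N' c') (N' c') = 0 := by
        rw [hN2', hN1', hh'.zero_right hF]
      obtain ⟨g₀, hg₀, hg₀N⟩ := ih (Module.finrank F W) (by omega) (hh.restrict W) (hh'.restrict W') hndW hndW'
        NW NW'
        (fun x => Subtype.ext (by rw [hNW, hNW, hN1]; rfl))
        (fun x y => by
          change h (NW x : V) y = h x (NW y : V)
          rw [hNW, hNW, hN2])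
        (fun x => Subtype.ext (by rw [hNW', hNW', hN1']; rfl))
        (fun x y => by
          change h' (NW' x : V') y = h' x (NW' y : V')
          rw [hNW', hNW', hN2'])
        rfl (by omega) (by omega)
      let p : V →ₗ[F] W := LinearMap.codRestrict W
        (LinearMap.id - (hh.lin (N c)).smulRight c - (hh.lin c).smulRight (N c))
        (fun v => (hmem _).mpr (proj_hyper hh hcc hrr hcr hrc v))
      have hp : ∀ v, (p v : V) = v - h v (N c) • c - h v c • N c := fun v => rfl
      let g : V →ₗ[F] V' := (hh.lin (N c)).smulRight c' + (hh.lin c).smulRight (N' c') + W'.subtype ∘ₗ g₀ ∘ₗ p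
      have hg : ∀ v, g v = h v (N c) • c' + h v c • N' c' + (g₀ (p v) : V') := fun v => rfl
      have hdec : ∀ v, h v (N c) • c + h v c • N c + (v - h v (N c) • c - h v c • N c) = v := by
        intro v
        abel
      refine ⟨g, fun u v => ?_, fun v => ?_⟩
      · rw [hg, hg, expand_hyper hh' hF hcc' hrr' hcr' ((hmem' _).mp (g₀ (p u)).2).2 ((hmem' _).mp (g₀ (p u)).2).1
          ((hmem' _).mp (g₀ (p v)).2).2 ((hmem' _).mp (g₀ (p v)).2).1]
        have e := hg₀ (p u) (p v)
        change h' (g₀ (p u) : V') (g₀ (p v) : V') = h (p u : V) (p v : V) at e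
        rw [e, hp, hp]
        have e2 := expand_hyper hh hF hcc hrr hcr (proj_hyper hh hcc hrr hcr hrc u).2 (proj_hyper hh hcc hrr hcr hrc u).1
          (proj_hyper hh hcc hrr hcr hrc v).2 (proj_hyper hh hcc hrr hcr hrc v).1 (h u (N c)) (h u c) (h v (N c)) (h v c)
        rw [hdec, hdec] at e2
        exact e2.symm
      · have e0 := hg₀N (p v)
        have e1 : (NW' (g₀ (p v)) : V') = N' (g₀ (p v) : V') := hNW' _
        have e2 : NW (p v) = p (N v) := by
          apply Subtype.ext
          rw [hNW, hp, hp, hN2, hN2, hN1, hh.zero_right hF]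
          simp only [map_sub, map_smul, hN1, smul_zero, sub_zero, zero_smul]
        rw [hg, hg, hN2, hN2, hN1, hh.zero_right hF, map_add, map_add, map_smul, map_smul, hN1', ← e1, e0, e2]
        simp

end Cfsg.Agent.Lib.KnownSimple
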