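/-
Numerics for nilpotent subgroups of symmetric groups: the 2-adic valuation `v n` of `n!`, the bounds
`B`, `F`, and the comparison of `p`-parts of factorials with the 2-part.
-/
import Mathlib

set_option autoImplicit false

namespace Cfsg.Agent.Lib.KnownSimple.NilpNumeric

open Nat

/-- The 2-adic valuation of `n!`. -/
def v (n : ℕ) : ℕ := (n !).factorization 2

lemma v_zero : v 0 = 0 := by simp [v]

lemma v_succ (n : ℕ) : v (n + 1) = v n + (n + 1).factorization 2 := by
  rw [v, v, Nat.factorial_succ, Nat.factorization_mul (by omega) (Nat.factorial_ne_zero n),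
    Finsupp.add_apply, add_comm]

lemma v_le_succ (n : ℕ) : v n ≤ v (n + 1) := by
  rw [v_succ]; omega

lemma v_mono {a b : ℕ} (h : a ≤ b) : v a ≤ v b := by
  induction h with
  | refl => exact le_rfl
  | step _ ih => exact ih.trans (v_le_succ _)

lemma v_add (a b : ℕ) : v a + v b ≤ v (a + b) := by
  have h := Nat.factorial_mul_factorial_dvd_factorial_add a b
  have h2 := (Nat.factorization_le_iff_dvd
    (mul_ne_zero (Nat.factorial_ne_zero a) (Nat.factorial_ne_zero b))
    (Nat.factorial_ne_zero (a + b))).mpr h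
  have h3 := h2 2
  rw [Nat.factorization_mul (Nat.factorial_ne_zero a) (Nat.factorial_ne_zero b),
    Finsupp.add_apply] at h3
  exact h3

lemma factorization_two_of_dvd {n k : ℕ} (hn : n ≠ 0) (h : 2 ^ k ∣ n) : k ≤ n.factorization 2 :=
  (Nat.Prime.pow_dvd_iff_le_factorization Nat.prime_two hn).mp h

lemma v_step_even {n : ℕ} (h : (n + 1) % 2 = 0) : v n + 1 ≤ v (n + 1) := by
  rw [v_succ]
  have := factorization_two_of_dvd (n := n + 1) (k := 1) (by omega) (by omega)
  omega

lemma v_step_four {n : ℕ} (h : (n + 1) % 4 = 0) : v n + 2 ≤ v (n + 1) := by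
  rw [v_succ]
  have := factorization_two_of_dvd (n := n + 1) (k := 2) (by omega) (by omega)
  omega

lemma v_step_odd {n : ℕ} (h : (n + 1) % 2 = 1) : v (n + 1) = v n := by
  rw [v_succ, Nat.factorization_eq_zero_of_not_dvd (by omega), add_zero]

lemma v_step_two {n : ℕ} (h : (n + 1) % 4 = 2) : v (n + 1) = v n + 1 := by
  rw [v_succ]
  have h1 := factorization_two_of_dvd (n := n + 1) (k := 1) (by omega) (by omega)
  have h2 : (n + 1).factorization 2 < 2 := by
    by_contra hcon
    have : 2 ^ 2 ∣ n + 1 :=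
      (Nat.Prime.pow_dvd_iff_le_factorization Nat.prime_two (by omega)).mpr (by omega)
    omega
  omega

/-- `v (k+3)` against `v k`. -/
lemma v_add_three {k : ℕ} (h : (k + 3) % 4 ≠ 3) : v k + 2 ≤ v (k + 3) := by
  have h1 : v k ≤ v (k + 1) := v_le_succ k
  have h2 : v (k + 1) ≤ v (k + 2) := v_le_succ (k + 1)
  have h3 : v (k + 2) ≤ v (k + 3) := v_le_succ (k + 2)
  rcases (by omega : (k + 3) % 4 = 0 ∨ (k + 3) % 4 = 1 ∨ (k + 3) % 4 = 2) with e | e | e
  · have h4 : v (k + 2) + 2 ≤ v (k + 3) := v_step_four (n := k + 2) e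
    omega
  · have h4 : v (k + 1) + 2 ≤ v (k + 2) := v_step_four (n := k + 1) (by omega)
    omega
  · have h4 : v (k + 2) + 1 ≤ v (k + 3) := v_step_even (n := k + 2) (by omega)
    have h5 : v k + 1 ≤ v (k + 1) := v_step_even (n := k) (by omega)
    omega

lemma v_add_three_eq {k : ℕ} (h : (k + 3) % 4 = 3) : v (k + 3) = v k + 1 := by
  have h1 : v (k + 3) = v (k + 2) := v_step_odd (n := k + 2) (by omega)
  have h2 : v (k + 2) = v (k + 1) + 1 := v_step_two (n := k + 1) (by omega)
  have h3 : v (k + 1) = v k := v_step_odd (n := k) (by omega)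
  omega

/-- The digit sum in base 2. -/
def pop (M : ℕ) : ℕ := (Nat.digits 2 M).sum

lemma v_eq (M : ℕ) : v M + pop M = M := by
  have := Fact.mk Nat.prime_two
  have h := sub_one_mul_padicValNat_factorial (p := 2) M
  have h2 : (Nat.digits 2 M).sum ≤ M := Nat.digit_sum_le 2 M
  rw [v, Nat.factorization_def _ Nat.prime_two, pop]
  simp only [show (2 - 1 : ℕ) = 1 by norm_num, one_mul] at h
  omega

lemma v_of_pop {n k : ℕ} (h : pop n = k) : v n = n - k := by
  have := v_eq n
  omega

lemma v_one : v 1 = 0 := v_of_pop (n := 1) (k := 1) (by norm_num [pop])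
lemma v_two : v 2 = 1 := v_of_pop (n := 2) (k := 1) (by norm_num [pop])
lemma v_three : v 3 = 1 := v_of_pop (n := 3) (k := 2) (by norm_num [pop])
lemma v_four : v 4 = 3 := v_of_pop (n := 4) (k := 1) (by norm_num [pop])
lemma v_five : v 5 = 3 := v_of_pop (n := 5) (k := 2) (by norm_num [pop])
lemma v_six : v 6 = 4 := v_of_pop (n := 6) (k := 2) (by norm_num [pop])
lemma v_seven : v 7 = 4 := v_of_pop (n := 7) (k := 3) (by norm_num [pop])
lemma v_eight : v 8 = 7 := v_of_pop (n := 8) (k := 1) (by norm_num [pop])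
lemma v_nine : v 9 = 7 := v_of_pop (n := 9) (k := 2) (by norm_num [pop])
lemma v_ten : v 10 = 8 := v_of_pop (n := 10) (k := 2) (by norm_num [pop])
lemma v_eleven : v 11 = 8 := v_of_pop (n := 11) (k := 3) (by norm_num [pop])
lemma v_twelve : v 12 = 10 := v_of_pop (n := 12) (k := 2) (by norm_num [pop])

/-- The bound for transitive nilpotent groups. -/
def B (m : ℕ) : ℕ := if m = 3 then 3 else 2 ^ v m

/-- The bound for nilpotent groups. -/
def F (n : ℕ) : ℕ := if n % 4 = 3 then 3 * 2 ^ v (n - 3) else 2 ^ v n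

lemma B_three : B 3 = 3 := by simp [B]

lemma B_of_ne {m : ℕ} (h : m ≠ 3) : B m = 2 ^ v m := by simp [B, h]

lemma F_of_three {n : ℕ} (h : n % 4 = 3) : F n = 3 * 2 ^ v (n - 3) := by simp [F, h]

lemma F_of_ne {n : ℕ} (h : n % 4 ≠ 3) : F n = 2 ^ v n := by simp [F, h]

lemma pow_v_le_F (n : ℕ) : 2 ^ v n ≤ F n := by
  by_cases h : n % 4 = 3
  · rw [F_of_three h]
    obtain ⟨k, rfl⟩ : ∃ k, n = k + 3 := ⟨n - 3, by omega⟩
    rw [Nat.add_sub_cancel, v_add_three_eq h, pow_succ]
    nlinarith [Nat.pos_of_ne_zero (pow_ne_zero (v k) two_ne_zero)]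
  · rw [F_of_ne h]

/-- three times the 2-part of `k!` fits below `F (k+3)`. -/
lemma three_mul_le_F (k : ℕ) : 3 * 2 ^ v k ≤ F (k + 3) := by
  by_cases h : (k + 3) % 4 = 3
  · rw [F_of_three h, Nat.add_sub_cancel]
  · rw [F_of_ne h]
    have h1 := v_add_three h
    calc 3 * 2 ^ v k ≤ 2 ^ 2 * 2 ^ v k := Nat.mul_le_mul_right _ (by norm_num)
      _ = 2 ^ (v k + 2) := by rw [pow_add, mul_comm]
      _ ≤ 2 ^ v (k + 3) := Nat.pow_le_pow_right (by norm_num) h1

/-- The recursion for the nilpotent bound. -/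
lemma B_mul_F (m k : ℕ) : B m * F k ≤ F (m + k) := by
  by_cases hm : m = 3
  · subst hm
    rw [B_three, add_comm]
    by_cases hk : k % 4 = 3
    · rw [F_of_three hk, F_of_ne (by omega)]
      obtain ⟨j, rfl⟩ : ∃ j, k = j + 3 := ⟨k - 3, by omega⟩
      rw [Nat.add_sub_cancel]
      have h2 := v_add j 6
      rw [v_six] at h2
      rw [show j + 3 + 3 = j + 6 by ring]
      calc 3 * (3 * 2 ^ v j) ≤ 2 ^ 4 * 2 ^ v j := by nlinarith [Nat.pos_of_ne_zero (pow_ne_zero (v j) two_ne_zero)]
        _ = 2 ^ (v j + 4) := by rw [pow_add, mul_comm]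
        _ ≤ 2 ^ v (j + 6) := Nat.pow_le_pow_right (by norm_num) h2
    · rw [F_of_ne hk]
      exact three_mul_le_F k
  · rw [B_of_ne hm]
    by_cases hk : k % 4 = 3
    · obtain ⟨j, rfl⟩ : ∃ j, k = j + 3 := ⟨k - 3, by omega⟩
      rw [F_of_three hk, Nat.add_sub_cancel, ← add_assoc]
      have h1 := v_add m j
      calc 2 ^ v m * (3 * 2 ^ v j) = 3 * 2 ^ (v m + v j) := by rw [pow_add]; ring
        _ ≤ 3 * 2 ^ v (m + j) := Nat.mul_le_mul_left _ (Nat.pow_le_pow_right (by norm_num) h1)
        _ ≤ F (m + j + 3) := three_mul_le_F _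
    · rw [F_of_ne hk]
      refine le_trans ?_ (pow_v_le_F _)
      rw [← pow_add]
      exact Nat.pow_le_pow_right (by norm_num) (v_add m k)

/-- The `p`-part of `M!`. -/
def C (p M : ℕ) : ℕ := p ^ (M !).factorization p

lemma C_pos {p : ℕ} (hp : p.Prime) (M : ℕ) : 0 < C p M := Nat.pow_pos hp.pos

/-- Legendre: `(p-1) v_p(M!) ≤ M - 1`. -/
lemma legendre_le {p M : ℕ} (hp : p.Prime) (hM : M ≠ 0) :
    (p - 1) * (M !).factorization p ≤ M - 1 := by
  have := Fact.mk hp
  rw [Nat.factorization_def _ hp]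
  have := sub_one_mul_padicValNat_factorial_lt_of_ne_zero p hM
  omega

lemma two_pow_pop_le (M : ℕ) : 2 ^ pop M ≤ M + 1 := by
  induction M using Nat.strong_induction_on with
  | _ M ih =>
    rcases Nat.eq_zero_or_pos M with rfl | hpos
    · simp [pop]
    · have hd := Nat.digits_def' (b := 2) (by norm_num) hpos
      have hlt : M / 2 < M := Nat.div_lt_self hpos (by norm_num)
      have h1 := ih _ hlt
      have hpop : pop M = M % 2 + pop (M / 2) := by
        rw [pop, pop, hd, List.sum_cons]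
      rw [hpop, pow_add]
      rcases Nat.mod_two_eq_zero_or_one M with e | e
      · rw [e]
        simp only [pow_zero, one_mul]
        omega
      · rw [e]
        simp only [pow_one]
        omega

lemma five_mul_add_le_two_pow (P : ℕ) (h : 5 ≤ P) : 5 * P + 2 ≤ 2 ^ P := by
  induction P, h using Nat.le_induction with
  | base => norm_num
  | succ n hn ih =>
    rw [pow_succ]
    omega

lemma four_pow_le (p : ℕ) (h : 5 ≤ p) : p ^ 4 ≤ 5 ^ (p - 1) := by
  induction p, h using Nat.le_induction with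
  | base => norm_num
  | succ n hn ih =>
    have e : n + 1 - 1 = (n - 1) + 1 := by omega
    rw [e, pow_succ 5]
    have h1 : (n + 1) ^ 4 ≤ 5 * n ^ 4 := by
      have : n ≥ 5 := hn
      nlinarith [sq_nonneg (n ^ 2), mul_pos (show 0 < n by omega) (show 0 < n by omega),
        pow_pos (show 0 < n by omega) 3, pow_pos (show 0 < n by omega) 4]
    calc (n + 1) ^ 4 ≤ 5 * n ^ 4 := h1
      _ ≤ 5 * 5 ^ (n - 1) := Nat.mul_le_mul_left _ ih
      _ = 5 ^ (n - 1) * 5 := by ring

/-- For `p ≥ 5`: the bound on `(p^V)^12`. -/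
lemma pow_twelve_le {p V M : ℕ} (hp : 5 ≤ p) (h : (p - 1) * V ≤ M - 1) :
    (p ^ V) ^ 12 ≤ 2 ^ (7 * (M - 1)) := by
  calc (p ^ V) ^ 12 = (p ^ 4) ^ (3 * V) := by rw [← pow_mul, ← pow_mul]; ring_nf
    _ ≤ (5 ^ (p - 1)) ^ (3 * V) := Nat.pow_le_pow_left (four_pow_le p hp) _
    _ = 125 ^ ((p - 1) * V) := by
        rw [← pow_mul, show (125 : ℕ) = 5 ^ 3 by norm_num, ← pow_mul]; ring_nf
    _ ≤ 125 ^ (M - 1) := Nat.pow_le_pow_right (by norm_num) h
    _ ≤ 128 ^ (M - 1) := Nat.pow_le_pow_left (by norm_num) _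
    _ = 2 ^ (7 * (M - 1)) := by rw [show (128 : ℕ) = 2 ^ 7 by norm_num, ← pow_mul]

/-- For `p = 3`: the bound on `(3^V)^10`. -/
lemma pow_ten_le {V M : ℕ} (h : 2 * V ≤ M - 1) : (3 ^ V) ^ 10 ≤ 2 ^ (8 * (M - 1)) := by
  calc (3 ^ V) ^ 10 = 243 ^ (2 * V) := by
        rw [show (243 : ℕ) = 3 ^ 5 by norm_num, ← pow_mul, ← pow_mul]; ring_nf
    _ ≤ 243 ^ (M - 1) := Nat.pow_le_pow_right (by norm_num) h
    _ ≤ 256 ^ (M - 1) := Nat.pow_le_pow_left (by norm_num) _
    _ = 2 ^ (8 * (M - 1)) := by rw [show (256 : ℕ) = 2 ^ 8 by norm_num, ← pow_mul]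

/-- The main comparison: for an odd prime power `M = p^a` other than `1, 3, 5, 9`, twice the
`p`-part of `M!` is at most the 2-part. -/
lemma two_mul_C_le {p a : ℕ} (hp : p.Prime) (hodd : p ≠ 2) (ha : a ≠ 0)
    (h3 : p ^ a ≠ 3) (h5 : p ^ a ≠ 5) (h9 : p ^ a ≠ 9) :
    2 * C p (p ^ a) ≤ 2 ^ v (p ^ a) := by
  set M := p ^ a with hM
  have hp2 : 3 ≤ p := by
    have := hp.two_le
    omega
  have hMp : p ≤ M := by
    rw [hM]
    exact Nat.le_self_pow ha p
  have hM0 : M ≠ 0 := by omega
  have hle := legendre_le hp hM0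
  set V := (M !).factorization p with hV
  have hC : C p M = p ^ V := rfl
  have hvM := v_eq M
  have hpop := two_pow_pop_le M
  set P := pop M with hP
  rw [hC]
  rcases Nat.lt_or_ge p 5 with hp5 | hp5
  · -- p = 3
    have hp3 : p = 3 := by
      interval_cases p
      · rfl
      · exact absurd hp (by norm_num)
    subst hp3
    have hle' : 2 * V ≤ M - 1 := by simpa using hle
    have ha3 : 3 ≤ a := by
      by_contra hcon
      have : a = 1 ∨ a = 2 := by omega
      rcases this with rfl | rfl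
      · exact h3 rfl
      · exact h9 rfl
    have hM27 : 27 ≤ M := by
      calc 27 = 3 ^ 3 := by norm_num
        _ ≤ 3 ^ a := Nat.pow_le_pow_right (by norm_num) ha3
    have key : 5 * P + 1 ≤ M := by
      by_cases hP5 : P ≤ 5
      · omega
      · have := five_mul_add_le_two_pow P (by omega)
        omega
    have h1 := pow_ten_le hle'
    have h2 : (2 * 3 ^ V) ^ 10 ≤ (2 ^ v M) ^ 10 := by
      rw [mul_pow, ← pow_mul 2 (v M)]
      calc 2 ^ 10 * (3 ^ V) ^ 10 ≤ 2 ^ 10 * 2 ^ (8 * (M - 1)) := Nat.mul_le_mul_left _ h1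
        _ = 2 ^ (10 + 8 * (M - 1)) := by rw [pow_add]
        _ ≤ 2 ^ (v M * 10) := Nat.pow_le_pow_right (by norm_num) (by omega)
    exact le_of_pow_le_pow_left₀ (by norm_num) (by positivity) h2
  · -- p ≥ 5
    have h1 := pow_twelve_le hp5 hle
    by_cases hM7 : M ≤ 7
    · -- M is 5 or 7: only p = 7 is left
      have ha1 : a = 1 := by
        by_contra hne
        have ha2 : 2 ≤ a := by omega
        have : p ^ 2 ≤ p ^ a := Nat.pow_le_pow_right hp.pos ha2
        nlinarith
      have hMp' : M = p := by rw [hM, ha1, pow_one]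
      have hp7 : p = 7 := by
        have hp' : p ≤ 7 := by omega
        interval_cases p
        · exact absurd hMp' h5
        · exact absurd hp (by norm_num)
        · rfl
      have hM7' : M = 7 := by omega
      have hV1 : V ≤ 1 := by
        rw [hM7', hp7] at hle
        omega
      rw [hM7', hp7, v_seven]
      calc 2 * 7 ^ V ≤ 2 * 7 ^ 1 := Nat.mul_le_mul_left _ (Nat.pow_le_pow_right (by norm_num) hV1)
        _ ≤ 2 ^ 4 := by norm_num
    · -- M ≥ 8
      have hM8 : 8 ≤ M := by omega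
      have hM9 : 11 ≤ M := by
        have hodd' : M % 2 = 1 := by
          rw [hM, Nat.pow_mod]
          have : p % 2 = 1 := by
            rcases hp.eq_two_or_odd with e | e
            · exact absurd e hodd
            · exact e
          rw [this]
          simp
        omega
      have key : 12 * P + 5 ≤ 5 * M := by
        by_cases hP4 : P ≤ 4
        · omega
        · have h5' := five_mul_add_le_two_pow P (by omega)
          nlinarith
      have h2 : (2 * p ^ V) ^ 12 ≤ (2 ^ v M) ^ 12 := by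
        rw [mul_pow, ← pow_mul 2 (v M)]
        calc 2 ^ 12 * (p ^ V) ^ 12 ≤ 2 ^ 12 * 2 ^ (7 * (M - 1)) := Nat.mul_le_mul_left _ h1
          _ = 2 ^ (12 + 7 * (M - 1)) := by rw [pow_add]
          _ ≤ 2 ^ (v M * 12) := Nat.pow_le_pow_right (by norm_num) (by omega)
      exact le_of_pow_le_pow_left₀ (by norm_num) (by positivity) h2

lemma C_le_B {p a : ℕ} (hp : p.Prime) : C p (p ^ a) ≤ B (p ^ a) := by
  rcases Nat.eq_zero_or_pos a with rfl | ha
  · simp [C, B, v_one]
  by_cases h2 : p = 2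
  · subst h2
    have h3 : 2 ^ a ≠ 3 := by
      intro e
      have : 2 ∣ 2 ^ a := dvd_pow_self 2 (by omega)
      omega
    rw [B_of_ne h3]
    exact le_rfl
  by_cases h3 : p ^ a = 3
  · have hp3 : p = 3 := (Nat.prime_dvd_prime_iff_eq hp Nat.prime_three).mp
      (h3 ▸ dvd_pow_self p (by omega))
    subst hp3
    rw [h3, B_three]
    simp [C, Nat.factorial]
    have : (6 : ℕ).factorization 3 = 1 := by
      rw [show (6 : ℕ) = 2 * 3 by norm_num, Nat.factorization_mul (by norm_num) (by norm_num),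
        Finsupp.add_apply, Nat.Prime.factorization_self Nat.prime_three,
        Nat.factorization_eq_zero_of_not_dvd (by norm_num)]
    rw [this]
    norm_num
  rw [B_of_ne h3]
  by_cases h5 : p ^ a = 5
  · have hp5 : p = 5 := (Nat.prime_dvd_prime_iff_eq hp (by norm_num)).mp
      (h5 ▸ dvd_pow_self p (by omega))
    subst hp5
    rw [h5, v_five]
    have hle := legendre_le hp (M := 5) (by norm_num)
    have : C 5 5 ≤ 5 ^ 1 := Nat.pow_le_pow_right (by norm_num) (by simpa using (by omega : (5 !).factorization 5 ≤ 1))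
    omega
  by_cases h9 : p ^ a = 9
  · have hp3 : p = 3 := by
      have : p ∣ 9 := h9 ▸ dvd_pow_self p (by omega)
      rw [show (9 : ℕ) = 3 ^ 2 by norm_num] at this
      exact (Nat.prime_dvd_prime_iff_eq hp Nat.prime_three).mp (hp.dvd_of_dvd_pow this)
    subst hp3
    rw [h9, v_nine]
    have hle := legendre_le hp (M := 9) (by norm_num)
    have : C 3 9 ≤ 3 ^ 4 := Nat.pow_le_pow_right (by norm_num) (by simp at hle; omega)
    calc C 3 9 ≤ 3 ^ 4 := this
      _ ≤ 2 ^ 7 := by norm_num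
  have := two_mul_C_le hp h2 (by omega) h3 h5 h9
  omega

/-- The bound for transitive nilpotent groups in terms of the prime factorisation. -/
noncomputable def f (m : ℕ) : ℕ := ∏ p ∈ m.primeFactors, C p (p ^ m.factorization p)

lemma f_prime_pow {p a : ℕ} (hp : p.Prime) (ha : 0 < a) : f (p ^ a) = C p (p ^ a) := by
  rw [f, Nat.primeFactors_prime_pow (by omega) hp, Finset.prod_singleton,
    Nat.Prime.factorization_pow hp, Finsupp.single_eq_same]

lemma f_coprime {a b : ℕ} (hab : a.Coprime b) : f (a * b) = f a * f b := by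
  rw [f, hab.primeFactors_mul, Finset.prod_union hab.disjoint_primeFactors]
  congr 1
  · refine Finset.prod_congr rfl fun p hp => ?_
    have hpa := Nat.dvd_of_mem_primeFactors hp
    have hpp := Nat.prime_of_mem_primeFactors hp
    have hb : b.factorization p = 0 := Nat.factorization_eq_zero_of_not_dvd fun h =>
      hpp.one_lt.ne' (Nat.eq_one_of_dvd_coprimes hab hpa h)
    rw [Nat.factorization_mul_of_coprime hab, Finsupp.add_apply, hb, add_zero]
  · refine Finset.prod_congr rfl fun p hp => ?_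
    have hpa := Nat.dvd_of_mem_primeFactors hp
    have hpp := Nat.prime_of_mem_primeFactors hp
    have hb : a.factorization p = 0 := Nat.factorization_eq_zero_of_not_dvd fun h =>
      hpp.one_lt.ne' (Nat.eq_one_of_dvd_coprimes hab h hpa)
    rw [Nat.factorization_mul_of_coprime hab, Finsupp.add_apply, hb, zero_add]

/-- The comparison for a product of coprime factors. -/
lemma two_B_mul_B_le {a b : ℕ} (ha : 2 ≤ a) (hb : 2 ≤ b) (hab : a.Coprime b) :
    2 * (B a * B b) ≤ 2 ^ v (a * b) := by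
  have key3 : ∀ c : ℕ, 2 ≤ c → c ≠ 3 → 2 * (3 * 2 ^ v c) ≤ 2 ^ v (3 * c) := by
    intro c hc _
    have h1 : v c + 3 ≤ v (3 * c) := by
      have h2 := v_add c 4
      rw [v_four] at h2
      exact h2.trans (v_mono (by omega))
    calc 2 * (3 * 2 ^ v c) ≤ 2 ^ 3 * 2 ^ v c := by nlinarith [Nat.pos_of_ne_zero (pow_ne_zero (v c) two_ne_zero)]
      _ = 2 ^ (v c + 3) := by rw [pow_add, mul_comm]
      _ ≤ _ := Nat.pow_le_pow_right (by norm_num) h1
  by_cases ha3 : a = 3
  · subst ha3
    have hb3 : b ≠ 3 := by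
      rintro rfl
      exact absurd hab (by norm_num)
    rw [B_three, B_of_ne hb3]
    exact key3 b hb hb3
  by_cases hb3 : b = 3
  · subst hb3
    rw [B_three, B_of_ne ha3, mul_comm a 3, mul_comm (2 ^ v a) 3]
    exact key3 a ha ha3
  rw [B_of_ne ha3, B_of_ne hb3, ← pow_add, ← pow_succ']
  refine Nat.pow_le_pow_right (by norm_num) ?_
  have h1 := v_add a b
  have hne : a ≠ b := by
    rintro rfl
    have := Nat.coprime_self a |>.mp hab
    omega
  suffices h : v (a + b) + 1 ≤ v (a * b) by omega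
  obtain ⟨x, rfl⟩ := Nat.exists_eq_add_of_le ha
  obtain ⟨y, rfl⟩ := Nat.exists_eq_add_of_le hb
  have hxy : x + y ≥ 1 := by
    by_contra hcon
    have hx : x = 0 := by omega
    have hy : y = 0 := by omega
    subst hx hy
    exact hne rfl
  rcases Nat.even_or_odd ((2 + x) * (2 + y)) with he | ho
  · -- even product
    obtain ⟨t, ht⟩ : ∃ t, (2 + x) * (2 + y) = t + 1 := ⟨(2 + x) * (2 + y) - 1, by
      have : 0 < (2 + x) * (2 + y) := by positivity
      omega⟩
    rw [ht] at he ⊢
    have h2 : v t + 1 ≤ v (t + 1) := v_step_even (Nat.even_iff.mp he)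
    have h3 : 2 + x + (2 + y) ≤ t := by nlinarith
    exact (Nat.add_le_add_right (v_mono h3) 1).trans h2
  · -- odd product: both factors are odd, hence at least 5
    have hao : Odd (2 + x) := (Nat.odd_mul.mp ho).1
    have hbo : Odd (2 + y) := (Nat.odd_mul.mp ho).2
    have hx3 : 3 ≤ x := by
      obtain ⟨t, ht⟩ := hao
      omega
    have hy3 : 3 ≤ y := by
      obtain ⟨t, ht⟩ := hbo
      omega
    obtain ⟨t, ht⟩ : ∃ t, (2 + x) * (2 + y) = t + 2 := ⟨(2 + x) * (2 + y) - 2, by
      have : 4 ≤ (2 + x) * (2 + y) := by nlinarith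
      omega⟩
    rw [ht] at ho ⊢
    have h2 : v t + 1 ≤ v (t + 1) := v_step_even (by
      obtain ⟨r, hr⟩ := ho
      omega)
    have h3 : 2 + x + (2 + y) ≤ t := by nlinarith
    have h4 : v (t + 1) ≤ v (t + 2) := v_le_succ (t + 1)
    have := v_mono h3
    omega

lemma f_le_B (m : ℕ) : f m ≤ B m := by
  induction m using Nat.recOnPosPrimePosCoprime with
  | prime_pow p n hp hn => rw [f_prime_pow hp hn]; exact C_le_B hp
  | zero => simp [f, B, v_zero]
  | one => simp [f, B, v_one]
  | coprime a b ha hb hab iha ihb =>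
    rw [f_coprime hab]
    have h1 := two_B_mul_B_le ha hb hab
    have h3 : a * b ≠ 3 := by
      intro e
      have : a ∣ 3 := e ▸ dvd_mul_right a b
      have hb3 : b ∣ 3 := e ▸ dvd_mul_left b a
      rcases (Nat.dvd_prime Nat.prime_three).mp this with rfl | rfl <;>
      rcases (Nat.dvd_prime Nat.prime_three).mp hb3 with rfl | rfl <;> omega
    rw [B_of_ne h3]
    calc f a * f b ≤ B a * B b := Nat.mul_le_mul iha ihb
      _ ≤ _ := le_trans (Nat.le_mul_of_pos_left _ (by norm_num)) h1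

/-- If the prime factors of `n` are controlled by `m`, then `n ≤ f m`. -/
lemma le_f_of_factorization {n m : ℕ} (hn : n ≠ 0) (hm : m ≠ 0)
    (h : ∀ p ∈ n.primeFactors, p ∣ m ∧
      n.factorization p ≤ ((p ^ m.factorization p) !).factorization p) : n ≤ f m := by
  have hsub : n.primeFactors ⊆ m.primeFactors := fun p hp =>
    Nat.mem_primeFactors.mpr ⟨Nat.prime_of_mem_primeFactors hp, (h p hp).1, hm⟩
  calc n = ∏ p ∈ n.primeFactors, p ^ n.factorization p := (Nat.prod_factorization_pow_eq_self hn).symm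
    _ ≤ ∏ p ∈ n.primeFactors, C p (p ^ m.factorization p) := by
        refine Finset.prod_le_prod' fun p hp => ?_
        exact Nat.pow_le_pow_right (Nat.prime_of_mem_primeFactors hp).pos (h p hp).2
    _ ≤ ∏ p ∈ m.primeFactors, C p (p ^ m.factorization p) :=
        Finset.prod_le_prod_of_subset_of_one_le' hsub fun p hp _ =>
          C_pos (Nat.prime_of_mem_primeFactors hp) _
    _ = f m := rfl

end Cfsg.Agent.Lib.KnownSimple.NilpNumeric
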