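/-
Nilpotent subgroups of symmetric groups: the transitive bound and the orbit induction.
-/
import Cfsg.Agent.Lib.KnownSimple.NilpNumeric
import Cfsg.Agent.Lib.OddLocal.Fitting

set_option autoImplicit false

namespace Cfsg.Agent.Lib.KnownSimple.NilpPerm

open Equiv Equiv.Perm Cfsg.Agent.Lib.KnownSimple.NilpNumeric

section decomposition

variable {G : Type*} [Group G] [Finite G]

/-- In a nilpotent group, a `p`-element lies in each Sylow `p`-subgroup. -/
lemma mem_sylow_of_pow_eq_one [Group.IsNilpotent G] {p : ℕ} [hp : Fact p.Prime] (P : Sylow p G)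
    {u : G} {a : ℕ} (h : u ^ p ^ a = 1) : u ∈ P := by
  have hn : (P : Subgroup G).Normal := inferInstance
  obtain ⟨b, _, hb⟩ := (Nat.dvd_prime_pow hp.out).mp (orderOf_dvd_of_pow_eq_one h)
  have h1 : IsPGroup p (Subgroup.zpowers u) := IsPGroup.of_card (n := b) (by
    rw [Nat.card_zpowers, hb])
  obtain ⟨Q, hQ⟩ := h1.exists_le_sylow
  have := Sylow.unique_of_normal P hn
  have hQP : Q = P := Subsingleton.elim _ _
  rw [← hQP]
  exact hQ (Subgroup.mem_zpowers u)

/-- Decomposition of an element into a part commuting with the Sylow subgroup and a Sylow part. -/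
lemma exists_decomp [Group.IsNilpotent G] {p : ℕ} [hp : Fact p.Prime] (P : Sylow p G) (h : G) :
    ∃ u ∈ (P : Subgroup G), ∃ w : G, (∀ x ∈ (P : Subgroup G), x * w = w * x) ∧ h = w * u := by
  have hh : orderOf h ≠ 0 := (orderOf_pos h).ne'
  obtain ⟨a, r, hr, e⟩ := Nat.exists_eq_pow_mul_and_not_dvd hh p hp.out.ne_one
  have hcop : (p ^ a).Coprime r := Nat.Coprime.pow_left _ ((Nat.Prime.coprime_iff_not_dvd hp.out).mpr hr)
  have hbez : (p ^ a : ℤ) * (Nat.gcdA (p ^ a) r) + r * (Nat.gcdB (p ^ a) r) = 1 := by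
    have := Nat.gcd_eq_gcd_ab (p ^ a) r
    rw [hcop.gcd_eq_one] at this
    push_cast at this
    exact this.symm
  set i := Nat.gcdA (p ^ a) r
  set j := Nat.gcdB (p ^ a) r
  refine ⟨h ^ ((r : ℤ) * j), ?_, h ^ ((p ^ a : ℤ) * i), ?_, ?_⟩
  · apply mem_sylow_of_pow_eq_one P (a := a)
    rw [← zpow_natCast, ← zpow_mul]
    have : ((r : ℤ) * j * ((p ^ a : ℕ) : ℤ)) = ((orderOf h : ℕ) : ℤ) * j := by
      rw [e]; push_cast; ring
    rw [this, zpow_mul, zpow_natCast, pow_orderOf_eq_one, one_zpow]
  · intro x hx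
    obtain ⟨b, hb⟩ : ∃ b, orderOf x = p ^ b := by
      have hx' : IsPGroup p (P : Subgroup G) := P.isPGroup'
      obtain ⟨b, hb⟩ := hx' ⟨x, hx⟩
      have : orderOf x ∣ p ^ b := orderOf_dvd_of_pow_eq_one (by
        have := congrArg Subtype.val hb
        simpa using this)
      obtain ⟨c, _, hc⟩ := (Nat.dvd_prime_pow hp.out).mp this
      exact ⟨c, hc⟩
    apply Cfsg.Agent.Lib.OddLocal.commute_of_coprime_of_nilpotent
    rw [hb]
    refine Nat.Coprime.pow_left _ ((Nat.Prime.coprime_iff_not_dvd hp.out).mpr fun hdvd => hr ?_)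
    have h2 : (h ^ ((p ^ a : ℤ) * i)) ^ r = 1 := by
      rw [← zpow_natCast, ← zpow_mul]
      have : ((p ^ a : ℤ) * i * (r : ℤ)) = ((orderOf h : ℕ) : ℤ) * i := by
        rw [e]; push_cast; ring
      rw [this, zpow_mul, zpow_natCast, pow_orderOf_eq_one, one_zpow]
    exact hdvd.trans (orderOf_dvd_of_pow_eq_one h2)
  · rw [← zpow_add, hbez, zpow_one]

end decomposition

section transitive

variable {Ω : Type*} [Finite Ω]

/-- The prime factorisation constraint for a transitive nilpotent group. -/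
lemma factorization_of_transitive (H : Subgroup (Perm Ω)) (hnil : Group.IsNilpotent H)
    (htr : MulAction.IsPretransitive H Ω) {p : ℕ} (hp : p.Prime) (hpH : p ∣ Nat.card H) :
    p ∣ Nat.card Ω ∧ (Nat.card H).factorization p ≤
      ((p ^ (Nat.card Ω).factorization p).factorial).factorization p := by
  classical
  have : Fact p.Prime := ⟨hp⟩
  have hΩ : Nonempty Ω := by
    by_contra hne
    rw [not_nonempty_iff] at hne
    have : Subsingleton (Perm Ω) := inferInstance
    have : Nat.card H = 1 := Nat.card_eq_one_iff_unique.mpr ⟨inferInstance, ⟨1⟩⟩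
    rw [this] at hpH
    exact hp.one_lt.ne' (Nat.dvd_one.mp hpH)
  obtain ⟨α⟩ := id hΩ
  obtain ⟨P⟩ : Nonempty (Sylow p H) := inferInstance
  have hn : (P : Subgroup H).Normal := inferInstance
  set O : Set Ω := MulAction.orbit (P : Subgroup H) α with hO
  -- the orbit is a block
  have hblock : MulAction.IsBlock H O := MulAction.IsBlock.orbit_of_normal α
  have hdvd : O.ncard ∣ Nat.card Ω :=
    hblock.ncard_dvd_card ⟨α, MulAction.mem_orbit_self α⟩
  -- the orbit is a `p`-power
  obtain ⟨c, hc⟩ : ∃ c, Nat.card O = p ^ c :=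
    IsPGroup.card_orbit (p := p) P.isPGroup' α
  have hcard : O.ncard = p ^ c := by
    rw [← hc]; rfl
  -- faithful
  let φ : (P : Subgroup H) →* Perm O := MulAction.toPermHom (P : Subgroup H) O
  have hinj : Function.Injective φ := by
    rw [injective_iff_map_eq_one]
    intro x hx
    have hfix : ∀ y ∈ O, x • y = y := by
      intro y hy
      have := congrArg (fun f : Perm O => ((f ⟨y, hy⟩ : O) : Ω)) hx
      exact this
    apply Subtype.ext
    apply Subtype.ext
    ext β
    obtain ⟨h, hh⟩ := htr.exists_smul_eq α β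
    obtain ⟨u, hu, w, hw, huw⟩ := exists_decomp P h
    have hcomm := hw x.1 x.2
    have hβ : β = (w : Perm Ω) ((u : Perm Ω) α) := by
      rw [← hh, huw]
      rfl
    have h1 : ((x : H) : Perm Ω) ((u : Perm Ω) α) = (u : Perm Ω) α :=
      hfix _ ⟨⟨u, hu⟩, rfl⟩
    have h2 : ((x : H) : Perm Ω) * (w : Perm Ω) = (w : Perm Ω) * ((x : H) : Perm Ω) :=
      congrArg Subtype.val hcomm
    have h3 := congrArg (fun f : Perm Ω => f ((u : Perm Ω) α)) h2
    simp only [Perm.mul_apply] at h3
    rw [h1, ← hβ] at h3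
    simpa using h3
  -- order of `P`
  have hPcard : Nat.card P = p ^ (Nat.card H).factorization p := P.card_eq_multiplicity
  have hPdvd : Nat.card P ∣ (Nat.card O).factorial := by
    have := Subgroup.card_dvd_of_injective φ hinj
    rwa [Nat.card_perm] at this
  have hH0 : Nat.card H ≠ 0 := Nat.card_pos.ne'
  have hm0 : Nat.card Ω ≠ 0 := Nat.card_pos.ne'
  have hfac : (Nat.card H).factorization p ≤ ((Nat.card O).factorial).factorization p := by
    rw [hPcard] at hPdvd
    exact (Nat.Prime.pow_dvd_iff_le_factorization hp (Nat.factorial_ne_zero _)).mp hPdvd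
  have hfpos : 1 ≤ (Nat.card H).factorization p :=
    hp.factorization_pos_of_dvd hH0 hpH
  have hc0 : c ≠ 0 := by
    rintro rfl
    rw [hc, pow_zero, Nat.factorial_one, Nat.factorization_one] at hfac
    simp at hfac
    omega
  have hpb : p ^ c ∣ Nat.card Ω := hcard ▸ hdvd
  refine ⟨(dvd_pow_self p hc0).trans hpb, hfac.trans ?_⟩
  have hcle : c ≤ (Nat.card Ω).factorization p :=
    (Nat.Prime.pow_dvd_iff_le_factorization hp hm0).mp hpb
  have hle : p ^ c ≤ p ^ (Nat.card Ω).factorization p := Nat.pow_le_pow_right hp.pos hcle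
  rw [hc]
  exact (Nat.factorization_le_iff_dvd (Nat.factorial_ne_zero _) (Nat.factorial_ne_zero _)).mpr
    (Nat.factorial_dvd_factorial hle) p

/-- The transitive bound. -/
theorem card_le_f_of_transitive (H : Subgroup (Perm Ω)) (hnil : Group.IsNilpotent H)
    (htr : MulAction.IsPretransitive H Ω) [Nonempty Ω] : Nat.card H ≤ f (Nat.card Ω) := by
  refine le_f_of_factorization Nat.card_pos.ne' Nat.card_pos.ne' fun p hp => ?_
  exact factorization_of_transitive H hnil htr (Nat.prime_of_mem_primeFactors hp)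
    (Nat.dvd_of_mem_primeFactors hp)

end transitive

section restrict

variable {X : Type*}

/-- Restriction of a group of permutations to an invariant subset. -/
def restr (H : Subgroup (Perm X)) (S : X → Prop) (hS : ∀ h ∈ H, ∀ x, S (h x) ↔ S x) :
    H →* Perm {x // S x} :=
  MonoidHom.mk' (fun h => (h.1).subtypePerm (hS h.1 h.2)) fun _ _ =>
    Equiv.ext fun _ => Subtype.ext rfl

lemma restr_apply (H : Subgroup (Perm X)) (S : X → Prop) (hS : ∀ h ∈ H, ∀ x, S (h x) ↔ S x)
    (h : H) (x : {x // S x}) : ((restr H S hS h x : {x // S x}) : X) = (h : Perm X) x := rfl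

lemma not_invariant {H : Subgroup (Perm X)} {S : X → Prop} (hS : ∀ h ∈ H, ∀ x, S (h x) ↔ S x) :
    ∀ h ∈ H, ∀ x, (¬ S (h x)) ↔ ¬ S x := fun h hh x => not_congr (hS h hh x)

lemma restr_prod_injective (H : Subgroup (Perm X)) (S : X → Prop)
    (hS : ∀ h ∈ H, ∀ x, S (h x) ↔ S x) :
    Function.Injective fun h : H => (restr H S hS h, restr H (fun x => ¬ S x) (not_invariant hS) h) := by
  intro a b hab
  apply Subtype.ext
  ext x
  have h1 := (Prod.ext_iff.mp hab).1
  have h2 := (Prod.ext_iff.mp hab).2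
  by_cases hx : S x
  · have := congrArg (fun f : Perm {x // S x} => ((f ⟨x, hx⟩ : {x // S x}) : X)) h1
    exact this
  · have := congrArg (fun f : Perm {x // ¬ S x} => ((f ⟨x, hx⟩ : {x // ¬ S x}) : X)) h2
    exact this

lemma card_le_card_range_mul [Finite X] (H : Subgroup (Perm X)) (S : X → Prop)
    (hS : ∀ h ∈ H, ∀ x, S (h x) ↔ S x) :
    Nat.card H ≤ Nat.card (restr H S hS).range *
      Nat.card (restr H (fun x => ¬ S x) (not_invariant hS)).range := by
  rw [← Nat.card_prod]
  refine Nat.card_le_card_of_injective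
    (fun h => (⟨restr H S hS h, ⟨h, rfl⟩⟩, ⟨restr H (fun x => ¬ S x) (not_invariant hS) h, ⟨h, rfl⟩⟩))
    ?_
  intro a b hab
  apply restr_prod_injective H S hS
  have h1 := congrArg Subtype.val (Prod.ext_iff.mp hab).1
  have h2 := congrArg Subtype.val (Prod.ext_iff.mp hab).2
  exact Prod.ext h1 h2

lemma range_nilpotent {H : Subgroup (Perm X)} {Y : Type*} (hnil : Group.IsNilpotent H)
    (r : H →* Perm Y) : Group.IsNilpotent r.range := by
  have := hnil
  exact Group.nilpotent_of_surjective r.rangeRestrict r.rangeRestrict_surjective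

/-- The orbit predicate. -/
def orbitPred (H : Subgroup (Perm X)) (x : X) : X → Prop := fun y => y ∈ MulAction.orbit H x

lemma orbitPred_invariant (H : Subgroup (Perm X)) (x : X) :
    ∀ h ∈ H, ∀ y, orbitPred H x (h y) ↔ orbitPred H x y := by
  intro h hh y
  constructor
  · rintro ⟨g, hg⟩
    refine ⟨⟨h, hh⟩⁻¹ * g, ?_⟩
    change (h⁻¹ * (g : Perm X)) x = y
    have hg' : (g : Perm X) x = h y := hg
    simp [Perm.mul_apply, hg']
  · rintro ⟨g, hg⟩
    refine ⟨⟨h, hh⟩ * g, ?_⟩
    change (h * (g : Perm X)) x = h y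
    have hg' : (g : Perm X) x = y := hg
    simp [Perm.mul_apply, hg']

lemma orbit_transitive (H : Subgroup (Perm X)) (x : X) :
    MulAction.IsPretransitive (restr H (orbitPred H x) (orbitPred_invariant H x)).range
      {y // orbitPred H x y} := by
  refine ⟨fun a b => ?_⟩
  obtain ⟨g₁, hg₁⟩ := a.2
  obtain ⟨g₂, hg₂⟩ := b.2
  refine ⟨⟨restr H _ (orbitPred_invariant H x) (g₂ * g₁⁻¹), ⟨_, rfl⟩⟩, Subtype.ext ?_⟩
  change ((g₂ * g₁⁻¹ : H) : Perm X) (a : X) = (b : X)
  have h1 : (g₁ : Perm X) x = a := hg₁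
  have h2 : (g₂ : Perm X) x = b := hg₂
  rw [← h1, ← h2]
  simp [Perm.mul_apply]

lemma card_orbit_add_compl [Finite X] (S : X → Prop) :
    Nat.card {y // S y} + Nat.card {y // ¬ S y} = Nat.card X := by
  classical
  rw [← Nat.card_sum]
  exact Nat.card_congr (Equiv.sumCompl S)

lemma card_orbitPred_pos [Finite X] (H : Subgroup (Perm X)) (x : X) :
    0 < Nat.card {y // orbitPred H x y} := by
  have : Nonempty {y // orbitPred H x y} := ⟨⟨x, 1, rfl⟩⟩
  exact Nat.card_pos

end restrict

/-- The bound for arbitrary nilpotent subgroups of symmetric groups. -/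
theorem card_le_F : ∀ (n : ℕ) (X : Type) [Finite X] (H : Subgroup (Perm X)),
    Nat.card X = n → Group.IsNilpotent H → Nat.card H ≤ F n := by
  intro n
  induction n using Nat.strong_induction_on with
  | _ n ih =>
    intro X _ H hX hnil
    rcases isEmpty_or_nonempty X with hemp | ⟨⟨x⟩⟩
    · have h0 : n = 0 := by rw [← hX, Nat.card_of_isEmpty]
      subst h0
      have : Nat.card H = 1 := Nat.card_eq_one_iff_unique.mpr ⟨inferInstance, ⟨1⟩⟩
      rw [this, F_of_ne (by norm_num), v_zero]
      norm_num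
    · have hS := orbitPred_invariant H x
      have hcard := card_orbit_add_compl (orbitPred H x)
      have hpos := card_orbitPred_pos H x
      set m := Nat.card {y // orbitPred H x y} with hm
      set k := Nat.card {y // ¬ orbitPred H x y} with hk
      have hT : Nat.card (restr H (orbitPred H x) hS).range ≤ f m := by
        have : Nonempty {y // orbitPred H x y} := ⟨⟨x, 1, rfl⟩⟩
        exact card_le_f_of_transitive _ (range_nilpotent hnil _) (orbit_transitive H x)
      have hI : Nat.card (restr H (fun y => ¬ orbitPred H x y) (not_invariant hS)).range ≤ F k :=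
        ih k (by omega) _ _ rfl (range_nilpotent hnil _)
      calc Nat.card H ≤ _ := card_le_card_range_mul H (orbitPred H x) hS
        _ ≤ f m * F k := Nat.mul_le_mul hT hI
        _ ≤ B m * F k := Nat.mul_le_mul_right _ (f_le_B m)
        _ ≤ F (m + k) := B_mul_F m k
        _ = F n := by rw [hcard, hX]

end Cfsg.Agent.Lib.KnownSimple.NilpPerm
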