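/-
Largest nilpotent subgroups of symmetric and alternating groups in degree ≡ 3 mod 4:
structure of a nilpotent group of order 3·2^e, conjugacy through centralisers, embedding.
-/
import Cfsg.Agent.Lib.KnownSimple.NilpPerm

set_option autoImplicit false

namespace Cfsg.Agent.Lib.KnownSimple.NilpMax

open Equiv Equiv.Perm Cfsg.Agent.Lib.KnownSimple.NilpNumeric
open scoped Pointwise

section general

variable {G : Type*} [Group G] [Finite G]

/-- A nilpotent subgroup of order `3 * 2^e` is a central product of `⟨c⟩` and a 2-group. -/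
lemma exists_three_decomp (N : Subgroup G) (hN : Group.IsNilpotent N) {e : ℕ}
    (hcard : Nat.card N = 3 * 2 ^ e) :
    ∃ c ∈ N, orderOf c = 3 ∧ ∃ Q : Subgroup G, Q ≤ N ∧ Nat.card Q = 2 ^ e ∧
      (∀ x ∈ Q, x * c = c * x) ∧ N = Subgroup.zpowers c ⊔ Q := by
  have := hN
  have h3 : Fact (Nat.Prime 3) := ⟨Nat.prime_three⟩
  have h2 : Fact (Nat.Prime 2) := ⟨Nat.prime_two⟩
  obtain ⟨c', hc'⟩ := exists_prime_orderOf_dvd_card' (G := N) 3 (by rw [hcard]; exact dvd_mul_right _ _)
  obtain ⟨P⟩ : Nonempty (Sylow 2 N) := inferInstance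
  have hP : Nat.card P = 2 ^ e := by
    rw [P.card_eq_multiplicity, hcard, Nat.factorization_mul (by norm_num) (by positivity),
      Nat.Prime.factorization_pow Nat.prime_two, Finsupp.add_apply, Finsupp.single_eq_same,
      Nat.factorization_eq_zero_of_not_dvd (by norm_num), zero_add]
  set Q : Subgroup G := (P : Subgroup N).map N.subtype with hQ
  have hQcard : Nat.card Q = 2 ^ e := by
    rw [hQ, Subgroup.card_map_of_injective N.subtype_injective, hP]
  have hc'' : orderOf (c' : G) = 3 := by rw [Subgroup.orderOf_coe, hc']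
  have hcomm : ∀ x ∈ Q, x * (c' : G) = (c' : G) * x := by
    rintro x ⟨y, hy, rfl⟩
    have hy2 : orderOf y ∣ 2 ^ e := by
      have := Subgroup.orderOf_dvd_natCard (P : Subgroup N) hy
      rwa [hP] at this
    have hcop : (orderOf y).Coprime (orderOf c') := by
      rw [hc']
      exact Nat.Coprime.coprime_dvd_left hy2 (Nat.Coprime.pow_left _ (by norm_num))
    exact congrArg Subtype.val (Cfsg.Agent.Lib.OddLocal.commute_of_coprime_of_nilpotent y c' hcop)
  have hQN : Q ≤ N := by
    rintro x ⟨y, _, rfl⟩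
    exact y.2
  refine ⟨c', c'.2, hc'', Q, hQN, hQcard, hcomm, ?_⟩
  have hle : Subgroup.zpowers (c' : G) ⊔ Q ≤ N :=
    sup_le (Subgroup.zpowers_le.mpr c'.2) hQN
  symm
  apply Subgroup.eq_of_le_of_card_ge hle
  rw [hcard]
  apply Nat.le_of_dvd Nat.card_pos
  have h1 : 3 ∣ Nat.card (Subgroup.zpowers (c' : G) ⊔ Q : Subgroup G) := by
    rw [← hc'']
    exact Subgroup.orderOf_dvd_natCard _ (Subgroup.mem_sup_left (Subgroup.mem_zpowers _))
  have h4 : 2 ^ e ∣ Nat.card (Subgroup.zpowers (c' : G) ⊔ Q : Subgroup G) := by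
    rw [← hQcard]
    exact Subgroup.card_dvd_of_le le_sup_right
  exact Nat.Coprime.mul_dvd_of_dvd_of_dvd (Nat.Coprime.pow_right _ (by norm_num)) h1 h4

/-- Conjugacy of `⟨c⟩ Q` when the `Q` are Sylow in the centraliser. -/
lemma exists_conj_of_sylow {c₁ c₂ : G} {Q₁ Q₂ : Subgroup G} (hc : IsConj c₁ c₂)
    (h1 : ∀ x ∈ Q₁, x * c₁ = c₁ * x) (h2 : ∀ x ∈ Q₂, x * c₂ = c₂ * x)
    (hQ : Nat.card Q₁ = Nat.card Q₂)
    (hS : Nat.card Q₂ = 2 ^ (Nat.card (Subgroup.centralizer {c₂})).factorization 2) :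
    ∃ g : G, Subgroup.zpowers c₂ ⊔ Q₂ =
      (Subgroup.zpowers c₁ ⊔ Q₁).map (MulAut.conj g).toMonoidHom := by
  have hF : Fact (Nat.Prime 2) := ⟨Nat.prime_two⟩
  obtain ⟨g₀, hg₀⟩ := isConj_iff.mp hc
  set C := Subgroup.centralizer ({c₂} : Set G) with hC
  set Q₁' : Subgroup G := Q₁.map (MulAut.conj g₀).toMonoidHom with hQ₁'
  have hQ₁'card : Nat.card Q₁' = Nat.card Q₁ :=
    Subgroup.card_map_of_injective (MulAut.conj g₀).injective
  have hle1 : Q₁' ≤ C := by
    rintro _ ⟨x, hx, rfl⟩
    rw [hC, Subgroup.mem_centralizer_singleton_iff]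
    have := h1 x hx
    change g₀ * x * g₀⁻¹ * c₂ = c₂ * (g₀ * x * g₀⁻¹)
    rw [← hg₀]
    calc g₀ * x * g₀⁻¹ * (g₀ * c₁ * g₀⁻¹) = g₀ * (x * c₁) * g₀⁻¹ := by group
      _ = g₀ * (c₁ * x) * g₀⁻¹ := by rw [this]
      _ = _ := by group
  have hle2 : Q₂ ≤ C := fun x hx => by
    rw [hC, Subgroup.mem_centralizer_singleton_iff]
    exact h2 x hx
  have hc1 : Nat.card (Q₁'.subgroupOf C) = 2 ^ (Nat.card C).factorization 2 := by
    rw [Nat.card_congr (Subgroup.subgroupOfEquivOfLe hle1).toEquiv, hQ₁'card, hQ, hS]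
  have hc2 : Nat.card (Q₂.subgroupOf C) = 2 ^ (Nat.card C).factorization 2 := by
    rw [Nat.card_congr (Subgroup.subgroupOfEquivOfLe hle2).toEquiv, hS]
  let S₁ : Sylow 2 C := Sylow.ofCard _ hc1
  let S₂ : Sylow 2 C := Sylow.ofCard _ hc2
  obtain ⟨h, hh⟩ := MulAction.exists_smul_eq C S₁ S₂
  have hhc : (h : G) * c₂ * (h : G)⁻¹ = c₂ := by
    have := Subgroup.mem_centralizer_singleton_iff.mp h.2
    rw [this]; group
  have hQ₂ : Q₂ = Q₁'.map (MulAut.conj (h : G)).toMonoidHom := by
    have hset : ((S₂ : Subgroup C) : Subgroup C) = MulAut.conj h • (S₁ : Subgroup C) := by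
      rw [← hh, Sylow.coe_subgroup_smul]
    have hS₁ : (S₁ : Subgroup C) = Q₁'.subgroupOf C := Sylow.coe_ofCard _ _
    have hS₂ : (S₂ : Subgroup C) = Q₂.subgroupOf C := Sylow.coe_ofCard _ _
    rw [hS₁, hS₂] at hset
    ext x
    constructor
    · intro hx
      have hx' : (⟨x, hle2 hx⟩ : C) ∈ Q₂.subgroupOf C := hx
      rw [hset] at hx'
      obtain ⟨y, hy, hyx⟩ := Subgroup.mem_smul_pointwise_iff_exists _ _ _ |>.mp hx'
      refine ⟨y, hy, ?_⟩
      exact congrArg Subtype.val hyx
    · rintro ⟨y, hy, rfl⟩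
      have hyC : (⟨y, hle1 hy⟩ : C) ∈ Q₁'.subgroupOf C := hy
      have := Subgroup.smul_mem_pointwise_smul _ (MulAut.conj h) _ hyC
      rw [← hset] at this
      exact this
  refine ⟨(h : G) * g₀, ?_⟩
  rw [Subgroup.map_sup]
  congr 1
  · rw [MonoidHom.map_zpowers]
    congr 1
    change c₂ = (h : G) * g₀ * c₁ * ((h : G) * g₀)⁻¹
    rw [← hhc, ← hg₀]
    group
  · rw [hQ₂, hQ₁', Subgroup.map_map]
    congr 1
    ext x
    simp [MulAut.conj_apply, mul_assoc]

/-- Existence of the large nilpotent subgroups. -/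
lemma exists_max_nilp {K Z G' : Type*} [Group K] [Group Z] [Group G'] [Finite K] [Finite Z]
    (Ψ : K × Z →* G') (hinj : Function.Injective Ψ) (P : Subgroup K)
    (hP : Group.IsNilpotent P) (hZ : Nat.card Z = 3) :
    ∃ M : Subgroup G', Group.IsNilpotent M ∧ Nat.card M = 3 * Nat.card P ∧
      Nonempty (M ≃* (P × Multiplicative (ZMod 3))) := by
  have h3 : Fact (Nat.Prime 3) := ⟨Nat.prime_three⟩
  let M : Subgroup G' := (P.prod (⊤ : Subgroup Z)).map Ψ
  have e1 : (P.prod (⊤ : Subgroup Z)) ≃* M := Subgroup.equivMapOfInjective _ Ψ hinj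
  have e2 : (P.prod (⊤ : Subgroup Z)) ≃* (P × (⊤ : Subgroup Z)) := Subgroup.prodEquiv _ _
  have e3 : (⊤ : Subgroup Z) ≃* Z := Subgroup.topEquiv
  have hcardZ : Nat.card (Multiplicative (ZMod 3)) = 3 := by
    simp [Nat.card_eq_fintype_card, ZMod.card]
  have e4 : Z ≃* Multiplicative (ZMod 3) := mulEquivOfPrimeCardEq hZ hcardZ
  have e5 : M ≃* (P × Z) := e1.symm.trans (e2.trans (MulEquiv.prodCongr (MulEquiv.refl _) e3))
  refine ⟨M, ?_, ?_, ⟨e5.trans (MulEquiv.prodCongr (MulEquiv.refl _) e4)⟩⟩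
  · have hZn : Group.IsNilpotent Z := by
      have : IsPGroup 3 Z := IsPGroup.of_card (n := 1) (by rw [hZ, pow_one])
      exact this.isNilpotent
    have := hP
    have := hZn
    exact (Group.isNilpotent_congr e5).mpr inferInstance
  · rw [Nat.card_congr e5.toEquiv, Nat.card_prod, hZ, mul_comm]

end general

section perm

variable {X : Type*} [Fintype X] [DecidableEq X]

/-- An element of order 3 has cycle type `3,...,3`. -/
lemma cycleType_of_order_three {c : Perm X} (hc : orderOf c = 3) :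
    ∃ j : ℕ, 1 ≤ j ∧ 3 * j ≤ Fintype.card X ∧ c.cycleType = Multiset.replicate j 3 := by
  have hcy : ∀ m ∈ c.cycleType, m = 3 := by
    intro m hm
    have h1 := dvd_of_mem_cycleType hm
    rw [hc] at h1
    have h2 := two_le_of_mem_cycleType hm
    rcases (Nat.dvd_prime Nat.prime_three).mp h1 with e | e <;> omega
  refine ⟨Multiset.card c.cycleType, ?_, ?_, Multiset.eq_replicate_card.mpr hcy⟩
  · by_contra hk
    have hk0 : Multiset.card c.cycleType = 0 := by omega
    rw [Multiset.card_eq_zero, cycleType_eq_zero] at hk0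
    rw [hk0, orderOf_one] at hc
    omega
  · have hrep : c.cycleType = Multiset.replicate (Multiset.card c.cycleType) 3 :=
      Multiset.eq_replicate_card.mpr hcy
    have h1 : c.cycleType.sum = 3 * Multiset.card c.cycleType := by
      conv_lhs => rw [hrep]
      rw [Multiset.sum_replicate, smul_eq_mul, mul_comm]
    rw [← h1, sum_cycleType]
    exact Finset.card_le_univ _

lemma card_centralizer_replicate {c : Perm X} {j : ℕ} (hj : 1 ≤ j)
    (h : c.cycleType = Multiset.replicate j 3) :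
    Nat.card (Subgroup.centralizer {c}) = (Fintype.card X - 3 * j).factorial * 3 ^ j * j.factorial := by
  have hne : (Multiset.replicate j 3).toFinset = {3} := by
    rw [Multiset.toFinset_replicate, if_neg (by omega)]
  rw [nat_card_centralizer, h, hne]
  simp [Multiset.count_replicate_self, Multiset.prod_replicate, Multiset.sum_replicate, mul_comm]

lemma factorization_card_centralizer {c : Perm X} {j : ℕ} (hj : 1 ≤ j)
    (h : c.cycleType = Multiset.replicate j 3) :
    (Nat.card (Subgroup.centralizer {c})).factorization 2 = v (Fintype.card X - 3 * j) + v j := by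
  rw [card_centralizer_replicate hj h, Nat.factorization_mul (by positivity) (by positivity),
    Nat.factorization_mul (by positivity) (by positivity), Finsupp.add_apply, Finsupp.add_apply,
    Nat.factorization_pow, Finsupp.smul_apply,
    Nat.factorization_eq_zero_of_not_dvd (n := 3) (p := 2) (by norm_num)]
  simp [v]

/-- A 2-subgroup of order `2^t`, `t > v(n-4)`, commuting with an element of order 3 forces the
element to be a 3-cycle. -/
lemma isThreeCycle_of_commuting {c : Perm X} (hc : orderOf c = 3) (Q : Subgroup (Perm X)) {t : ℕ}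
    (hQ : Nat.card Q = 2 ^ t) (hcomm : ∀ x ∈ Q, x * c = c * x)
    (ht : 6 ≤ Fintype.card X → v (Fintype.card X - 4) < t) : c.IsThreeCycle := by
  obtain ⟨j, hj1, hj3, hrep⟩ := cycleType_of_order_three hc
  by_cases hj : j = 1
  · rw [IsThreeCycle, hrep, hj, Multiset.replicate_one]
  exfalso
  have hj2 : 2 ≤ j := by omega
  have hle : Q ≤ Subgroup.centralizer {c} := fun x hx => by
    rw [Subgroup.mem_centralizer_singleton_iff]
    exact hcomm x hx
  have hdvd := Subgroup.card_dvd_of_le hle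
  rw [hQ] at hdvd
  have h1 : t ≤ (Nat.card (Subgroup.centralizer {c})).factorization 2 :=
    (Nat.Prime.pow_dvd_iff_le_factorization Nat.prime_two Nat.card_pos.ne').mp hdvd
  rw [factorization_card_centralizer hj1 hrep] at h1
  have h2 := v_add (Fintype.card X - 3 * j) j
  have h3 : v (Fintype.card X - 3 * j + j) ≤ v (Fintype.card X - 4) := v_mono (by omega)
  have h4 := ht (by omega)
  omega

end perm

section embedding

/-- The embedding of `S_m × S_3` into `S_n`, `m + 3 = n`. -/
noncomputable def embHom {m n : ℕ} (h : m + 3 = n) : Perm (Fin m) × Perm (Fin 3) →* Perm (Fin n) :=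
  ((finSumFinEquiv.trans (finCongr h)).permCongrHom.toMonoidHom).comp (Perm.sumCongrHom _ _)

lemma embHom_injective {m n : ℕ} (h : m + 3 = n) : Function.Injective (embHom h) := by
  intro a b hab
  apply Perm.sumCongrHom_injective
  exact (finSumFinEquiv.trans (finCongr h)).permCongrHom.injective hab

lemma sign_embHom {m n : ℕ} (h : m + 3 = n) (a : Perm (Fin m)) (b : Perm (Fin 3)) :
    sign (embHom h (a, b)) = sign a * sign b := by
  change sign ((finSumFinEquiv.trans (finCongr h)).permCongr (Perm.sumCongr a b)) = _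
  rw [sign_permCongr, sign_sumCongr]

/-- A 3-cycle on `Fin 3`. -/
def c3 : Perm (Fin 3) := finRotate 3

lemma c3_isThreeCycle : c3.IsThreeCycle := cycleType_finRotate_of_le (by norm_num)

lemma card_zpowers_c3 : Nat.card (Subgroup.zpowers c3) = 3 := by
  rw [Nat.card_zpowers, c3_isThreeCycle.orderOf]

end embedding

end Cfsg.Agent.Lib.KnownSimple.NilpMax
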