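/-
Nilpotent subgroups of alternating groups.
-/
import Cfsg.Agent.Lib.KnownSimple.NilpMax

set_option autoImplicit false

namespace Cfsg.Agent.Lib.KnownSimple.NilpAlt

open Equiv Equiv.Perm Cfsg.Agent.Lib.KnownSimple.NilpNumeric Cfsg.Agent.Lib.KnownSimple.NilpPerm

/-- Bound for transitive nilpotent groups of even permutations. -/
def BA (m : ℕ) : ℕ :=
  if m = 1 then 1 else if m = 3 then 3 else if m = 5 then 5 else if m = 9 then 81 else 2 ^ (v m - 1)

/-- Bound for nilpotent groups of even permutations. -/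
def G (n : ℕ) : ℕ :=
  if n = 0 ∨ n = 1 then 1 else if n = 3 then 3 else if n = 5 then 5 else if n = 6 then 9
  else if n = 9 then 81 else if n % 4 = 3 then 3 * 2 ^ (v (n - 3) - 1) else 2 ^ (v n - 1)

lemma G_zero : G 0 = 1 := by simp [G]
lemma G_one : G 1 = 1 := by simp [G]
lemma G_two : G 2 = 1 := by simp [G, v_two]
lemma G_three : G 3 = 3 := by simp [G]
lemma G_four : G 4 = 4 := by simp [G, v_four]
lemma G_five : G 5 = 5 := by simp [G]
lemma G_six : G 6 = 9 := by simp [G]
lemma G_seven : G 7 = 12 := by simp [G, v_four]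
lemma G_eight : G 8 = 64 := by simp [G, v_eight]
lemma G_nine : G 9 = 81 := by simp [G]
lemma G_ten : G 10 = 128 := by simp [G, v_ten]
lemma G_eleven : G 11 = 192 := by simp [G, v_eight]
lemma G_twelve : G 12 = 512 := by simp [G, v_twelve]

lemma G_gen {n : ℕ} (h0 : 2 ≤ n) (h3 : n ≠ 3) (h5 : n ≠ 5) (h6 : n ≠ 6) (h9 : n ≠ 9)
    (h : n % 4 ≠ 3) : G n = 2 ^ (v n - 1) := by
  unfold G
  rw [if_neg (by omega), if_neg h3, if_neg h5, if_neg h6, if_neg h9, if_neg h]

lemma G_gen3 {n : ℕ} (h0 : n ≠ 3) (h : n % 4 = 3) : G n = 3 * 2 ^ (v (n - 3) - 1) := by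
  have h5 : n ≠ 5 := by omega
  have h6 : n ≠ 6 := by omega
  have h9 : n ≠ 9 := by omega
  unfold G
  rw [if_neg (by omega), if_neg h0, if_neg h5, if_neg h6, if_neg h9, if_pos h]

lemma v_pos {k : ℕ} (h : 2 ≤ k) : 1 ≤ v k := by
  have := v_mono h
  rwa [v_two] at this

lemma pow_pred_mul_two {x : ℕ} (h : 1 ≤ x) : 2 ^ (x - 1) * 2 = 2 ^ x := by
  rw [← pow_succ, Nat.sub_add_cancel h]

/-- `s ≤ 2 G`. -/
lemma two_pow_v_le (k : ℕ) : 2 ^ v k ≤ 2 * G k := by
  by_cases h0 : k = 0
  · subst h0; simp [G_zero, v_zero]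
  by_cases h1 : k = 1
  · subst h1; simp [G_one, v_one]
  by_cases h3 : k = 3
  · subst h3; simp [G_three, v_three]
  by_cases h5 : k = 5
  · subst h5; simp [G_five, v_five]
  by_cases h6 : k = 6
  · subst h6; simp [G_six, v_six]
  by_cases h9 : k = 9
  · subst h9; simp [G_nine, v_nine]
  by_cases h : k % 4 = 3
  · rw [G_gen3 h3 h]
    obtain ⟨j, rfl⟩ : ∃ j, k = j + 3 := ⟨k - 3, by omega⟩
    rw [Nat.add_sub_cancel, v_add_three_eq h]
    have hj : 1 ≤ v j := v_pos (by omega)
    have := pow_pred_mul_two hj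
    rw [pow_succ, ← this]
    nlinarith [Nat.pos_of_ne_zero (pow_ne_zero (v j - 1) two_ne_zero)]
  · rw [G_gen (by omega) h3 h5 h6 h9 h, mul_comm, pow_pred_mul_two (v_pos (by omega))]

/-- `G ≤ s` outside degree 3. -/
lemma G_le_two_pow {k : ℕ} (hk : k ≠ 3) : G k ≤ 2 ^ v k := by
  by_cases h0 : k = 0
  · subst h0; simp [G_zero, v_zero]
  by_cases h1 : k = 1
  · subst h1; simp [G_one, v_one]
  by_cases h5 : k = 5
  · subst h5; simp [G_five, v_five]
  by_cases h6 : k = 6
  · subst h6; simp [G_six, v_six]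
  by_cases h9 : k = 9
  · subst h9; simp [G_nine, v_nine]
  by_cases h : k % 4 = 3
  · rw [G_gen3 hk h]
    obtain ⟨j, rfl⟩ : ∃ j, k = j + 3 := ⟨k - 3, by omega⟩
    rw [Nat.add_sub_cancel, v_add_three_eq h]
    have hj : 1 ≤ v j := v_pos (by omega)
    have := pow_pred_mul_two hj
    rw [pow_succ, ← this]
    nlinarith [Nat.pos_of_ne_zero (pow_ne_zero (v j - 1) two_ne_zero)]
  · rw [G_gen (by omega) hk h5 h6 h9 h]
    exact Nat.pow_le_pow_right (by norm_num) (by omega)

/-- `4 G ≤ 3 s` in degrees `≥ 2`, outside degree 3. -/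
lemma four_G_le {k : ℕ} (h2 : 2 ≤ k) (hk : k ≠ 3) : 4 * G k ≤ 3 * 2 ^ v k := by
  by_cases h5 : k = 5
  · subst h5; simp [G_five, v_five]
  by_cases h6 : k = 6
  · subst h6; simp [G_six, v_six]
  by_cases h9 : k = 9
  · subst h9; simp [G_nine, v_nine]
  by_cases h : k % 4 = 3
  · rw [G_gen3 hk h]
    obtain ⟨j, rfl⟩ : ∃ j, k = j + 3 := ⟨k - 3, by omega⟩
    rw [Nat.add_sub_cancel, v_add_three_eq h]
    have hj : 1 ≤ v j := v_pos (by omega)
    have := pow_pred_mul_two hj
    rw [pow_succ, ← this]
    nlinarith [Nat.pos_of_ne_zero (pow_ne_zero (v j - 1) two_ne_zero)]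
  · rw [G_gen (by omega) hk h5 h6 h9 h]
    have := pow_pred_mul_two (v_pos h2)
    rw [← this]
    nlinarith [Nat.pos_of_ne_zero (pow_ne_zero (v k - 1) two_ne_zero)]

lemma F_le_two_G {n : ℕ} (h2 : 2 ≤ n) : F n ≤ 2 * G n := by
  by_cases h : n % 4 = 3
  · rw [F_of_three h]
    by_cases h3 : n = 3
    · subst h3
      simp [G_three, v_zero]
    rw [G_gen3 h3 h]
    have hj : 1 ≤ v (n - 3) := v_pos (by omega)
    have := pow_pred_mul_two hj
    rw [← this]
    nlinarith
  · rw [F_of_ne h]
    exact two_pow_v_le n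

lemma G_le_succ (k : ℕ) : G k ≤ G (k + 1) := by
  by_cases hk : k < 10
  · interval_cases k <;>
    simp [G_zero, G_one, G_two, G_three, G_four, G_five, G_six, G_seven, G_eight, G_nine, G_ten]
  have h3 : k ≠ 3 := by omega
  rcases (by omega : k % 4 = 0 ∨ k % 4 = 1 ∨ k % 4 = 2 ∨ k % 4 = 3) with e | e | e | e
  · rw [G_gen (by omega) h3 (by omega) (by omega) (by omega) (by omega),
      G_gen (by omega) (by omega) (by omega) (by omega) (by omega) (by omega),
      v_step_odd (n := k) (by omega)]
  · rw [G_gen (by omega) h3 (by omega) (by omega) (by omega) (by omega),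
      G_gen (by omega) (by omega) (by omega) (by omega) (by omega) (by omega)]
    exact Nat.pow_le_pow_right (by norm_num) (by have := v_le_succ k; omega)
  · rw [G_gen (by omega) h3 (by omega) (by omega) (by omega) (by omega),
      G_gen3 (by omega) (by omega)]
    obtain ⟨j, rfl⟩ : ∃ j, k = j + 2 := ⟨k - 2, by omega⟩
    have e1 : j + 2 + 1 - 3 = j := by omega
    rw [e1]
    have e2 : v (j + 2) = v j + 1 := by
      have h4 : v (j + 1) = v j := v_step_odd (n := j) (by omega)
      have h5 : v (j + 2) = v (j + 1) + 1 := v_step_two (n := j + 1) (by omega)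
      omega
    rw [e2, Nat.add_sub_cancel]
    have hj : 1 ≤ v j := v_pos (by omega)
    have := pow_pred_mul_two hj
    rw [← this]
    nlinarith [Nat.pos_of_ne_zero (pow_ne_zero (v j - 1) two_ne_zero)]
  · rw [G_gen3 h3 e, G_gen (by omega) (by omega) (by omega) (by omega) (by omega) (by omega)]
    obtain ⟨j, rfl⟩ : ∃ j, k = j + 3 := ⟨k - 3, by omega⟩
    rw [Nat.add_sub_cancel]
    have h1 : v (j + 3) = v j + 1 := v_add_three_eq e
    have h2 : v (j + 3) + 2 ≤ v (j + 3 + 1) := v_step_four (n := j + 3) (by omega)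
    have hj : 1 ≤ v j := v_pos (by omega)
    have h4 : v j + 2 ≤ v (j + 3 + 1) - 1 := by omega
    calc 3 * 2 ^ (v j - 1) ≤ 2 ^ 2 * 2 ^ (v j - 1) := Nat.mul_le_mul_right _ (by norm_num)
      _ = 2 ^ (2 + (v j - 1)) := by rw [pow_add]
      _ ≤ _ := Nat.pow_le_pow_right (by norm_num) (by omega)

lemma three_G_le (k : ℕ) : 3 * G k ≤ G (k + 3) := by
  by_cases hk : k < 10
  · interval_cases k <;>
    simp [G_zero, G_one, G_two, G_three, G_four, G_five, G_six, G_seven, G_eight, G_nine, G_ten,
      G_eleven, G_twelve]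
  have h3 : k ≠ 3 := by omega
  rcases (by omega : k % 4 = 0 ∨ k % 4 = 1 ∨ k % 4 = 2 ∨ k % 4 = 3) with e | e | e | e
  · rw [G_gen (by omega) h3 (by omega) (by omega) (by omega) (by omega),
      G_gen3 (by omega) (by omega), Nat.add_sub_cancel]
  · rw [G_gen (by omega) h3 (by omega) (by omega) (by omega) (by omega),
      G_gen (by omega) (by omega) (by omega) (by omega) (by omega) (by omega)]
    have h1 := v_add_three (k := k) (by omega)
    have hj : 1 ≤ v k := v_pos (by omega)
    calc 3 * 2 ^ (v k - 1) ≤ 2 ^ 2 * 2 ^ (v k - 1) := Nat.mul_le_mul_right _ (by norm_num)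
      _ = 2 ^ (2 + (v k - 1)) := by rw [pow_add]
      _ ≤ _ := Nat.pow_le_pow_right (by norm_num) (by omega)
  · rw [G_gen (by omega) h3 (by omega) (by omega) (by omega) (by omega),
      G_gen (by omega) (by omega) (by omega) (by omega) (by omega) (by omega)]
    have h1 := v_add_three (k := k) (by omega)
    have hj : 1 ≤ v k := v_pos (by omega)
    calc 3 * 2 ^ (v k - 1) ≤ 2 ^ 2 * 2 ^ (v k - 1) := Nat.mul_le_mul_right _ (by norm_num)
      _ = 2 ^ (2 + (v k - 1)) := by rw [pow_add]
      _ ≤ _ := Nat.pow_le_pow_right (by norm_num) (by omega)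
  · rw [G_gen3 h3 e, G_gen (by omega) (by omega) (by omega) (by omega) (by omega) (by omega)]
    obtain ⟨j, rfl⟩ : ∃ j, k = j + 3 := ⟨k - 3, by omega⟩
    rw [Nat.add_sub_cancel]
    have h2 := v_add j 6
    rw [v_six] at h2
    have hj : 1 ≤ v j := v_pos (by omega)
    rw [show j + 3 + 3 = j + 6 by ring]
    calc 3 * (3 * 2 ^ (v j - 1)) ≤ 2 ^ 4 * 2 ^ (v j - 1) := by
          nlinarith [Nat.pos_of_ne_zero (pow_ne_zero (v j - 1) two_ne_zero)]
      _ = 2 ^ (4 + (v j - 1)) := by rw [pow_add]
      _ ≤ _ := Nat.pow_le_pow_right (by norm_num) (by omega)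

lemma BA_one : BA 1 = 1 := by simp [BA]
lemma BA_three : BA 3 = 3 := by simp [BA]
lemma BA_five : BA 5 = 5 := by simp [BA]
lemma BA_nine : BA 9 = 81 := by simp [BA]
lemma BA_gen {m : ℕ} (h1 : m ≠ 1) (h3 : m ≠ 3) (h5 : m ≠ 5) (h9 : m ≠ 9) :
    BA m = 2 ^ (v m - 1) := by simp [BA, h1, h3, h5, h9]

/-- The recursion. -/
lemma BA_mul_G {m : ℕ} (hm : 1 ≤ m) (k : ℕ) : BA m * G k ≤ G (m + k) := by
  by_cases h1 : m = 1
  · subst h1
    rw [BA_one, one_mul, add_comm]
    exact G_le_succ k
  by_cases h3 : m = 3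
  · subst h3
    rw [BA_three, add_comm]
    exact three_G_le k
  by_cases h5 : m = 5
  · subst h5
    rw [BA_five]
    by_cases hk0 : k = 0
    · subst hk0; simp [G_zero, G_five]
    by_cases hk1 : k = 1
    · subst hk1; simp [G_one, G_six]
    by_cases hk3 : k = 3
    · subst hk3; simp [G_three, G_eight]
    have a1 := four_G_le (k := k) (by omega) hk3
    have a2 := two_pow_v_le (5 + k)
    have a3 := v_add 5 k
    rw [v_five] at a3
    have a4 : 2 ^ (3 + v k) ≤ 2 ^ v (5 + k) := Nat.pow_le_pow_right (by norm_num) a3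
    rw [pow_add] at a4
    have hpos := Nat.pos_of_ne_zero (pow_ne_zero (v k) (two_ne_zero (α := ℕ)))
    nlinarith
  by_cases h9 : m = 9
  · subst h9
    rw [BA_nine]
    by_cases hk0 : k = 0
    · subst hk0; simp [G_zero, G_nine]
    by_cases hk1 : k = 1
    · subst hk1; simp [G_one, G_ten]
    by_cases hk3 : k = 3
    · subst hk3; simp [G_three, G_twelve]
    have a1 := four_G_le (k := k) (by omega) hk3
    have a2 := two_pow_v_le (9 + k)
    have a3 := v_add 9 k
    rw [v_nine] at a3
    have a4 : 2 ^ (7 + v k) ≤ 2 ^ v (9 + k) := Nat.pow_le_pow_right (by norm_num) a3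
    rw [pow_add] at a4
    have hpos := Nat.pos_of_ne_zero (pow_ne_zero (v k) (two_ne_zero (α := ℕ)))
    nlinarith
  rw [BA_gen h1 h3 h5 h9]
  have hm2 : 2 ≤ m := by omega
  have hvm := pow_pred_mul_two (v_pos hm2)
  by_cases hk3 : k = 3
  · subst hk3
    rw [G_three]
    by_cases hm4 : (m + 3) % 4 = 3
    · rw [G_gen3 (by omega) hm4, Nat.add_sub_cancel, mul_comm]
    · have a1 := v_add_three hm4
      have a2 := two_pow_v_le (m + 3)
      have a4 : 2 ^ (v m + 2) ≤ 2 ^ v (m + 3) := Nat.pow_le_pow_right (by norm_num) a1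
      rw [pow_add, ← hvm] at a4
      have hpos := Nat.pos_of_ne_zero (pow_ne_zero (v m - 1) (two_ne_zero (α := ℕ)))
      nlinarith
  · have a1 := G_le_two_pow hk3
    have a2 := two_pow_v_le (m + k)
    have a3 := v_add m k
    have a4 : 2 ^ (v m + v k) ≤ 2 ^ v (m + k) := Nat.pow_le_pow_right (by norm_num) a3
    rw [pow_add, ← hvm] at a4
    have hpos := Nat.pos_of_ne_zero (pow_ne_zero (v m - 1) (two_ne_zero (α := ℕ)))
    have hle : 2 ^ (v m - 1) * G k ≤ 2 ^ (v m - 1) * 2 ^ v k := Nat.mul_le_mul_left _ a1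
    nlinarith

lemma C_five : C 5 5 ≤ 5 := by
  have hle := legendre_le (p := 5) (M := 5) (by norm_num) (by norm_num)
  have h1 : (Nat.factorial 5).factorization 5 ≤ 1 := by simp at hle; omega
  calc C 5 5 ≤ 5 ^ 1 := Nat.pow_le_pow_right (by norm_num) h1
    _ = 5 := by norm_num

lemma C_nine : C 3 9 ≤ 81 := by
  have hle := legendre_le (p := 3) (M := 9) Nat.prime_three (by norm_num)
  have h1 : (Nat.factorial 9).factorization 3 ≤ 4 := by simp at hle; omega
  calc C 3 9 ≤ 3 ^ 4 := Nat.pow_le_pow_right (by norm_num) h1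
    _ = 81 := by norm_num

section transitive

variable {Ω : Type*} [Fintype Ω] [DecidableEq Ω]

/-- The transitive bound for even permutations. -/
theorem card_le_BA (H : Subgroup (Perm Ω)) (hnil : Group.IsNilpotent H)
    (htr : MulAction.IsPretransitive H Ω) [Nonempty Ω] (heven : ∀ h ∈ H, sign h = 1) :
    Nat.card H ≤ BA (Nat.card Ω) := by
  have hf := card_le_f_of_transitive H hnil htr
  set m := Nat.card Ω with hm
  have hm0 : m ≠ 0 := Nat.card_pos.ne'
  by_cases h1 : m = 1
  · rw [h1, BA_one]
    rw [h1] at hf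
    simpa [f] using hf
  by_cases h3 : m = 3
  · rw [h3, BA_three]
    rw [h3] at hf
    exact hf.trans ((f_le_B 3).trans_eq B_three)
  by_cases h5 : m = 5
  · rw [h5, BA_five]
    rw [h5] at hf
    have : f 5 = C 5 5 := by
      have := f_prime_pow (p := 5) (a := 1) (by norm_num) (by norm_num)
      simpa using this
    rw [this] at hf
    exact hf.trans C_five
  by_cases h9 : m = 9
  · rw [h9, BA_nine]
    rw [h9] at hf
    have : f 9 = C 3 9 := by
      have := f_prime_pow (p := 3) (a := 2) Nat.prime_three (by norm_num)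
      simpa using this
    rw [this] at hf
    exact hf.trans C_nine
  rw [BA_gen h1 h3 h5 h9]
  have hm2 : 2 ≤ m := by omega
  suffices hs : 2 * Nat.card H ≤ 2 ^ v m by
    have := pow_pred_mul_two (v_pos hm2)
    omega
  obtain ⟨p, hp, hpm⟩ : ∃ p, p.Prime ∧ p ∣ m := ⟨m.minFac, Nat.minFac_prime h1, Nat.minFac_dvd m⟩
  obtain ⟨a, b, hb, hab⟩ := Nat.exists_eq_pow_mul_and_not_dvd hm0 p hp.ne_one
  have ha : a ≠ 0 := by
    rintro rfl
    rw [pow_zero, one_mul] at hab
    exact hb (hab ▸ hpm)
  have hb0 : b ≠ 0 := by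
    rintro rfl
    exact hb (dvd_zero p)
  by_cases hb1 : b = 1
  · -- prime power
    rw [hb1, mul_one] at hab
    by_cases hp2 : p = 2
    · subst hp2
      have hH0 : Nat.card H ≠ 0 := Nat.card_pos.ne'
      have huni : ∀ {d : ℕ}, d.Prime → d ∣ Nat.card H → d = 2 := by
        intro d hd hdH
        have := (factorization_of_transitive H hnil htr hd hdH).1
        rw [← hm, hab] at this
        exact (Nat.prime_dvd_prime_iff_eq hd Nat.prime_two).mp (hd.dvd_of_dvd_pow this)
      have hpow := Nat.eq_prime_pow_of_unique_prime_dvd hH0 huni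
      set e := (Nat.card H).primeFactorsList.length with he
      have hle : H ≤ alternatingGroup Ω := fun h hh => heven h hh
      have hdvd := Subgroup.card_dvd_of_le hle
      have hnt : Nontrivial Ω := by
        apply Fintype.one_lt_card_iff_nontrivial.mp
        rw [← Nat.card_eq_fintype_card]
        omega
      have h2 := two_mul_nat_card_alternatingGroup (α := Ω)
      rw [Nat.card_perm] at h2
      have hdvd2 : 2 * Nat.card H ∣ m.factorial := by
        rw [← h2]
        exact Nat.mul_dvd_mul_left 2 hdvd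
      rw [hpow, ← pow_succ'] at hdvd2
      have hfac := (Nat.Prime.pow_dvd_iff_le_factorization Nat.prime_two
        (Nat.factorial_ne_zero m)).mp hdvd2
      rw [hpow, ← pow_succ']
      exact Nat.pow_le_pow_right (by norm_num) hfac
    · rw [hab] at hf h3 h5 h9 ⊢
      rw [f_prime_pow hp (Nat.pos_of_ne_zero ha)] at hf
      have := two_mul_C_le hp hp2 ha h3 h5 h9
      omega
  · -- two coprime factors
    have hcop : (p ^ a).Coprime b :=
      Nat.Coprime.pow_left _ ((Nat.Prime.coprime_iff_not_dvd hp).mpr hb)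
    have ha2 : 2 ≤ p ^ a := by
      calc 2 ≤ p := hp.two_le
        _ ≤ p ^ a := Nat.le_self_pow ha p
    have hb2 : 2 ≤ b := by omega
    have hk := two_B_mul_B_le ha2 hb2 hcop
    rw [hab] at hf ⊢
    rw [f_coprime hcop] at hf
    have h6 : f (p ^ a) * f b ≤ B (p ^ a) * B b := Nat.mul_le_mul (f_le_B _) (f_le_B _)
    omega

end transitive

section orbit

variable {X : Type*} [Fintype X] [DecidableEq X]

lemma sign_restr (H : Subgroup (Perm X)) (S : X → Prop) [DecidablePred S]
    (hS : ∀ h ∈ H, ∀ x, S (h x) ↔ S x) (h : H) :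
    sign (h : Perm X) = sign (restr H S hS h) *
      sign (restr H (fun x => ¬ S x) (not_invariant hS) h) := by
  have key : (h : Perm X) = (restr H S hS h).subtypeCongr
      (restr H (fun x => ¬ S x) (not_invariant hS) h) := by
    ext x
    by_cases hx : S x
    · rw [Perm.subtypeCongr.left_apply _ _ hx]
      rfl
    · rw [Perm.subtypeCongr.right_apply _ _ hx]
      rfl
  conv_lhs => rw [key]
  exact sign_subtypeCongr _ _

lemma two_mul_card_le {Y Z : Type*} [Fintype Y] [DecidableEq Y] [Fintype Z] [DecidableEq Z]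
    (H : Subgroup (Perm X)) (r₁ : H →* Perm Y) (r₂ : H →* Perm Z)
    (hinj : Function.Injective fun h : H => (r₁ h, r₂ h))
    (heven : ∀ h : H, sign (r₁ h) * sign (r₂ h) = 1) (h₀ : H) (hodd : sign (r₁ h₀) ≠ 1) :
    2 * Nat.card H ≤ Nat.card r₁.range * Nat.card r₂.range := by
  let s : (r₁.range × r₂.range) →* ℤˣ :=
    (Equiv.Perm.sign.comp r₁.range.subtype).coprod (Equiv.Perm.sign.comp r₂.range.subtype)
  have hs : Function.Surjective s := by
    intro u
    rcases Int.units_eq_one_or u with rfl | rfl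
    · exact ⟨1, map_one s⟩
    · refine ⟨(⟨r₁ h₀, ⟨h₀, rfl⟩⟩, 1), ?_⟩
      change sign (r₁ h₀) * sign (1 : Perm Z) = -1
      rw [Perm.sign_one, mul_one]
      rcases Int.units_eq_one_or (sign (r₁ h₀)) with e | e
      · exact absurd e hodd
      · exact e
  have h1 : s.ker.index = 2 := by
    rw [Subgroup.index_ker, MonoidHom.range_eq_top.mpr hs]
    simp
  have h2 := Subgroup.card_mul_index s.ker
  rw [h1, Nat.card_prod] at h2
  rw [← h2, mul_comm]
  refine Nat.mul_le_mul_right 2 ?_
  refine Nat.card_le_card_of_injective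
    (fun h => ⟨(⟨r₁ h, ⟨h, rfl⟩⟩, ⟨r₂ h, ⟨h, rfl⟩⟩), ?_⟩) ?_
  · rw [MonoidHom.mem_ker]
    exact heven h
  · intro a b hab
    apply hinj
    have := congrArg Subtype.val hab
    exact Prod.ext (congrArg Subtype.val (Prod.ext_iff.mp this).1)
      (congrArg Subtype.val (Prod.ext_iff.mp this).2)

end orbit

/-- The bound for nilpotent groups of even permutations. -/
theorem card_le_G : ∀ (n : ℕ) (X : Type) [Fintype X] [DecidableEq X] (H : Subgroup (Perm X)),
    Fintype.card X = n → Group.IsNilpotent H → (∀ h ∈ H, sign h = 1) → Nat.card H ≤ G n := by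
  intro n
  induction n using Nat.strong_induction_on with
  | _ n ih =>
    intro X _ _ H hX hnil heven
    rcases isEmpty_or_nonempty X with hemp | ⟨⟨x⟩⟩
    · have h0 : n = 0 := by rw [← hX, Fintype.card_eq_zero]
      subst h0
      have : Nat.card H = 1 := Nat.card_eq_one_iff_unique.mpr ⟨inferInstance, ⟨1⟩⟩
      rw [this, G_zero]
    · classical
      have hS := orbitPred_invariant H x
      have hcard := card_orbit_add_compl (orbitPred H x)
      have hpos := card_orbitPred_pos H x
      rw [Nat.card_eq_fintype_card (α := X), hX] at hcard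
      set m := Nat.card {y // orbitPred H x y} with hm
      set k := Nat.card {y // ¬ orbitPred H x y} with hk
      have hsign := sign_restr H (orbitPred H x) hS
      by_cases hA : ∀ h : H, sign (restr H (orbitPred H x) hS h) = 1
      · -- all orbit actions even
        have hA' : ∀ h : H, sign (restr H (fun y => ¬ orbitPred H x y) (not_invariant hS) h) = 1 := by
          intro h
          have h1 := hsign h
          rw [hA h, one_mul, heven h h.2] at h1
          exact h1.symm
        have hT : Nat.card (restr H (orbitPred H x) hS).range ≤ BA m := by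
          have : Nonempty {y // orbitPred H x y} := ⟨⟨x, 1, rfl⟩⟩
          refine card_le_BA _ (range_nilpotent hnil _) (orbit_transitive H x) ?_
          rintro _ ⟨h, rfl⟩
          exact hA h
        have hI : Nat.card (restr H (fun y => ¬ orbitPred H x y) (not_invariant hS)).range ≤ G k := by
          refine ih k (by omega) _ _ (by rw [hk, Nat.card_eq_fintype_card]) (range_nilpotent hnil _) ?_
          rintro _ ⟨h, rfl⟩
          exact hA' h
        calc Nat.card H ≤ _ := card_le_card_range_mul H (orbitPred H x) hS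
          _ ≤ BA m * G k := Nat.mul_le_mul hT hI
          _ ≤ G (m + k) := BA_mul_G hpos k
          _ = G n := by rw [hcard]
      · -- an odd element on the orbit
        push Not at hA
        obtain ⟨h₀, hodd⟩ := hA
        have h2 := two_mul_card_le H (restr H (orbitPred H x) hS)
          (restr H (fun y => ¬ orbitPred H x y) (not_invariant hS))
          (restr_prod_injective H (orbitPred H x) hS)
          (fun h => by rw [← hsign h]; exact heven h h.2) h₀ hodd
        have hT : Nat.card (restr H (orbitPred H x) hS).range ≤ f m := by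
          have : Nonempty {y // orbitPred H x y} := ⟨⟨x, 1, rfl⟩⟩
          exact card_le_f_of_transitive _ (range_nilpotent hnil _) (orbit_transitive H x)
        have hI : Nat.card (restr H (fun y => ¬ orbitPred H x y) (not_invariant hS)).range ≤ F k :=
          card_le_F k _ _ rfl (range_nilpotent hnil _)
        have hm2 : 2 ≤ m := by
          by_contra hcon
          have hm1 : m = 1 := by omega
          have : Subsingleton {y // orbitPred H x y} := by
            have := (Nat.card_eq_one_iff_unique.mp hm1).1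
            exact this
          have hone : restr H (orbitPred H x) hS h₀ = 1 := Subsingleton.elim _ _
          rw [hone, Perm.sign_one] at hodd
          exact hodd rfl
        have h3 : F n ≤ 2 * G n := F_le_two_G (by omega)
        have h4 : B m * F k ≤ F (m + k) := B_mul_F m k
        have h5 : f m * F k ≤ B m * F k := Nat.mul_le_mul_right _ (f_le_B m)
        have h6 : Nat.card (restr H (orbitPred H x) hS).range *
            Nat.card (restr H (fun y => ¬ orbitPred H x y) (not_invariant hS)).range ≤ f m * F k :=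
          Nat.mul_le_mul hT hI
        rw [hcard] at h4
        omega

lemma factorization_card_alt {n : ℕ} (hn : 2 ≤ n) :
    (Nat.card (alternatingGroup (Fin n))).factorization 2 = v n - 1 := by
  have hnt : Nontrivial (Fin n) := by
    apply Fintype.one_lt_card_iff_nontrivial.mp
    rw [Fintype.card_fin]
    omega
  have h2 := two_mul_nat_card_alternatingGroup (α := Fin n)
  rw [Nat.card_perm, Nat.card_fin] at h2
  have h3 : (2 * Nat.card (alternatingGroup (Fin n))).factorization 2 = v n := by
    rw [h2]; rfl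
  rw [Nat.factorization_mul (by norm_num) Nat.card_pos.ne', Finsupp.add_apply,
    Nat.Prime.factorization_self Nat.prime_two] at h3
  omega

section cent

variable {α : Type*} [DecidableEq α] [Fintype α]

lemma card_centralizer_alt (g : alternatingGroup α)
    (h : ¬ Subgroup.centralizer {(g : Perm α)} ≤ alternatingGroup α) :
    Nat.card (Subgroup.centralizer {g}) * 2 = Nat.card (Subgroup.centralizer {(g : Perm α)}) := by
  set C := Subgroup.centralizer {(g : Perm α)} with hC
  let f : C →* ℤˣ := Equiv.Perm.sign.comp C.subtype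
  have hf : Function.Surjective f := by
    intro u
    rcases Int.units_eq_one_or u with rfl | rfl
    · exact ⟨1, map_one f⟩
    · obtain ⟨s, hs, hs'⟩ := SetLike.not_le_iff_exists.mp h
      refine ⟨⟨s, hs⟩, ?_⟩
      rcases Int.units_eq_one_or (sign s) with e | e
      · exact absurd e hs'
      · exact e
  have h1 : f.ker.index = 2 := by
    rw [Subgroup.index_ker, MonoidHom.range_eq_top.mpr hf]
    simp
  have h2 := Subgroup.card_mul_index f.ker
  rw [h1] at h2
  rw [← h2]
  congr 1
  refine Nat.card_congr ⟨fun y => ⟨⟨y.1.1, ?_⟩, ?_⟩, fun x => ⟨⟨x.1.1, ?_⟩, ?_⟩, ?_, ?_⟩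
  · rw [hC, Subgroup.mem_centralizer_singleton_iff]
    have := Subgroup.mem_centralizer_singleton_iff.mp y.2
    exact congrArg Subtype.val this
  · rw [MonoidHom.mem_ker]
    exact y.1.2
  · have := x.2
    rw [MonoidHom.mem_ker] at this
    exact this
  · rw [Subgroup.mem_centralizer_singleton_iff]
    have := Subgroup.mem_centralizer_singleton_iff.mp x.1.2
    exact Subtype.ext this
  · intro y; rfl
  · intro y; rfl

end cent

end Cfsg.Agent.Lib.KnownSimple.NilpAlt
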