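import Mathlib
import Cfsg.Agent.Lib.KnownSimple.Schur

/-!
# Local criteria for stem extensions

Reduction to a kernel of prime order, the cyclic case, a rank two elementary abelian subgroup with
a normalising element of determinant `-1`, semidihedral subgroups, and a two-local criterion for
extensions by a group of order two.
-/

set_option autoImplicit false

namespace Cfsg.Agent.Lib.KnownSimple.SchurLocal

universe u

open Subgroup
open scoped commutatorElement

/-- A nontrivial stem extension yields one with kernel of prime order. -/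
theorem exists_prime_stem {G : Type u} [Group G] (n : ℕ) :
    ∀ (Γ : Type u) [Group Γ] [Finite Γ] (σ : Γ →* G), Cfsg.IsStemExtension σ → Nat.card σ.ker = n →
      σ.ker ≠ ⊥ → ∃ (Λ : Type u) (_ : Group Λ) (_ : Finite Λ) (ρ : Λ →* G),
        Cfsg.IsStemExtension ρ ∧ (Nat.card ρ.ker).Prime := by
  induction n using Nat.strong_induction_on with
  | _ n ih =>
    intro Γ _ _ σ hσ hn hne
    have hn1 : n ≠ 1 := by
      intro h1
      exact hne (Subgroup.eq_bot_of_card_eq _ (hn.trans h1))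
    by_cases hp : n.Prime
    · exact ⟨Γ, inferInstance, inferInstance, σ, hσ, hn ▸ hp⟩
    obtain ⟨r, hr, hrd⟩ := Nat.exists_prime_and_dvd hn1
    have : Fact r.Prime := ⟨hr⟩
    obtain ⟨w, hw⟩ := exists_prime_orderOf_dvd_card' (G := σ.ker) r (by rw [hn]; exact hrd)
    obtain ⟨hs, hK, hK'⟩ := hσ
    set N : Subgroup Γ := zpowers (w : Γ) with hN
    have hNK : N ≤ σ.ker := by
      rw [hN, Subgroup.zpowers_le]
      exact w.2
    have hNn : N.Normal := by
      constructor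
      intro x hx g
      have h1 : x ∈ center Γ := hK (hNK hx)
      have h2 : g * x * g⁻¹ = x := by
        rw [(Subgroup.mem_center_iff.mp h1 g)]
        group
      rwa [h2]
    let ρ : Γ ⧸ N →* G := QuotientGroup.lift N σ (fun x hx => hNK hx)
    have hρmk : ∀ x : Γ, ρ (x : Γ ⧸ N) = σ x := fun x => rfl
    have hker : ∀ y : Γ ⧸ N, y ∈ ρ.ker → ∃ k ∈ σ.ker, (k : Γ ⧸ N) = y := by
      intro y hy
      obtain ⟨x, rfl⟩ := QuotientGroup.mk_surjective y
      exact ⟨x, hy, rfl⟩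
    have hstem : Cfsg.IsStemExtension ρ := by
      refine ⟨?_, ?_, ?_⟩
      · intro g
        obtain ⟨x, rfl⟩ := hs g
        exact ⟨x, rfl⟩
      · intro y hy
        obtain ⟨k, hk, rfl⟩ := hker y hy
        rw [Subgroup.mem_center_iff]
        intro g
        obtain ⟨x, rfl⟩ := QuotientGroup.mk_surjective g
        have h1 := Subgroup.mem_center_iff.mp (hK hk) x
        show ((x * k : Γ) : Γ ⧸ N) = ((k * x : Γ) : Γ ⧸ N)
        rw [h1]
      · intro y hy
        obtain ⟨k, hk, rfl⟩ := hker y hy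
        have h1 : ((QuotientGroup.mk' N) k) ∈ (commutator Γ).map (QuotientGroup.mk' N) :=
          ⟨k, hK' hk, rfl⟩
        have h2 : (commutator Γ).map (QuotientGroup.mk' N) ≤ commutator (Γ ⧸ N) := by
          rw [_root_.commutator_def, _root_.commutator_def, Subgroup.map_commutator]
          exact Subgroup.commutator_mono le_top le_top
        exact h2 h1
    -- the map on kernels
    let f : σ.ker → ρ.ker := fun k => ⟨(k.1 : Γ ⧸ N), k.2⟩
    have hf : Function.Surjective f := by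
      rintro ⟨y, hy⟩
      obtain ⟨k, hk, rfl⟩ := hker y hy
      exact ⟨⟨k, hk⟩, rfl⟩
    have hw1 : (w : Γ) ≠ 1 := by
      intro h0
      have : w = 1 := Subtype.ext h0
      rw [this, orderOf_one] at hw
      exact hr.one_lt.ne hw
    have hnf : ¬ Function.Injective f := by
      intro hi
      have h1 : f w = f 1 := by
        apply Subtype.ext
        show ((w : Γ) : Γ ⧸ N) = ((1 : Γ) : Γ ⧸ N)
        rw [QuotientGroup.eq]
        rw [mul_one]
        exact inv_mem (mem_zpowers _)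
      have h2 := hi h1
      exact hw1 (congrArg Subtype.val h2)
    have hlt : Nat.card ρ.ker < n := by
      rw [← hn]
      refine lt_of_le_of_ne (Nat.card_le_card_of_surjective f hf) ?_
      intro heq
      exact hnf (hf.bijective_of_nat_card_le heq.ge).1
    refine ih _ hlt (Γ ⧸ N) ρ hstem rfl ?_
    intro hbot
    -- `σ.ker = N`, of prime order
    apply hp
    have hKN : σ.ker ≤ N := by
      intro k hk
      have h1 : (k : Γ ⧸ N) ∈ ρ.ker := hk
      rw [hbot, Subgroup.mem_bot] at h1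
      exact (QuotientGroup.eq_one_iff k).mp h1
    have h2 : σ.ker = N := le_antisymm hKN hNK
    rw [← hn, h2, hN, Nat.card_zpowers]
    have h3 : orderOf (w : Γ) = r := by
      rw [← hw]
      exact Subgroup.orderOf_coe w
    rw [h3]
    exact hr

/-- The trivial multiplier from the absence of stem extensions with prime kernel. -/
theorem hasCyclicSchurMultiplier_one_of_prime {G : Type u} [Group G] [Finite G]
    (h : ∀ (Γ : Type u) [Group Γ] [Finite Γ] (σ : Γ →* G), Cfsg.IsStemExtension σ →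
      (Nat.card σ.ker).Prime → False) : Cfsg.HasCyclicSchurMultiplier G 1 := by
  apply Cfsg.Agent.Lib.KnownSimple.hasCyclicSchurMultiplier_one_of
  intro Γ _ _ σ hσ
  by_contra hne
  obtain ⟨Λ, _, _, ρ, hρ, hp⟩ := exists_prime_stem _ Γ σ hσ rfl hne
  exact h Λ ρ hρ hp

section crit

/-- A central subgroup is normalised by everything. -/
theorem normalizer_of_central {Γ G : Type*} [Group Γ] [Group G] {σ : Γ →* G} (hK : σ.ker ≤ center Γ) {c : Γ}
    (hc : c ∈ σ.ker) (t : Γ) : t ∈ normalizer (zpowers c : Set Γ) := by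
  rw [Subgroup.mem_normalizer_iff]
  intro m
  have hcen : ∀ k ∈ σ.ker, t * k * t⁻¹ = k := by
    intro k hk
    rw [Subgroup.mem_center_iff.mp (hK hk) t]
    group
  have hle : zpowers c ≤ σ.ker := by
    rw [Subgroup.zpowers_le]
    exact hc
  constructor
  · intro hm
    rwa [hcen m (hle hm)]
  · intro hm
    have h1 : m = t⁻¹ * (t * m * t⁻¹) * t := by group
    rw [h1]
    have h2 := hle hm
    have h3 : t⁻¹ * (t * m * t⁻¹) * t⁻¹⁻¹ = t * m * t⁻¹ := by
      rw [Subgroup.mem_center_iff.mp (hK h2) t⁻¹]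
      group
    rw [inv_inv] at h3
    rwa [h3]

/-- Powers of a product with a central factor. -/
theorem mul_pow_of_central {Γ G : Type*} [Group Γ] [Group G] {σ : Γ →* G} {k : Γ} (hk : k ∈ σ.ker)
    (hK : σ.ker ≤ center Γ) (x : Γ) (n : ℕ) : (k * x) ^ n = k ^ n * x ^ n := by
  have h : Commute k x := (Subgroup.mem_center_iff.mp (hK hk) x).symm
  exact h.mul_pow n


variable {Γ G : Type*} [Group Γ] [Group G]

/-- The cyclic criterion. -/
theorem eq_one_of_cyclic [Finite Γ] {σ : Γ →* G} (hs : Function.Surjective σ) (hK : σ.ker ≤ center Γ)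
    (hK' : σ.ker ≤ commutator Γ) (g : G) {z : Γ} (hz : z ∈ σ.ker)
    (hco : Nat.Coprime (orderOf z) (zpowers g).index) : z = 1 := by
  have h1 := Cfsg.Agent.Lib.KnownSimple.mem_commutator_comap hs hK hK' (zpowers g) hz hco
  rw [Cfsg.Agent.Lib.KnownSimple.commutator_comap_zpowers σ hs hK g, Subgroup.mem_bot] at h1
  exact h1

/-- Index of a cyclic subgroup and a prime dividing its order exactly once in the group order. -/
theorem coprime_index_zpowers {H : Type*} [Group H] {N r : ℕ} (hr : r.Prime) (hN : Nat.card H = N) (hN0 : N ≠ 0)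
    (hr2 : ¬ r ^ 2 ∣ N) (g : H) (hg : r ∣ orderOf g) : Nat.Coprime r (zpowers g).index := by
  rw [hr.coprime_iff_not_dvd]
  intro hd
  apply hr2
  have h1 := Subgroup.card_mul_index (zpowers g)
  rw [Nat.card_zpowers, hN] at h1
  rw [← h1, pow_two]
  exact mul_dvd_mul hg hd

/-- Index for the trivial subgroup. -/
theorem coprime_index_one {H : Type*} [Group H] {N r : ℕ} (hN : Nat.card H = N) (hr : r.Prime) (hd : ¬ r ∣ N) :
    Nat.Coprime r (zpowers (1 : H)).index := by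
  rw [hr.coprime_iff_not_dvd]
  intro h
  apply hd
  have h1 := Subgroup.card_mul_index (zpowers (1 : H))
  rw [Nat.card_zpowers, orderOf_one, one_mul, hN] at h1
  rwa [h1] at h

/-- Rank two with a normalising element of determinant `-1`. -/
theorem eq_one_of_det_minus [Finite Γ] {σ : Γ →* G} (hs : Function.Surjective σ) (hK : σ.ker ≤ center Γ)
    (x y n : G) (hxy : x * y = y * x) (hnx : n * x * n⁻¹ = x) (hny : n * y * n⁻¹ = y⁻¹)
    {z : Γ} (hz : z ∈ σ.ker) (hzU : z ∈ ⁅(closure {x, y}).comap σ, (closure {x, y}).comap σ⁆) : z * z = 1 := by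
  obtain ⟨A, rfl⟩ := hs x
  obtain ⟨B, rfl⟩ := hs y
  obtain ⟨D, rfl⟩ := hs n
  have hcen : ∀ k ∈ σ.ker, ∀ t : Γ, t * k = k * t := fun k hk t =>
    Subgroup.mem_center_iff.mp (hK hk) t
  set c : Γ := A * B * A⁻¹ * B⁻¹ with hc
  have hcK : c ∈ σ.ker := by
    rw [MonoidHom.mem_ker, hc]
    simp only [map_mul, map_inv, hxy]
    group
  set k₁ : Γ := D * A * D⁻¹ * A⁻¹ with hk₁
  set k₂ : Γ := D * B * D⁻¹ * B with hk₂
  have hk₁K : k₁ ∈ σ.ker := by
    rw [MonoidHom.mem_ker, hk₁]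
    simp only [map_mul, map_inv]
    rw [hnx]
    group
  have hk₂K : k₂ ∈ σ.ker := by
    rw [MonoidHom.mem_ker, hk₂]
    simp only [map_mul, map_inv]
    rw [hny]
    group
  have h1 : D * A * D⁻¹ = k₁ * A := by rw [hk₁]; group
  have h2 : D * B * D⁻¹ = k₂ * B⁻¹ := by rw [hk₂]; group
  -- `c` is inverted
  have hAB : A * B = c * (B * A) := by rw [hc]; group
  have hcinv : c * c = 1 := by
    have h3 : D * c * D⁻¹ = c := by rw [hcen c hcK D]; group
    have h4 : D * c * D⁻¹ = (k₁ * A) * (k₂ * B⁻¹) * (k₁ * A)⁻¹ * (k₂ * B⁻¹)⁻¹ := by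
      rw [← h1, ← h2, hc]; group
    have e1 : ∀ t : Γ, k₁ * t = t * k₁ := fun t => (hcen k₁ hk₁K t).symm
    have e2 : ∀ t : Γ, k₂ * t = t * k₂ := fun t => (hcen k₂ hk₂K t).symm
    have h5 : (k₁ * A) * (k₂ * B⁻¹) * (k₁ * A)⁻¹ * (k₂ * B⁻¹)⁻¹ = A * B⁻¹ * A⁻¹ * B := by
      calc (k₁ * A) * (k₂ * B⁻¹) * (k₁ * A)⁻¹ * (k₂ * B⁻¹)⁻¹
          = k₁ * (A * (k₂ * B⁻¹) * A⁻¹) * k₁⁻¹ * (B * k₂⁻¹) := by group
        _ = (A * (k₂ * B⁻¹) * A⁻¹) * (B * k₂⁻¹) := by rw [e1 (A * (k₂ * B⁻¹) * A⁻¹)]; group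
        _ = (A * (B⁻¹ * k₂) * A⁻¹) * (B * k₂⁻¹) := by rw [e2 B⁻¹]
        _ = A * B⁻¹ * (k₂ * (A⁻¹ * B)) * k₂⁻¹ := by group
        _ = A * B⁻¹ * A⁻¹ * B := by rw [e2 (A⁻¹ * B)]; group
    have h6 : A * B⁻¹ * A⁻¹ * B = c⁻¹ := by
      -- `B⁻¹ c = c B⁻¹`
      have h7 : c⁻¹ = B * A * B⁻¹ * A⁻¹ := by rw [hc]; group
      have h8 : B⁻¹ * c⁻¹ * B = c⁻¹ := by
        rw [hcen _ (inv_mem hcK) B⁻¹]; group
      rw [← h8, h7]
      group
    have h9 : c = c⁻¹ := h3.symm.trans (h4.trans (h5.trans h6))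
    calc c * c = c⁻¹ * c := by rw [← h9]
      _ = 1 := by group
  -- the commutator subgroup of the preimage lies in `⟨c⟩`
  have hgen : (closure {σ A, σ B}).comap σ ≤ closure ({A, B} ∪ (σ.ker : Set Γ)) := by
    intro t ht
    have h3 : closure {σ A, σ B} ≤ (closure ({A, B} ∪ (σ.ker : Set Γ))).map σ := by
      rw [closure_le]
      rintro g (rfl | rfl)
      · exact ⟨A, subset_closure (Or.inl (Or.inl rfl)), rfl⟩
      · exact ⟨B, subset_closure (Or.inl (Or.inr rfl)), rfl⟩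
    obtain ⟨t', ht', he⟩ := h3 ht
    have h4 : t = t' * (t'⁻¹ * t) := by group
    rw [h4]
    refine mul_mem ht' (subset_closure (Or.inr ?_))
    show t'⁻¹ * t ∈ σ.ker
    rw [MonoidHom.mem_ker, map_mul, map_inv, he, inv_mul_cancel]
  have hN : ⁅closure ({A, B} ∪ (σ.ker : Set Γ)), closure ({A, B} ∪ (σ.ker : Set Γ))⁆ ≤ zpowers c := by
    apply Cfsg.Agent.Lib.KnownSimple.commutator_closure_le
    · intro t _
      exact normalizer_of_central hK hcK t
    · have hk1 : ∀ k ∈ σ.ker, ∀ t : Γ, ⁅k, t⁆ = 1 := by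
        intro k hk t
        rw [commutatorElement_eq_one_iff_mul_comm]
        exact (hcen k hk t).symm
      have hk2 : ∀ k ∈ σ.ker, ∀ t : Γ, ⁅t, k⁆ = 1 := by
        intro k hk t
        rw [commutatorElement_eq_one_iff_mul_comm]
        exact hcen k hk t
      rintro s ((hs1 | hs1) | hs') t ((ht1 | ht1) | ht')
      · rw [hs1, ht1, commutatorElement_self]; exact one_mem _
      · rw [hs1, ht1]; exact mem_zpowers _
      · rw [hk2 t ht']; exact one_mem _
      · have : ⁅B, A⁆ = c⁻¹ := by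
          rw [hc]; simp only [commutatorElement_def]; group
        rw [hs1, ht1, this]
        exact inv_mem (mem_zpowers _)
      · rw [hs1, ht1, commutatorElement_self]; exact one_mem _
      · rw [hk2 t ht']; exact one_mem _
      · rw [hk1 s hs']; exact one_mem _
      · rw [hk1 s hs']; exact one_mem _
      · rw [hk1 s hs']; exact one_mem _
  have h5 := hN (Subgroup.commutator_mono hgen hgen hzU)
  obtain ⟨i, rfl⟩ := Subgroup.mem_zpowers_iff.mp h5
  rw [← zpow_add, ← two_mul, zpow_mul]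
  have : c ^ (2 : ℤ) = 1 := by
    rw [zpow_two]; exact hcinv
  rw [this, one_zpow]

theorem comap_closure_le (σ : Γ →* G) (S : Set Γ) :
    (closure (σ '' S)).comap σ ≤ closure (S ∪ (σ.ker : Set Γ)) := by
  intro t ht
  have h3 : closure (σ '' S) ≤ (closure (S ∪ (σ.ker : Set Γ))).map σ := by
    rw [closure_le]
    rintro g ⟨x, hx, rfl⟩
    exact ⟨x, subset_closure (Or.inl hx), rfl⟩
  obtain ⟨t', ht', he⟩ := h3 ht
  have h4 : t = t' * (t'⁻¹ * t) := by group
  rw [h4]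
  refine mul_mem ht' (subset_closure (Or.inr ?_))
  show t'⁻¹ * t ∈ σ.ker
  rw [MonoidHom.mem_ker, map_mul, map_inv, he, inv_mul_cancel]

/-- Membership in the normaliser of a cyclic subgroup. -/
theorem mem_normalizer_zpowers (t c : Γ) (i j : ℕ) (h1 : t * c * t⁻¹ = c ^ i) (h2 : t⁻¹ * c * t = c ^ j) :
    t ∈ normalizer (zpowers c : Set Γ) := by
  rw [Subgroup.mem_normalizer_iff]
  intro m
  constructor
  · intro hm
    obtain ⟨n, rfl⟩ := Subgroup.mem_zpowers_iff.mp hm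
    rw [← conj_zpow, h1]
    exact zpow_mem (pow_mem (mem_zpowers c) i) n
  · intro hm
    obtain ⟨n, hn⟩ := Subgroup.mem_zpowers_iff.mp hm
    have h3 : m = t⁻¹ * (t * m * t⁻¹) * t := by group
    rw [h3, ← hn]
    have h4 := conj_zpow (a := t⁻¹) (b := c) (i := n)
    rw [inv_inv] at h4
    rw [← h4, h2]
    exact zpow_mem (pow_mem (mem_zpowers c) j) n

/-- A semidihedral subgroup. -/
theorem eq_one_of_semidihedral {σ : Γ →* G} (hs : Function.Surjective σ) (hK : σ.ker ≤ center Γ)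
    (a b : G) (ha8 : a ^ 8 = 1) (ha4 : a ^ 4 ≠ 1) (hb : b * a * b⁻¹ = a ^ 3) (hb2 : b ^ 2 = 1)
    {z : Γ} (hz : z ∈ σ.ker) (hzU : z ∈ ⁅(closure {a, b}).comap σ, (closure {a, b}).comap σ⁆) : z = 1 := by
  obtain ⟨A, rfl⟩ := hs a
  obtain ⟨B, rfl⟩ := hs b
  have hcen : ∀ k ∈ σ.ker, ∀ t : Γ, t * k = k * t := fun k hk t =>
    Subgroup.mem_center_iff.mp (hK hk) t
  obtain ⟨k₃, hk₃K, h1⟩ : ∃ k ∈ σ.ker, B * A * B⁻¹ = k * A ^ 3 := by
    refine ⟨B * A * B⁻¹ * (A ^ 3)⁻¹, ?_, by group⟩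
    rw [MonoidHom.mem_ker]
    simp only [map_mul, map_inv, map_pow]
    rw [hb]
    group
  have hB2K : B ^ 2 ∈ σ.ker := by
    rw [MonoidHom.mem_ker, map_pow, hb2]
  have e3 : ∀ t : Γ, k₃ * t = t * k₃ := fun t => (hcen k₃ hk₃K t).symm
  have hpow : ∀ n : ℕ, B * A ^ n * B⁻¹ = k₃ ^ n * A ^ (3 * n) := by
    intro n
    have h2 : B * A ^ n * B⁻¹ = (B * A * B⁻¹) ^ n := by
      rw [conj_pow]
    have hcm : Commute k₃ (A ^ 3) := e3 _
    rw [h2, h1, hcm.mul_pow, ← pow_mul]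
  have hrel : k₃ ^ 4 * A ^ 8 = 1 := by
    have h2 : B ^ 2 * A * (B ^ 2)⁻¹ = A := by
      rw [← hcen _ hB2K A]
      group
    have h3 : B ^ 2 * A * (B ^ 2)⁻¹ = k₃ * (k₃ ^ 3 * A ^ 9) := by
      calc B ^ 2 * A * (B ^ 2)⁻¹ = B * (B * A * B⁻¹) * B⁻¹ := by rw [pow_two]; group
        _ = B * (k₃ * A ^ 3) * B⁻¹ := by rw [h1]
        _ = (B * k₃) * A ^ 3 * B⁻¹ := by group
        _ = (k₃ * B) * A ^ 3 * B⁻¹ := by rw [e3 B]
        _ = k₃ * (B * A ^ 3 * B⁻¹) := by group
        _ = k₃ * (k₃ ^ 3 * A ^ 9) := by rw [hpow 3]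
    have h4 : k₃ * (k₃ ^ 3 * A ^ 9) = (k₃ ^ 4 * A ^ 8) * A := by group
    rw [h2, h4] at h3
    exact (mul_eq_right.mp h3.symm)
  obtain ⟨c, hc⟩ : ∃ c : Γ, c = A ^ 2 * k₃ := ⟨_, rfl⟩
  have hcK : ∀ n : ℕ, Commute (A ^ n) k₃ := fun n => (e3 _).symm
  have hcpow : ∀ n : ℕ, c ^ n = A ^ (2 * n) * k₃ ^ n := by
    intro n
    rw [hc, (hcK 2).mul_pow, ← pow_mul]
  have hc4 : c ^ 4 = 1 := by
    rw [hcpow 4, show 2 * 4 = 8 from rfl, ((hcK 8).pow_right 4).eq]
    exact hrel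
  have hAc : A * c * A⁻¹ = c ^ 1 := by
    rw [pow_one, hc]
    calc A * (A ^ 2 * k₃) * A⁻¹ = A ^ 2 * A * k₃ * A⁻¹ := by group
      _ = A ^ 2 * (A * k₃) * A⁻¹ := by group
      _ = A ^ 2 * (k₃ * A) * A⁻¹ := by rw [e3 A]
      _ = A ^ 2 * k₃ := by group
  have hAc' : A⁻¹ * c * A = c ^ 1 := by
    rw [pow_one, hc]
    calc A⁻¹ * (A ^ 2 * k₃) * A = A ^ 2 * (A⁻¹ * k₃) * A := by group
      _ = A ^ 2 * (k₃ * A⁻¹) * A := by rw [e3 A⁻¹]
      _ = A ^ 2 * k₃ := by group
  have hBc : B * c * B⁻¹ = c ^ 3 := by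
    rw [hcpow 3, hc]
    calc B * (A ^ 2 * k₃) * B⁻¹ = (B * A ^ 2 * B⁻¹) * (B * k₃ * B⁻¹) := by group
      _ = (B * A ^ 2 * B⁻¹) * (k₃ * B * B⁻¹) := by rw [e3 B]
      _ = (k₃ ^ 2 * A ^ 6) * k₃ := by rw [hpow 2]; group
      _ = (A ^ 6 * k₃ ^ 2) * k₃ := by rw [(hcK 6).pow_right 2 |>.eq]
      _ = A ^ (2 * 3) * k₃ ^ 3 := by group
  have hBc' : B⁻¹ * c * B = c ^ 3 := by
    have h2 : B * c ^ 3 * B⁻¹ = c := by
      rw [← conj_pow, hBc, ← pow_mul]
      calc c ^ (3 * 3) = (c ^ 4) ^ 2 * c := by group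
        _ = c := by rw [hc4]; group
    calc B⁻¹ * c * B = B⁻¹ * (B * c ^ 3 * B⁻¹) * B := by rw [h2]
      _ = c ^ 3 := by group
  have hAB : ⁅A, B⁆ = c⁻¹ := by
    rw [commutatorElement_def]
    have h2 : B * A⁻¹ * B⁻¹ = (k₃ * A ^ 3)⁻¹ := by
      rw [← h1]; group
    calc A * B * A⁻¹ * B⁻¹ = A * (B * A⁻¹ * B⁻¹) := by group
      _ = A * (k₃ * A ^ 3)⁻¹ := by rw [h2]
      _ = c⁻¹ := by
        rw [hc, mul_inv_rev, mul_inv_rev]
        have e4 : k₃⁻¹ * (A ^ 2)⁻¹ = (A ^ 2)⁻¹ * k₃⁻¹ := (hcen _ (inv_mem hk₃K) (A ^ 2)⁻¹).symm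
        rw [e4]
        group
  have hN : ⁅closure (({A, B} : Set Γ) ∪ (σ.ker : Set Γ)), closure (({A, B} : Set Γ) ∪ (σ.ker : Set Γ))⁆ ≤ zpowers c := by
    apply Cfsg.Agent.Lib.KnownSimple.commutator_closure_le
    · rw [Subgroup.closure_le]
      have hcKer : ∀ k ∈ σ.ker, k ∈ normalizer (zpowers c : Set Γ) := by
        intro k hk
        refine mem_normalizer_zpowers k c 1 1 ?_ ?_
        · rw [← hcen k hk c, pow_one]; group
        · rw [← hcen k⁻¹ (inv_mem hk) c, pow_one]; group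
      rintro t ((ht | ht) | ht)
      · rw [ht]; exact mem_normalizer_zpowers A c 1 1 hAc hAc'
      · rw [ht]; exact mem_normalizer_zpowers B c 3 3 hBc hBc'
      · exact hcKer t ht
    · have hk1 : ∀ k ∈ σ.ker, ∀ t : Γ, ⁅k, t⁆ = 1 := by
        intro k hk t
        rw [commutatorElement_eq_one_iff_mul_comm]
        exact (hcen k hk t).symm
      have hk2 : ∀ k ∈ σ.ker, ∀ t : Γ, ⁅t, k⁆ = 1 := by
        intro k hk t
        rw [commutatorElement_eq_one_iff_mul_comm]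
        exact hcen k hk t
      rintro s ((hs1 | hs1) | hs') t ((ht1 | ht1) | ht')
      · rw [hs1, ht1, commutatorElement_self]; exact one_mem _
      · rw [hs1, ht1, hAB]; exact inv_mem (mem_zpowers _)
      · rw [hk2 t ht']; exact one_mem _
      · have : ⁅B, A⁆ = c := by
          have h2 : ⁅B, A⁆ = ⁅A, B⁆⁻¹ := by
            simp only [commutatorElement_def]; group
          rw [h2, hAB, inv_inv]
        rw [hs1, ht1, this]
        exact mem_zpowers _
      · rw [hs1, ht1, commutatorElement_self]; exact one_mem _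
      · rw [hk2 t ht']; exact one_mem _
      · rw [hk1 s hs']; exact one_mem _
      · rw [hk1 s hs']; exact one_mem _
      · rw [hk1 s hs']; exact one_mem _
  have hgen : (closure {σ A, σ B}).comap σ ≤ closure (({A, B} : Set Γ) ∪ (σ.ker : Set Γ)) := by
    have := comap_closure_le σ ({A, B} : Set Γ)
    simpa [Set.image_pair] using this
  have h5 := hN (Subgroup.commutator_mono hgen hgen hzU)
  obtain ⟨i, rfl⟩ := Subgroup.mem_zpowers_iff.mp h5
  have hsc : σ c = σ A ^ 2 := by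
    rw [hc, map_mul, map_pow, MonoidHom.mem_ker.mp hk₃K, mul_one]
  have h6 : orderOf (σ c) = 2 ^ 2 := by
    have : Fact (Nat.Prime 2) := ⟨Nat.prime_two⟩
    apply orderOf_eq_prime_pow (p := 2) (n := 1)
    · rw [hsc, ← pow_mul]
      exact ha4
    · rw [hsc, ← pow_mul]
      exact ha8
  have h7 : (σ c) ^ i = 1 := by
    have := MonoidHom.mem_ker.mp hz
    rwa [map_zpow] at this
  have h8 : ((2 ^ 2 : ℕ) : ℤ) ∣ i := by
    rw [← h6]
    exact orderOf_dvd_iff_zpow_eq_one.mpr h7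
  obtain ⟨j, rfl⟩ := h8
  rw [zpow_mul, zpow_natCast]
  simp only [show (2 ^ 2 : ℕ) = 4 from rfl, hc4, one_zpow]

/-- A generator of a kernel of prime order. -/
theorem exists_elt_of_prime_kernel {σ : Γ →* G} (hp : (Nat.card σ.ker).Prime) :
    ∃ z ∈ σ.ker, z ≠ 1 ∧ orderOf z = Nat.card σ.ker := by
  have : Fact (Nat.card σ.ker).Prime := ⟨hp⟩
  have : Finite σ.ker := Nat.finite_of_card_ne_zero hp.ne_zero
  obtain ⟨w, hw⟩ := exists_prime_orderOf_dvd_card' (G := σ.ker) (Nat.card σ.ker) (dvd_refl _)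
  have h1 : orderOf (w : Γ) = Nat.card σ.ker := by
    rw [← hw]
    exact Subgroup.orderOf_coe w
  refine ⟨w, w.2, ?_, h1⟩
  intro h0
  rw [h0, orderOf_one] at h1
  exact hp.one_lt.ne h1

end crit

end Cfsg.Agent.Lib.KnownSimple.SchurLocal
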