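import Mathlib

/-! Normal form of a square-zero endomorphism. -/

set_option autoImplicit false

namespace Cfsg.Agent.Lib.KnownSimple

variable {F V : Type*} [Field F] [AddCommGroup V] [Module F V] [FiniteDimensional F V]

/-- A square-zero endomorphism has a basis `c_j, d_k, r_j` with `N c_j = r_j` and `N d_k = N r_j = 0`. -/
theorem exists_basis_of_sq_zero (N : V →ₗ[F] V) (hN : ∀ v, N (N v) = 0) (l m : ℕ)
    (hl : Module.finrank F (LinearMap.range N) = l) (hm : Module.finrank F V = 2 * l + m) :
    ∃ b : Module.Basis (Fin l ⊕ Fin m ⊕ Fin l) F V,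
      (∀ j, N (b (Sum.inl j)) = b (Sum.inr (Sum.inr j))) ∧
      (∀ k, N (b (Sum.inr (Sum.inl k))) = 0) ∧ (∀ j, N (b (Sum.inr (Sum.inr j))) = 0) := by
  classical
  let R := LinearMap.range N
  let K := LinearMap.ker N
  have hRK : R ≤ K := by
    rintro _ ⟨v, rfl⟩
    exact hN v
  obtain ⟨D, hD⟩ := Submodule.exists_isCompl R
  let D' := D ⊓ K
  have hsup : R ⊔ D' = K := by
    have := sup_inf_assoc_of_le D hRK
    rw [hD.sup_eq_top, top_inf_eq] at this
    exact this.symm
  have hinf : R ⊓ D' = ⊥ := by
    rw [eq_bot_iff]
    intro v hv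
    exact hD.inf_eq_bot.le ⟨hv.1, hv.2.1⟩
  have hK : Module.finrank F K + l = 2 * l + m := by
    have := LinearMap.finrank_range_add_finrank_ker N
    rw [hl, hm] at this
    have hk : Module.finrank F K = Module.finrank F (LinearMap.ker N) := rfl
    omega
  have hD' : Module.finrank F D' = m := by
    have := Submodule.finrank_sup_add_finrank_inf_eq R D'
    rw [hsup, hinf, finrank_bot] at this
    have hl' : Module.finrank F R = l := hl
    omega
  let r : Module.Basis (Fin l) F R := Module.finBasisOfFinrankEq F R hl
  let d : Module.Basis (Fin m) F D' := Module.finBasisOfFinrankEq F D' hD'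
  have hc : ∀ j, ∃ c, N c = (r j : V) := fun j => (r j).2
  choose c hc using hc
  let v : (Fin l ⊕ Fin m ⊕ Fin l) → V := Sum.elim c (Sum.elim (fun k => (d k : V)) (fun j => (r j : V)))
  have hrK : ∀ j, N (r j : V) = 0 := fun j => hRK (r j).2
  have hdK : ∀ k, N (d k : V) = 0 := fun k => (d k).2.2
  have hli : LinearIndependent F v := by
    rw [Fintype.linearIndependent_iff]
    intro g hg
    rw [Fintype.sum_sum_type, Fintype.sum_sum_type] at hg
    simp only [v, Sum.elim_inl, Sum.elim_inr] at hg
    -- apply `N`
    have h1 := congrArg N hg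
    simp only [map_add, map_sum, map_smul, hc, hrK, hdK, smul_zero, Finset.sum_const_zero, add_zero,
      map_zero] at h1
    have hα : ∀ j, g (Sum.inl j) = 0 := by
      have hli' := r.linearIndependent
      rw [Fintype.linearIndependent_iff] at hli'
      apply hli'
      apply Subtype.ext
      simpa using h1
    simp only [hα, zero_smul, Finset.sum_const_zero, zero_add] at hg
    set u := ∑ k, g (Sum.inr (Sum.inl k)) • (d k : V) with hu
    set w := ∑ j, g (Sum.inr (Sum.inr j)) • (r j : V) with hw
    have huD : u ∈ D' := Submodule.sum_mem _ fun k _ => Submodule.smul_mem _ _ (d k).2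
    have hwR : w ∈ R := Submodule.sum_mem _ fun j _ => Submodule.smul_mem _ _ (r j).2
    have hu0 : u = 0 := by
      have : u = -w := eq_neg_of_add_eq_zero_left hg
      have hu' : u ∈ R := by
        rw [this]
        exact Submodule.neg_mem _ hwR
      have := hinf.le ⟨hu', huD⟩
      simpa using this
    have hw0 : w = 0 := by
      rw [hu0, zero_add] at hg
      exact hg
    have hβ : ∀ k, g (Sum.inr (Sum.inl k)) = 0 := by
      have hli' := d.linearIndependent
      rw [Fintype.linearIndependent_iff] at hli'
      apply hli'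
      apply Subtype.ext
      simpa [hu] using hu0
    have hγ : ∀ j, g (Sum.inr (Sum.inr j)) = 0 := by
      have hli' := r.linearIndependent
      rw [Fintype.linearIndependent_iff] at hli'
      apply hli'
      apply Subtype.ext
      simpa [hw] using hw0
    rintro (j | k | j)
    · exact hα j
    · exact hβ k
    · exact hγ j
  have hcard : Fintype.card (Fin l ⊕ Fin m ⊕ Fin l) = Module.finrank F V := by
    simp [hm]
    omega
  let b := basisOfLinearIndependentOfCardEqFinrank' v hli hcard
  have hb : ∀ i, b i = v i := fun i => by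
    rw [coe_basisOfLinearIndependentOfCardEqFinrank']
  refine ⟨b, ?_, ?_, ?_⟩
  · intro j
    rw [hb, hb]
    exact hc j
  · intro k
    rw [hb]
    exact hdK k
  · intro j
    rw [hb]
    exact hrK j

end Cfsg.Agent.Lib.KnownSimple
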