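import Mathlib

/-! Gluing isometries along hyperbolic blocks for symmetric bilinear forms. -/

set_option autoImplicit false

namespace Cfsg.Agent.Lib.KnownSimple

universe u v

/-- A symmetric bilinear form, presented as a two argument function. -/
structure IsSymB {F : Type v} {V : Type u} [Field F] [AddCommGroup V] [Module F V]
    (f : V → V → F) : Prop where
  add_left : ∀ u u' v, f (u + u') v = f u v + f u' v
  smul_left : ∀ (c : F) u v, f (c • u) v = c * f u v
  comm : ∀ u v, f u v = f v u

/-- Nondegeneracy. -/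
def SymBNondeg {F : Type v} {V : Type u} (f : V → V → F) [Zero V] [Zero F] : Prop :=
  ∀ u, (∀ v, f u v = 0) → u = 0

variable {F : Type v} [Field F] {V : Type u} [AddCommGroup V] [Module F V] {f : V → V → F}

namespace IsSymB

theorem add_right (hf : IsSymB f) (u v v' : V) : f u (v + v') = f u v + f u v' := by
  rw [hf.comm, hf.add_left, hf.comm v, hf.comm v']

theorem smul_right (hf : IsSymB f) (c : F) (u v : V) : f u (c • v) = c * f u v := by
  rw [hf.comm, hf.smul_left, hf.comm v]

theorem zero_left (hf : IsSymB f) (v : V) : f 0 v = 0 := by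
  have := hf.smul_left 0 0 v
  simpa using this

theorem zero_right (hf : IsSymB f) (v : V) : f v 0 = 0 := by
  rw [hf.comm, hf.zero_left]

theorem sub_left (hf : IsSymB f) (u u' v : V) : f (u - u') v = f u v - f u' v := by
  have : u - u' = u + (-1 : F) • u' := by simp [sub_eq_add_neg]
  rw [this, hf.add_left, hf.smul_left]
  ring

/-- The linear functional `v ↦ f v x`. -/
def lin (hf : IsSymB f) (x : V) : V →ₗ[F] F where
  toFun v := f v x
  map_add' u v := hf.add_left u v x
  map_smul' c u := hf.smul_left c u x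

theorem lin_apply (hf : IsSymB f) (x v : V) : hf.lin x v = f v x := rfl

theorem sum_left (hf : IsSymB f) {ι : Type*} [Fintype ι] (a : ι → F) (e : ι → V) (y : V) :
    f (∑ i, a i • e i) y = ∑ i, a i * f (e i) y := by
  have h : f (∑ i, a i • e i) y = hf.lin y (∑ i, a i • e i) := rfl
  rw [h, map_sum]
  exact Finset.sum_congr rfl fun i _ => hf.smul_left _ _ _

theorem sum_right (hf : IsSymB f) {ι : Type*} [Fintype ι] (a : ι → F) (e : ι → V) (y : V) :
    f y (∑ i, a i • e i) = ∑ i, a i * f y (e i) := by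
  rw [hf.comm, hf.sum_left]
  exact Finset.sum_congr rfl fun i _ => by rw [hf.comm]

theorem restrict (hf : IsSymB f) (W : Submodule F V) : IsSymB (fun x y : W => f x y) where
  add_left u u' v := hf.add_left _ _ _
  smul_left c u v := hf.smul_left _ _ _
  comm u v := hf.comm _ _

end IsSymB

section block

variable {ι : Type} [Fintype ι] [DecidableEq ι] {τ : ι → ι} {e : ι → V}

/-- Pairing a combination of the block vectors with a block vector. -/
theorem block_sum_e (hf : IsSymB f) (hτ : ∀ i, τ (τ i) = i)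
    (he : ∀ i j, f (e i) (e j) = if j = τ i then 1 else 0) (b : ι → F) (k : ι) :
    f (∑ i, b i • e i) (e k) = b (τ k) := by
  rw [hf.sum_left, Finset.sum_eq_single (τ k)]
  · rw [he, hτ, if_pos rfl, mul_one]
  · intro i _ hi
    rw [he, if_neg, mul_zero]
    intro h
    apply hi
    rw [h, hτ]
  · simp

theorem block_proj (hf : IsSymB f) (hτ : ∀ i, τ (τ i) = i)
    (he : ∀ i j, f (e i) (e j) = if j = τ i then 1 else 0) (v : V) (k : ι) :
    f (v - ∑ i, f v (e (τ i)) • e i) (e k) = 0 := by
  rw [hf.sub_left, block_sum_e hf hτ he, hτ, sub_self]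

/-- The orthogonal complement of a block, with everything needed in the recursion. -/
theorem block_reduce [FiniteDimensional F V] (hf : IsSymB f) (hnd : SymBNondeg f)
    (hτ : ∀ i, τ (τ i) = i)
    (he : ∀ i j, f (e i) (e j) = if j = τ i then 1 else 0) (N : V →ₗ[F] V)
    (hN2 : ∀ u v, f (N u) v = f u (N v)) (A : Matrix ι ι F)
    (hA : ∀ i, N (e i) = ∑ j, A i j • e j) :
    ∃ (W : Submodule F V) (NW : W →ₗ[F] W),
      (∀ x, x ∈ W ↔ ∀ i, f x (e i) = 0) ∧ (∀ x : W, (NW x : V) = N x) ∧
      SymBNondeg (fun x y : W => f x y) ∧ Module.finrank F W + Fintype.card ι = Module.finrank F V ∧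
      Module.finrank F (LinearMap.range N) =
        Module.finrank F (LinearMap.range (A.transpose.mulVecLin)) + Module.finrank F (LinearMap.range NW) := by
  let φ : V →ₗ[F] (ι → F) := LinearMap.pi fun i => hf.lin (e i)
  let W := LinearMap.ker φ
  have hmem : ∀ x, x ∈ W ↔ ∀ i, f x (e i) = 0 := by
    intro x
    rw [LinearMap.mem_ker]
    constructor
    · intro h i
      exact congrFun h i
    · intro h
      funext i
      exact h i
  have hstab : ∀ x ∈ W, N x ∈ W := by
    intro x hx
    rw [hmem] at hx ⊢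
    intro i
    rw [hN2, hA, hf.sum_right]
    simp [hx]
  let NW : W →ₗ[F] W := N.restrict hstab
  have hNW : ∀ x : W, (NW x : V) = N x := fun x => rfl
  have hpmem : ∀ v, v - ∑ i, f v (e (τ i)) • e i ∈ W := fun v =>
    (hmem _).mpr (block_proj hf hτ he v)
  refine ⟨W, NW, hmem, hNW, ?_, ?_, ?_⟩
  · intro x hx
    apply Subtype.ext
    apply hnd
    intro v
    have hx' := (hmem _).mp x.2
    have hy := hx ⟨_, hpmem v⟩
    have hdec : v = (∑ i, f v (e (τ i)) • e i) + (v - ∑ i, f v (e (τ i)) • e i) := by abel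
    rw [hdec, hf.add_right, hf.sum_right]
    simp only [hx', mul_zero, Finset.sum_const_zero, zero_add]
    exact hy
  · have h1 := LinearMap.finrank_range_add_finrank_ker φ
    have h2 : LinearMap.range φ = ⊤ := by
      rw [eq_top_iff]
      intro w _
      refine ⟨∑ i, w (τ i) • e i, ?_⟩
      funext k
      change f (∑ i, w (τ i) • e i) (e k) = w k
      rw [block_sum_e hf hτ he, hτ]
    rw [h2, finrank_top, Module.finrank_fintype_fun_eq_card] at h1
    have e1 : Module.finrank F W = Module.finrank F (LinearMap.ker φ) := rfl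
    omega
  · let L : (ι → F) →ₗ[F] V :=
      { toFun := fun b => ∑ i, b i • e i
        map_add' := fun a b => by
          simp [add_smul, Finset.sum_add_distrib]
        map_smul' := fun c a => by
          simp [mul_smul, Finset.smul_sum] }
    have hL : ∀ b, L b = ∑ i, b i • e i := fun b => rfl
    have hLinj : Function.Injective L := by
      rw [← LinearMap.ker_eq_bot, eq_bot_iff]
      intro b hb
      rw [LinearMap.mem_ker, hL] at hb
      rw [Submodule.mem_bot]
      funext i
      have := block_sum_e hf hτ he b (τ i)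
      rw [hb, hf.zero_left, hτ] at this
      exact this.symm
    have hNL : ∀ b, N (L b) = L (A.transpose.mulVecLin b) := by
      intro b
      rw [hL, hL, map_sum]
      simp only [map_smul, hA, Finset.smul_sum, Matrix.mulVecLin_apply, Matrix.mulVec, dotProduct,
        Matrix.transpose_apply, Finset.sum_smul]
      rw [Finset.sum_comm]
      exact Finset.sum_congr rfl fun i _ => Finset.sum_congr rfl fun j _ => by
        rw [smul_smul, mul_comm]
    let Rb := (LinearMap.range A.transpose.mulVecLin).map L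
    let R1 := (LinearMap.range NW).map W.subtype
    have hinf : Rb ⊓ R1 = ⊥ := by
      rw [eq_bot_iff]
      rintro x ⟨⟨b, -, rfl⟩, hx2⟩
      have hW : L b ∈ W := by
        obtain ⟨y, -, hy⟩ := hx2
        rw [← hy]
        exact y.2
      have hb : b = 0 := by
        funext i
        have := (hmem _).mp hW (τ i)
        rw [hL, block_sum_e hf hτ he, hτ] at this
        exact this
      rw [hb, map_zero]
      exact Submodule.zero_mem _
    have hsup : Rb ⊔ R1 = LinearMap.range N := by
      apply le_antisymm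
      · apply sup_le
        · rintro _ ⟨_, ⟨b, rfl⟩, rfl⟩
          exact ⟨L b, hNL b⟩
        · rintro _ ⟨_, ⟨y, rfl⟩, rfl⟩
          exact ⟨y, rfl⟩
      · rintro _ ⟨v, rfl⟩
        have hdec : v = L (fun i => f v (e (τ i))) + (v - ∑ i, f v (e (τ i)) • e i) := by
          rw [hL]
          abel
        rw [hdec, map_add, hNL]
        apply Submodule.add_mem
        · exact Submodule.mem_sup_left ⟨_, ⟨_, rfl⟩, rfl⟩
        · apply Submodule.mem_sup_right
          exact ⟨NW ⟨_, hpmem v⟩, ⟨⟨_, hpmem v⟩, rfl⟩, rfl⟩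
    have h3 := Submodule.finrank_sup_add_finrank_inf_eq Rb R1
    rw [hsup, hinf, finrank_bot, Submodule.finrank_map_subtype_eq, add_zero] at h3
    have h4 : Module.finrank F Rb = Module.finrank F (LinearMap.range A.transpose.mulVecLin) :=
      (Submodule.equivMapOfInjective L hLinj _).finrank_eq.symm
    rw [h3, h4]

/-- Expansion of the form along a block. -/
theorem block_expand (hf : IsSymB f) (hτ : ∀ i, τ (τ i) = i)
    (he : ∀ i j, f (e i) (e j) = if j = τ i then 1 else 0) (a b : ι → F) {x y : V}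
    (hx : ∀ i, f x (e i) = 0) (hy : ∀ i, f y (e i) = 0) :
    f (∑ i, a i • e i + x) (∑ i, b i • e i + y) = ∑ i, a i * b (τ i) + f x y := by
  have hey : ∀ i, f (e i) y = 0 := fun i => by rw [hf.comm, hy]
  rw [hf.add_left, hf.add_right, hf.add_right, hf.sum_left, hf.sum_left, hf.sum_right]
  simp only [hx, hey, mul_zero, Finset.sum_const_zero, add_zero, zero_add]
  congr 1
  refine Finset.sum_congr rfl fun i _ => ?_
  rw [hf.comm, block_sum_e hf hτ he]

/-- Gluing an isometry of the complements of two blocks with the same Gram data. -/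
theorem block_glue {V' : Type u} [AddCommGroup V'] [Module F V'] {f' : V' → V' → F} {e' : ι → V'}
    (hf : IsSymB f) (hf' : IsSymB f') (hτ : ∀ i, τ (τ i) = i)
    (he : ∀ i j, f (e i) (e j) = if j = τ i then 1 else 0)
    (he' : ∀ i j, f' (e' i) (e' j) = if j = τ i then 1 else 0) (N : V →ₗ[F] V) (N' : V' →ₗ[F] V')
    (A : Matrix ι ι F) (hA : ∀ i, N (e i) = ∑ j, A i j • e j) (hA' : ∀ i, N' (e' i) = ∑ j, A i j • e' j)
    (W : Submodule F V) (W' : Submodule F V') (NW : W →ₗ[F] W) (NW' : W' →ₗ[F] W')
    (hmem : ∀ x, x ∈ W ↔ ∀ i, f x (e i) = 0) (hmem' : ∀ x, x ∈ W' ↔ ∀ i, f' x (e' i) = 0)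
    (hNW : ∀ x : W, (NW x : V) = N x) (hNW' : ∀ x : W', (NW' x : V') = N' x)
    (g₀ : W →ₗ[F] W') (hg₀ : ∀ u v : W, f' (g₀ u) (g₀ v) = f u v)
    (hg₀N : ∀ v, NW' (g₀ v) = g₀ (NW v)) :
    ∃ g : V →ₗ[F] V', (∀ u v, f' (g u) (g v) = f u v) ∧ ∀ v, N' (g v) = g (N v) := by
  have hpmem : ∀ v, v - ∑ i, f v (e (τ i)) • e i ∈ W := fun v =>
    (hmem _).mpr (block_proj hf hτ he v)
  let P : V →ₗ[F] V := LinearMap.id - ∑ i, (hf.lin (e (τ i))).smulRight (e i)
  have hP : ∀ v, P v = v - ∑ i, f v (e (τ i)) • e i := fun v => by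
    simp [P, LinearMap.sum_apply, hf.lin_apply]
  let π : V →ₗ[F] W := LinearMap.codRestrict W P (fun v => by
      rw [hP]
      exact hpmem v)
  have hπ : ∀ v, (π v : V) = v - ∑ i, f v (e (τ i)) • e i := hP
  let g : V →ₗ[F] V' := ∑ i, (hf.lin (e (τ i))).smulRight (e' i) + W'.subtype ∘ₗ g₀ ∘ₗ π
  have hg : ∀ v, g v = ∑ i, f v (e (τ i)) • e' i + (g₀ (π v) : V') := fun v => by
    simp [g, LinearMap.sum_apply, hf.lin_apply]
  have hdec : ∀ v, v = ∑ i, f v (e (τ i)) • e i + (π v : V) := fun v => by
    rw [hπ]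
    abel
  have hτinj : ∀ i j, τ i = τ j → i = j := fun i j h => by
    rw [← hτ i, ← hτ j, h]
  have hgW : ∀ x : W, g x = (g₀ x : V') := by
    intro x
    have hx := (hmem _).mp x.2
    have h1 : π x = x := by
      apply Subtype.ext
      rw [hπ]
      simp [hx]
    rw [hg, h1]
    simp [hx]
  have hge : ∀ i, g (e i) = e' i := by
    intro i
    have h0 : ∀ k, f (e i) (e (τ k)) = if k = i then 1 else 0 := by
      intro k
      rw [he]
      by_cases hk : k = i
      · simp [hk]
      · rw [if_neg hk, if_neg]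
        exact fun h => hk (hτinj _ _ h)
    have h1 : π (e i) = 0 := by
      apply Subtype.ext
      rw [hπ]
      simp [h0]
    rw [hg, h1]
    simp [h0]
  refine ⟨g, fun u v => ?_, fun v => ?_⟩
  · rw [hg, hg, block_expand hf' hτ he' _ _ ((hmem' _).mp (g₀ (π u)).2) ((hmem' _).mp (g₀ (π v)).2)]
    have e1 := hg₀ (π u) (π v)
    change f' (g₀ (π u) : V') (g₀ (π v) : V') = f (π u : V) (π v : V) at e1
    rw [e1]
    have e2 := block_expand hf hτ he (fun i => f u (e (τ i))) (fun i => f v (e (τ i)))
      ((hmem _).mp (π u).2) ((hmem _).mp (π v).2)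
    rw [← hdec, ← hdec] at e2
    exact e2.symm
  · have e1 : N' (g₀ (π v) : V') = (g₀ (NW (π v)) : V') := by
      rw [← hNW', hg₀N]
    have e2 : g (N (π v : V)) = (g₀ (NW (π v)) : V') := by
      rw [← hNW, hgW]
    have e3 : g (N v) = ∑ i, f v (e (τ i)) • N' (e' i) + g (N (π v : V)) := by
      conv_lhs => rw [hdec v]
      rw [map_add, map_add, map_sum, map_sum]
      congr 1
      refine Finset.sum_congr rfl fun i _ => ?_
      rw [map_smul, map_smul, hA, hA', map_sum]
      congr 1
      refine Finset.sum_congr rfl fun j _ => ?_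
      rw [map_smul, hge]
    rw [e3, e2, hg, map_add, map_sum, e1]
    congr 1
    exact Finset.sum_congr rfl fun i _ => by rw [map_smul]

end block

end Cfsg.Agent.Lib.KnownSimple
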