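import Cfsg.Agent.Lib.KnownSimple.SympBlock

/-! Involutions of symplectic spaces in characteristic two: the rank and the alternating type
determine the isometry class. -/

set_option autoImplicit false

namespace Cfsg.Agent.Lib.KnownSimple

universe u v

variable {F : Type v} [Field F] [CharP F 2] {V : Type u} [AddCommGroup V] [Module F V] {f : V → V → F}

/-- The first kind of block: a non-alternating direction, with control on the complement. -/
theorem exists_blockA (hsqrt : ∀ t : F, ∃ l, l * l = t) (hf : IsSymB f) (halt : ∀ v, f v v = 0)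
    (hnd : SymBNondeg f) (N : V →ₗ[F] V) (hN1 : ∀ v, N (N v) = 0) (hN2 : ∀ u v, f (N u) v = f u (N v))
    (hnalt : ¬ ∀ v, f v (N v) = 0) :
    ∃ c, f c (N c) = 1 ∧ ((∀ x, f x (N c) = 0 → f x c = 0 → N x = 0) ∨
      ∃ x, f x (N c) = 0 ∧ f x c = 0 ∧ f x (N x) ≠ 0) := by
  have hsym : ∀ x y, f (N x) y = f (N y) x := by
    intro x y
    rw [hN2, hf.comm]
  have h2 : ∀ x : F, x + x = 0 := CharTwo.add_self_eq_zero
  push Not at hnalt
  obtain ⟨v, hv⟩ := hnalt
  obtain ⟨l, hl⟩ := hsqrt (f v (N v))⁻¹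
  obtain ⟨c₀, hc₀⟩ : ∃ c₀, c₀ = l • v := ⟨_, rfl⟩
  have hc₀1 : f c₀ (N c₀) = 1 := by
    rw [hc₀, map_smul, hf.smul_left, hf.smul_right, ← mul_assoc, hl, inv_mul_cancel₀ hv]
  have hr0 : f (N c₀) c₀ = 1 := by rw [hN2]; exact hc₀1
  have hrr0 : f (N c₀) (N c₀) = 0 := halt _
  by_cases hcase1 : ∀ x, f x (N c₀) = 0 → f x c₀ = 0 → N x = 0
  · exact ⟨c₀, hc₀1, Or.inl hcase1⟩
  by_cases hcase2 : ∃ x, f x (N c₀) = 0 ∧ f x c₀ = 0 ∧ f x (N x) ≠ 0
  · exact ⟨c₀, hc₀1, Or.inr hcase2⟩
  push Not at hcase1 hcase2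
  obtain ⟨y, hy1, hy2, hy3⟩ := hcase1
  -- a partner of `y` inside the complement
  obtain ⟨x₀, hx₀⟩ : ∃ x₀, f (N y) x₀ ≠ 0 := by
    by_contra hcon
    push Not at hcon
    exact hy3 (hnd _ hcon)
  have hNyc : f (N y) c₀ = 0 := by rw [hN2]; exact hy1
  have hNyr : f (N y) (N c₀) = 0 := by rw [hN2, hN1, hf.zero_right]
  obtain ⟨x₁, hx₁⟩ : ∃ x₁, x₁ = x₀ - f x₀ (N c₀) • c₀ - f x₀ c₀ • N c₀ := ⟨_, rfl⟩
  have hx₁a : f x₁ (N c₀) = 0 := by
    rw [hx₁, hf.sub_left, hf.sub_left, hf.smul_left, hf.smul_left, hc₀1, hrr0]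
    ring
  have hx₁b : f x₁ c₀ = 0 := by
    rw [hx₁, hf.sub_left, hf.sub_left, hf.smul_left, hf.smul_left, halt, hr0]
    ring
  have hx₁c : f x₁ (N y) ≠ 0 := by
    rw [hf.comm x₁, hx₁]
    have e : f (N y) (x₀ - f x₀ (N c₀) • c₀ - f x₀ c₀ • N c₀) = f (N y) x₀ := by
      rw [hf.comm, hf.sub_left, hf.sub_left, hf.smul_left, hf.smul_left, hf.comm c₀, hNyc,
        hf.comm (N c₀), hNyr, hf.comm x₀]
      ring
    rw [e]
    exact hx₀
  obtain ⟨x, hx⟩ : ∃ x, x = (f x₁ (N y))⁻¹ • x₁ := ⟨_, rfl⟩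
  have hxa : f x (N c₀) = 0 := by rw [hx, hf.smul_left, hx₁a, mul_zero]
  have hxb : f x c₀ = 0 := by rw [hx, hf.smul_left, hx₁b, mul_zero]
  have hxc : f x (N y) = 1 := by rw [hx, hf.smul_left, inv_mul_cancel₀ hx₁c]
  have hxx : f x (N x) = 0 := hcase2 x hxa hxb
  have hyy : f y (N y) = 0 := hcase2 y hy1 hy2
  have hc₀x : f c₀ (N x) = 0 := by
    rw [← hN2, hf.comm]
    exact hxa
  have hc₀y : f c₀ (N y) = 0 := by
    rw [← hN2, hf.comm]
    exact hy1
  have hyNx : f y (N x) = 1 := by
    rw [← hN2, hf.comm, hxc]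
  have hcN : N (c₀ + x) = N c₀ + N x := map_add _ _ _
  have hc1 : f (c₀ + x) (N (c₀ + x)) = 1 := by
    rw [hcN, hf.add_left, hf.add_right, hf.add_right, hc₀1, hc₀x, hxa, hxx]
    ring
  have hz1 : f (c₀ + y) (N (c₀ + y)) = 1 := by
    rw [map_add, hf.add_left, hf.add_right, hf.add_right, hc₀1, hc₀y, hy1, hyy]
    ring
  have hzNc : f (c₀ + y) (N (c₀ + x)) = 0 := by
    rw [hcN, hf.add_left, hf.add_right, hf.add_right, hc₀1, hc₀x, hy1, hyNx]
    simpa using h2 1
  have hrc : f (N (c₀ + x)) (c₀ + x) = 1 := by rw [hN2]; exact hc1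
  obtain ⟨β, hβ⟩ : ∃ β, β = f (c₀ + y) (c₀ + x) := ⟨_, rfl⟩
  refine ⟨c₀ + x, hc1, Or.inr ⟨(c₀ + y) + β • N (c₀ + x), ?_, ?_, ?_⟩⟩
  · rw [hf.add_left, hf.smul_left, hzNc, halt, mul_zero, add_zero]
  · rw [hf.add_left, hf.smul_left, hrc, mul_one, ← hβ]
    exact h2 β
  · have e : N ((c₀ + y) + β • N (c₀ + x)) = N (c₀ + y) := by
      rw [map_add, map_smul, hN1, smul_zero, add_zero]
    rw [e, hf.add_left, hf.smul_left, hz1, hN2, hN1, hf.zero_right, mul_zero, add_zero]
    exact one_ne_zero

/-- The second kind of block, for an alternating direction. -/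
theorem exists_blockB (hf : IsSymB f) (hnd : SymBNondeg f) (N : V →ₗ[F] V)
    (hN1 : ∀ v, N (N v) = 0) (hN0 : N ≠ 0) :
    ∃ c₁ c₂, f c₁ c₂ = 0 ∧ f c₁ (N c₂) = 1 := by
  obtain ⟨v, hv⟩ : ∃ v, N v ≠ 0 := by
    by_contra hcon
    push Not at hcon
    exact hN0 (LinearMap.ext hcon)
  obtain ⟨u, hu⟩ : ∃ u, f (N v) u ≠ 0 := by
    by_contra hcon
    push Not at hcon
    exact hv (hnd _ hcon)
  have hu' : f u (N v) ≠ 0 := by rwa [hf.comm]
  obtain ⟨c₁, hc₁⟩ : ∃ c₁, c₁ = (f u (N v))⁻¹ • u := ⟨_, rfl⟩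
  have h1 : f c₁ (N v) = 1 := by rw [hc₁, hf.smul_left, inv_mul_cancel₀ hu']
  refine ⟨c₁, v + f c₁ v • N v, ?_, ?_⟩
  · rw [hf.add_right, hf.smul_right, h1, mul_one]
    exact CharTwo.add_self_eq_zero _
  · rw [map_add, map_smul, hN1, smul_zero, add_zero, h1]

/-- Two symplectic spaces, each with a square-zero self-adjoint map, of the same dimension, rank
and alternating type, are isometric by a map intertwining the square-zero maps. -/
theorem exists_isometry_symp (hsqrt : ∀ t : F, ∃ l, l * l = t) (d : ℕ) :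
    ∀ {V V' : Type u} [AddCommGroup V] [Module F V] [FiniteDimensional F V] [AddCommGroup V']
      [Module F V'] [FiniteDimensional F V'] {f : V → V → F} {f' : V' → V' → F},
      IsSymB f → IsSymB f' → (∀ v, f v v = 0) → (∀ v, f' v v = 0) → SymBNondeg f → SymBNondeg f' →
      ∀ (N : V →ₗ[F] V) (N' : V' →ₗ[F] V'), (∀ v, N (N v) = 0) → (∀ u v, f (N u) v = f u (N v)) →
      (∀ v, N' (N' v) = 0) → (∀ u v, f' (N' u) v = f' u (N' v)) →
      Module.finrank F V = d → Module.finrank F V' = d →
      Module.finrank F (LinearMap.range N) = Module.finrank F (LinearMap.range N') →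
      ((∀ v, f v (N v) = 0) ↔ ∀ v, f' v (N' v) = 0) →
      ∃ g : V →ₗ[F] V', (∀ u v, f' (g u) (g v) = f u v) ∧ ∀ v, N' (g v) = g (N v) := by
  induction d using Nat.strong_induction_on with
  | _ d ih =>
    intro V V' _ _ _ _ _ _ f f' hf hf' halt halt' hnd hnd' N N' hN1 hN2 hN1' hN2' hd hd' hrk hty
    -- one reduction step, for arbitrary matching blocks
    have step : ∀ {ι : Type} [Fintype ι] [DecidableEq ι] [Nonempty ι] (τ : ι → ι) (e : ι → V) (e' : ι → V')
        (A : Matrix ι ι F), (∀ i, τ (τ i) = i) → (∀ i j, f (e i) (e j) = if j = τ i then 1 else 0) →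
        (∀ i j, f' (e' i) (e' j) = if j = τ i then 1 else 0) → (∀ i, N (e i) = ∑ j, A i j • e j) →
        (∀ i, N' (e' i) = ∑ j, A i j • e' j) →
        (∀ (W : Submodule F V) (W' : Submodule F V') (NW : W →ₗ[F] W) (NW' : W' →ₗ[F] W'),
          (∀ x, x ∈ W ↔ ∀ i, f x (e i) = 0) → (∀ x, x ∈ W' ↔ ∀ i, f' x (e' i) = 0) →
          (∀ x : W, (NW x : V) = N x) → (∀ x : W', (NW' x : V') = N' x) →
          Module.finrank F (LinearMap.range NW) = Module.finrank F (LinearMap.range NW') →
          ((∀ x : W, f x (NW x : V) = 0) ↔ (∀ x : W', f' x (NW' x : V') = 0))) →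
        ∃ g : V →ₗ[F] V', (∀ u v, f' (g u) (g v) = f u v) ∧ ∀ v, N' (g v) = g (N v) := by
      intro ι _ _ _ τ e e' A hτ he he' hA hA' hty'
      obtain ⟨W, NW, hmem, hNW, hndW, hfr, hrkW⟩ := block_reduce hf hnd hτ he N hN2 A hA
      obtain ⟨W', NW', hmem', hNW', hndW', hfr', hrkW'⟩ := block_reduce hf' hnd' hτ he' N' hN2' A hA'
      have hpos : 0 < Fintype.card ι := Fintype.card_pos
      have hrkWW : Module.finrank F (LinearMap.range NW) = Module.finrank F (LinearMap.range NW') := by omega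
      obtain ⟨g₀, hg₀, hg₀N⟩ := ih (Module.finrank F W) (by omega) (hf.restrict W) (hf'.restrict W')
        (fun v => halt _) (fun v => halt' _) hndW hndW' NW NW'
        (fun x => Subtype.ext (by rw [hNW, hNW, hN1]; rfl))
        (fun x y => by
          change f (NW x : V) y = f x (NW y : V)
          rw [hNW, hNW, hN2])
        (fun x => Subtype.ext (by rw [hNW', hNW', hN1']; rfl))
        (fun x y => by
          change f' (NW' x : V') y = f' x (NW' y : V')
          rw [hNW', hNW', hN2'])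
        rfl (by omega) hrkWW (hty' W W' NW NW' hmem hmem' hNW hNW' hrkWW)
      exact block_glue hf hf' hτ he he' N N' A hA hA' W W' NW NW' hmem hmem' hNW hNW' g₀ hg₀ hg₀N
    -- two facts on the rank
    have hzero : ∀ {W : Submodule F V'} (NW : W →ₗ[F] W),
        Module.finrank F (LinearMap.range NW) = 0 → NW = 0 := by
      intro W NW h
      exact LinearMap.range_eq_bot.mp (Submodule.finrank_eq_zero.mp h)
    have hzero0 : ∀ {W : Submodule F V} (NW : W →ₗ[F] W),
        Module.finrank F (LinearMap.range NW) = 0 → NW = 0 := by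
      intro W NW h
      exact LinearMap.range_eq_bot.mp (Submodule.finrank_eq_zero.mp h)
    by_cases hN0 : N = 0
    · have hN0' : N' = 0 := by
        rw [hN0, LinearMap.range_zero, finrank_bot] at hrk
        exact LinearMap.range_eq_bot.mp (Submodule.finrank_eq_zero.mp hrk.symm)
      by_cases hd0 : d = 0
      · have hs : Subsingleton V := Module.finrank_zero_iff.mp (hd.trans hd0)
        refine ⟨0, fun u v => ?_, fun v => ?_⟩
        · rw [LinearMap.zero_apply, LinearMap.zero_apply, hf'.zero_left, Subsingleton.elim u 0, hf.zero_left]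
        · simp [hN0']
      · have hnt : Nontrivial V := Module.nontrivial_of_finrank_pos (R := F) (by omega)
        have hnt' : Nontrivial V' := Module.nontrivial_of_finrank_pos (R := F) (by omega)
        have pair : ∀ {V : Type u} [AddCommGroup V] [Module F V] [Nontrivial V] {f : V → V → F},
            IsSymB f → SymBNondeg f → ∃ c d, f c d = 1 := by
          intro V _ _ _ f hf hnd
          obtain ⟨u, hu⟩ := exists_ne (0 : V)
          obtain ⟨v, hv⟩ : ∃ v, f u v ≠ 0 := by
            by_contra hcon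
            push Not at hcon
            exact hu (hnd _ hcon)
          exact ⟨(f u v)⁻¹ • u, v, by rw [hf.smul_left, inv_mul_cancel₀ hv]⟩
        obtain ⟨c, c₂, hc⟩ := pair hf hnd
        obtain ⟨c', c₂', hc'⟩ := pair hf' hnd'
        have gram : ∀ {V : Type u} [AddCommGroup V] [Module F V] {f : V → V → F} {c c₂ : V},
            IsSymB f → (∀ v, f v v = 0) → f c c₂ = 1 →
            ∀ i j, f ((![c, c₂] : Fin 2 → V) i) ((![c, c₂] : Fin 2 → V) j) = if j = i + 1 then 1 else 0 := by
          intro V _ _ f c c₂ hf halt hc i j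
          have h2 : f c₂ c = 1 := by rw [hf.comm]; exact hc
          fin_cases i <;> fin_cases j <;> simp [halt, hc, h2]
        refine step (ι := Fin 2) (fun i => i + 1) ![c, c₂] ![c', c₂'] 0 (by decide) (gram hf halt hc) (gram hf' halt' hc')
          ?_ ?_ ?_
        · intro i
          simp [hN0]
        · intro i
          simp [hN0']
        · intro W W' NW NW' hmem hmem' hNW hNW' _
          constructor
          · intro _ x
            rw [hNW', hN0', LinearMap.zero_apply, hf'.zero_right]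
          · intro _ x
            rw [hNW, hN0, LinearMap.zero_apply, hf.zero_right]
    · have hN0' : N' ≠ 0 := by
        intro hcon
        rw [hcon, LinearMap.range_zero, finrank_bot] at hrk
        exact hN0 (LinearMap.range_eq_bot.mp (Submodule.finrank_eq_zero.mp hrk))
      by_cases hty1 : ∀ v, f v (N v) = 0
      · have hty2 := hty.mp hty1
        obtain ⟨c₁, c₂, h12, h1N2⟩ := exists_blockB hf hnd N hN1 hN0
        obtain ⟨c₁', c₂', h12', h1N2'⟩ := exists_blockB hf' hnd' N' hN1' hN0'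
        have gram : ∀ {V : Type u} [AddCommGroup V] [Module F V] {f : V → V → F} {c₁ c₂ : V} {N : V →ₗ[F] V},
            IsSymB f → (∀ v, f v v = 0) → (∀ v, N (N v) = 0) → (∀ u v, f (N u) v = f u (N v)) →
            (∀ v, f v (N v) = 0) → f c₁ c₂ = 0 → f c₁ (N c₂) = 1 →
            ∀ i j, f ((![c₁, c₂, N c₁, N c₂] : Fin 4 → V) i) ((![c₁, c₂, N c₁, N c₂] : Fin 4 → V) j)
              = if j = Fin.rev i then 1 else 0 := by
          intro V _ _ f c₁ c₂ N hf halt hN1 hN2 hty h12 h1N2 i j
          have e1 : f c₂ c₁ = 0 := by rw [hf.comm]; exact h12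
          have e2 : f (N c₂) c₁ = 1 := by rw [hf.comm]; exact h1N2
          have e3 : f (N c₁) c₂ = 1 := by rw [hN2]; exact h1N2
          have e4 : f c₂ (N c₁) = 1 := by rw [hf.comm]; exact e3
          have e5 : f (N c₁) c₁ = 0 := by rw [hf.comm]; exact hty c₁
          have e6 : f (N c₂) c₂ = 0 := by rw [hf.comm]; exact hty c₂
          have e7 : ∀ x y, f (N x) (N y) = 0 := fun x y => by rw [hN2, hN1, hf.zero_right]
          fin_cases i <;> fin_cases j <;> simp [halt, hty, h12, h1N2, e1, e2, e3, e4, e5, e6, e7, Fin.rev]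
        have hAmat : ∀ {V : Type u} [AddCommGroup V] [Module F V] {c₁ c₂ : V} {N : V →ₗ[F] V},
            (∀ v, N (N v) = 0) → ∀ i, N ((![c₁, c₂, N c₁, N c₂] : Fin 4 → V) i)
              = ∑ j, (!![0, 0, 1, 0; 0, 0, 0, 1; 0, 0, 0, 0; 0, 0, 0, 0] : Matrix (Fin 4) (Fin 4) F) i j •
                (![c₁, c₂, N c₁, N c₂] : Fin 4 → V) j := by
          intro V _ _ c₁ c₂ N hN1 i
          fin_cases i <;> simp [Fin.sum_univ_four, hN1]
        refine step (ι := Fin 4) Fin.rev ![c₁, c₂, N c₁, N c₂] ![c₁', c₂', N' c₁', N' c₂']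
          !![0, 0, 1, 0; 0, 0, 0, 1; 0, 0, 0, 0; 0, 0, 0, 0] Fin.rev_rev
          (gram hf halt hN1 hN2 hty1 h12 h1N2) (gram hf' halt' hN1' hN2' hty2 h12' h1N2')
          (hAmat hN1) (hAmat hN1') ?_
        intro W W' NW NW' hmem hmem' hNW hNW' _
        constructor
        · intro _ x
          rw [hNW']
          exact hty2 _
        · intro _ x
          rw [hNW]
          exact hty1 _
      · have hty2 : ¬ ∀ v, f' v (N' v) = 0 := fun h => hty1 (hty.mpr h)
        obtain ⟨c, hc, hcW⟩ := exists_blockA hsqrt hf halt hnd N hN1 hN2 hty1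
        obtain ⟨c', hc', hcW'⟩ := exists_blockA hsqrt hf' halt' hnd' N' hN1' hN2' hty2
        have gram : ∀ {V : Type u} [AddCommGroup V] [Module F V] {f : V → V → F} {c : V} {N : V →ₗ[F] V},
            IsSymB f → (∀ v, f v v = 0) → f c (N c) = 1 →
            ∀ i j, f ((![c, N c] : Fin 2 → V) i) ((![c, N c] : Fin 2 → V) j) = if j = i + 1 then 1 else 0 := by
          intro V _ _ f c N hf halt hc i j
          have h2 : f (N c) c = 1 := by rw [hf.comm]; exact hc
          fin_cases i <;> fin_cases j <;> simp [halt, hc, h2]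
        have hAmat : ∀ {V : Type u} [AddCommGroup V] [Module F V] {c : V} {N : V →ₗ[F] V},
            (∀ v, N (N v) = 0) → ∀ i, N ((![c, N c] : Fin 2 → V) i)
              = ∑ j, (!![0, 1; 0, 0] : Matrix (Fin 2) (Fin 2) F) i j • (![c, N c] : Fin 2 → V) j := by
          intro V _ _ c N hN1 i
          fin_cases i <;> simp [Fin.sum_univ_two, hN1]
        refine step (ι := Fin 2) (fun i => i + 1) ![c, N c] ![c', N' c'] !![0, 1; 0, 0] (by decide)
          (gram hf halt hc) (gram hf' halt' hc') (hAmat hN1) (hAmat hN1') ?_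
        intro W W' NW NW' hmem hmem' hNW hNW' hrkWW
        -- the type of the complement is controlled by its rank
        have hmemc : ∀ x, x ∈ W ↔ f x (N c) = 0 ∧ f x c = 0 := by
          intro x
          rw [hmem, Fin.forall_fin_two]
          simp only [Matrix.cons_val_zero, Matrix.cons_val_one]
          exact and_comm
        have hmemc' : ∀ x, x ∈ W' ↔ f' x (N' c') = 0 ∧ f' x c' = 0 := by
          intro x
          rw [hmem', Fin.forall_fin_two]
          simp only [Matrix.cons_val_zero, Matrix.cons_val_one]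
          exact and_comm
        constructor
        · intro halt0 x
          have h0 : NW = 0 := by
            rcases hcW with h | ⟨y, hy1, hy2, hy3⟩
            · ext z
              rw [hNW]
              obtain ⟨h1, h2⟩ := (hmemc _).mp z.2
              simpa using h _ h1 h2
            · exfalso
              apply hy3
              have := halt0 ⟨y, (hmemc _).mpr ⟨hy1, hy2⟩⟩
              rwa [hNW] at this
          have h1 : NW' = 0 := by
            apply hzero
            rw [← hrkWW, h0, LinearMap.range_zero, finrank_bot]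
          rw [h1, LinearMap.zero_apply]
          exact hf'.zero_right _
        · intro halt0 x
          have h0 : NW' = 0 := by
            rcases hcW' with h | ⟨y, hy1, hy2, hy3⟩
            · ext z
              rw [hNW']
              obtain ⟨h1, h2⟩ := (hmemc' _).mp z.2
              simpa using h _ h1 h2
            · exfalso
              apply hy3
              have := halt0 ⟨y, (hmemc' _).mpr ⟨hy1, hy2⟩⟩
              rwa [hNW'] at this
          have h1 : NW = 0 := by
            apply hzero0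
            rw [hrkWW, h0, LinearMap.range_zero, finrank_bot]
          rw [h1, LinearMap.zero_apply]
          exact hf.zero_right _

end Cfsg.Agent.Lib.KnownSimple
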